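import Mathlib
import Cfsg.Agent.H4.Cyc2
import Cfsg.Agent.H4.Control
import Cfsg.Agent.H20.HW
import Cfsg.Agent.H18.MonoTransfer

/-! The Hall–Wielandt transfer theorem. -/

set_option autoImplicit false
set_option linter.unusedSectionVars false
set_option linter.unusedVariables false

namespace Cfsg.Agent.H4

open Subgroup Cfsg.Agent.H22 Finset
open Cfsg.Agent.H18 (SylIn exists_sylIn_ge sylIn_top sylIn_map_subtype sylIn_of_not_dvd_relIndex)
open scoped commutatorElement Pointwise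

section Cocycle

variable {G : Type*} [Group G] {X : Type*} [MulAction G X] [Fintype X] {A : Type*} [CommGroup A]

open Classical in
/-- the orbit of `q` under `U` -/
noncomputable def orb (U : Subgroup G) (q : X) : Finset X := univ.filter fun x => ∃ u ∈ U, u • q = x

theorem mem_orb {U : Subgroup G} {q x : X} : x ∈ orb U q ↔ ∃ u ∈ U, u • q = x := by
  classical
  simp [orb]

theorem orb_eq {U : Subgroup G} {q x : X} (h : x ∈ orb U q) : orb U x = orb U q := by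
  obtain ⟨u, hu, rfl⟩ := mem_orb.1 h
  ext y
  simp only [mem_orb]
  exact ⟨fun ⟨v, hv, e⟩ => ⟨v * u, mul_mem hv hu, by rw [mul_smul, e]⟩,
    fun ⟨v, hv, e⟩ => ⟨v * u⁻¹, mul_mem hv (inv_mem hu), by rw [mul_smul, inv_smul_smul, e]⟩⟩

theorem self_mem_orb (U : Subgroup G) (q : X) : q ∈ orb U q := mem_orb.2 ⟨1, one_mem _, one_smul _ _⟩

theorem smul_mem_orb {U : Subgroup G} {q x : X} {u : G} (hu : u ∈ U) (h : x ∈ orb U q) :
    u • x ∈ orb U q := orb_eq h ▸ mem_orb.2 ⟨u, hu, rfl⟩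

theorem prod_orbits (U : Subgroup G) (O : Finset X) (hO : ∀ u ∈ U, ∀ q ∈ O, u • q ∈ O) (f : X → A)
    (h : ∀ q ∈ O, ∏ x ∈ orb U q, f x = 1) : ∏ x ∈ O, f x = 1 := by
  classical
  rw [← prod_fiberwise_of_maps_to (t := O.image (orb U)) (g := orb U) fun x hx => mem_image_of_mem _ hx]
  refine prod_eq_one fun j hj => ?_
  obtain ⟨q, hq, rfl⟩ := mem_image.1 hj
  rw [← h q hq]
  refine prod_congr ?_ fun _ _ => rfl
  ext x
  rw [mem_filter]
  refine ⟨fun hx => hx.2 ▸ self_mem_orb U x, fun hx => ⟨?_, orb_eq hx⟩⟩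
  obtain ⟨u, hu, rfl⟩ := mem_orb.1 hx
  exact hO u hu q hq

theorem prod_smul_orb {U : Subgroup G} {u : G} (hu : u ∈ U) (q : X) (f : X → A) :
    ∏ x ∈ orb U q, f (u • x) = ∏ x ∈ orb U q, f x :=
  prod_nbij' (fun x => u • x) (fun x => u⁻¹ • x) (fun x hx => smul_mem_orb hu hx)
    (fun x hx => smul_mem_orb (inv_mem hu) hx) (fun x _ => inv_smul_smul _ _)
    (fun x _ => smul_inv_smul _ _) fun _ _ => rfl

theorem prod_orb_split {M U : Subgroup G} {z : G} {m : ℕ} {q : X} (hMU : M ≤ U) (hz : z ∈ U)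
    (hst : ∀ y ∈ U, y • q = q → y ∈ M) (hm : ∀ i : ℕ, z ^ i ∈ M ↔ m ∣ i) (h0 : 0 < m)
    (hs : ∀ y ∈ U, ∃ i : ℕ, ∃ x ∈ M, y = z ^ i * x) (f : X → A) :
    ∏ x ∈ orb U q, f x = ∏ i ∈ range m, ∏ x ∈ orb M q, f (z ^ i • x) := by
  rw [← prod_product']
  symm
  have key : ∀ i j : ℕ, i ≤ j → j < m → ∀ a ∈ M, ∀ b ∈ M, z ^ i • a • q = z ^ j • b • q → i = j := by
    intro i j hij hj a ha b hb e
    obtain ⟨d, rfl⟩ := Nat.exists_eq_add_of_le hij
    rw [pow_add, mul_smul, smul_left_cancel_iff] at e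
    have h1 := hst (a⁻¹ * z ^ d * b) (mul_mem (mul_mem (inv_mem (hMU ha)) (pow_mem hz d)) (hMU hb))
      (by rw [mul_smul, mul_smul, ← e, inv_smul_smul])
    rw [mul_mem_cancel_right hb, mul_mem_cancel_left (inv_mem ha), hm] at h1
    have := Nat.eq_zero_of_dvd_of_lt h1 (by omega)
    omega
  refine prod_bij (fun a _ => z ^ a.1 • a.2) (fun a ha => ?_) (fun a ha b hb e => ?_) (fun x hx => ?_)
    fun _ _ => rfl
  · obtain ⟨u, hu, e⟩ := mem_orb.1 (mem_product.1 ha).2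
    exact mem_orb.2 ⟨z ^ a.1 * u, mul_mem (pow_mem hz _) (hMU hu), by rw [mul_smul, e]⟩
  · obtain ⟨u, hu, e1⟩ := mem_orb.1 (mem_product.1 ha).2
    obtain ⟨v, hv, e2⟩ := mem_orb.1 (mem_product.1 hb).2
    have h1 := mem_range.1 (mem_product.1 ha).1
    have h2 := mem_range.1 (mem_product.1 hb).1
    have h3 : a.1 = b.1 := by
      rcases le_total a.1 b.1 with h | h
      · exact key _ _ h h2 u hu v hv (by rw [e1, e2]; exact e)
      · exact (key _ _ h h1 v hv u hu (by rw [e1, e2]; exact e.symm)).symm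
    refine Prod.ext h3 ?_
    simp only [h3, smul_left_cancel_iff] at e
    exact e
  · obtain ⟨y, hy, rfl⟩ := mem_orb.1 hx
    obtain ⟨i, x, hx', rfl⟩ := hs y hy
    refine ⟨(i % m, (z ^ (m * (i / m)) * x) • q), mem_product.2 ⟨mem_range.2 (Nat.mod_lt _ h0),
      mem_orb.2 ⟨_, mul_mem ((hm _).2 (dvd_mul_right _ _)) hx', rfl⟩⟩, ?_⟩
    simp only
    rw [← mul_smul, ← mul_assoc, ← pow_add, Nat.mod_add_div]

variable {K : G → X → A} (hK : ∀ g h q, K (g * h) q = K g (h • q) * K h q)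
include hK

theorem coc_one (q : X) : K 1 q = 1 := by
  have := hK 1 1 q
  rw [one_smul, one_mul] at this
  exact left_eq_mul.1 this

theorem coc_pow (u : G) (q : X) (m : ℕ) : K (u ^ m) q = ∏ i ∈ range m, K u (u ^ i • q) := by
  induction m with
  | zero => simp [coc_one hK]
  | succ m ih => rw [pow_succ', hK, ih, prod_range_succ, mul_comm]

theorem prod_orb_zpowers [Finite G] (u : G) (q : X) :
    ∏ x ∈ orb (zpowers u) q, K u x = K (u ^ MulAction.period u q) q := by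
  have h1 : orb (zpowers u ⊓ MulAction.stabilizer G q) q = {q} := by
    ext x
    rw [mem_orb, mem_singleton]
    exact ⟨fun ⟨y, hy, e⟩ => e ▸ hy.2, fun e => ⟨1, one_mem _, by rw [one_smul, e]⟩⟩
  rw [prod_orb_split (M := zpowers u ⊓ MulAction.stabilizer G q) (m := MulAction.period u q) inf_le_left
    (mem_zpowers u) (fun y hy e => ⟨hy, e⟩) (fun i => ?_)
    (MulAction.period_pos_of_orderOf_pos (orderOf_pos u) q) fun y hy => ?_, h1, coc_pow hK]
  · simp
  · rw [← MulAction.pow_smul_eq_iff_period_dvd]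
    exact ⟨fun h => h.2, fun h => ⟨npow_mem_zpowers _ _, h⟩⟩
  · obtain ⟨i, hi⟩ := (mem_powers_iff_mem_zpowers.2 hy)
    exact ⟨i, 1, one_mem _, by rw [mul_one]; exact hi.symm⟩

theorem prod_orb_mul {M : Subgroup G} (q : X) (x : G) {y : G} (hy : y ∈ M) :
    ∏ a ∈ orb M q, K (x * y) a = (∏ a ∈ orb M q, K x a) * ∏ a ∈ orb M q, K y a := by
  simp only [hK, prod_mul_distrib]
  rw [prod_smul_orb hy q (K x)]

theorem prod_orb_conj {M : Subgroup G} (q : X) {u t : G} (h : t⁻¹ * u * t ∈ M) :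
    ∏ a ∈ orb M q, K u (t • a) = ∏ a ∈ orb M q, K (t⁻¹ * u * t) a := by
  have h1 := prod_orb_mul hK q t h
  rw [show t * (t⁻¹ * u * t) = u * t by group] at h1
  simp only [hK u t, prod_mul_distrib] at h1
  rw [mul_comm] at h1
  exact mul_left_cancel h1

end Cocycle

theorem dvd_choose_pred {p : ℕ} (hp : p.Prime) (j : ℕ) (hj : j ≤ p - 1) :
    (p : ℤ) ∣ (-1) ^ j * ((p - 1).choose j : ℤ) - 1 := by
  induction j with
  | zero => simp
  | succ j ih =>
    have h1 := hp.pos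
    have h2 : (p.choose (j + 1) : ℤ) = (p - 1).choose j + (p - 1).choose (j + 1) := by
      rw [← Nat.cast_add, ← Nat.choose_succ_succ', Nat.sub_add_cancel h1]
    have h3 : (p : ℤ) ∣ p.choose (j + 1) := Int.natCast_dvd_natCast.2 (hp.dvd_choose_self (by omega) (by omega))
    have : (-1) ^ (j + 1) * ((p - 1).choose (j + 1) : ℤ) - 1 =
        (-1) ^ (j + 1) * p.choose (j + 1) + ((-1) ^ j * ((p - 1).choose j : ℤ) - 1) := by
      rw [h2]; ring
    rw [this]
    exact dvd_add (h3.mul_left _) (ih (by omega))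

theorem prod_conj_eq_iter {G : Type*} [Group G] {A : Type*} [CommGroup A] {p : ℕ} (hp : p.Prime)
    (hA : ∀ a : A, a ^ p = 1) {M : Subgroup G} {z : G} (hz : z ∈ N[M]) (ψ : G → A)
    (hψ : ∀ x ∈ M, ∀ y ∈ M, ψ (x * y) = ψ x * ψ y) {y : G} (hy : y ∈ M) :
    ∏ i ∈ range p, ψ ((z ^ i)⁻¹ * y * z ^ i) = ψ ((fun y : G => y⁻¹ * z⁻¹ * y * z)^[p - 1] y) := by
  let f : G → ℕ → Additive A := fun y j => Additive.ofMul (ψ ((z ^ j)⁻¹ * y * z ^ j))
  have key : ∀ k, ∀ y ∈ M, (fwdDiff 1)^[k] (f y) = f ((fun y : G => y⁻¹ * z⁻¹ * y * z)^[k] y) := by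
    intro k
    induction k with
    | zero => intro y _; rfl
    | succ k ih =>
      intro y hy
      have h1 : y⁻¹ * z⁻¹ * y * z ∈ M := by
        rw [show y⁻¹ * z⁻¹ * y * z = y⁻¹ * (z⁻¹ * y * z) by group]
        exact mul_mem (inv_mem hy) (conj_mem_of_N' hz hy)
      rw [Function.iterate_succ_apply, Function.iterate_succ_apply, ← ih _ h1]
      congr 1
      funext j
      rw [fwdDiff, sub_eq_iff_eq_add']
      simp only [f]
      rw [← ofMul_mul, ← hψ _ (conj_mem_of_N' (pow_mem hz j) hy) _ (conj_mem_of_N' (pow_mem hz j) h1)]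
      congr 2
      group
  have h1 := congrFun (key (p - 1) y hy) 0
  rw [fwdDiff_iter_eq_sum_shift, Nat.sub_add_cancel hp.pos] at h1
  simp only [f, pow_zero, inv_one, one_mul, mul_one, zero_add, smul_eq_mul] at h1
  apply Additive.ofMul.injective
  rw [← h1, ofMul_prod]
  refine sum_congr rfl fun k hk => ?_
  have hk' : k ≤ p - 1 := by have := mem_range.1 hk; omega
  obtain ⟨c, hc⟩ := dvd_choose_pred hp (p - 1 - k) (by omega)
  rw [Nat.choose_symm hk', sub_eq_iff_eq_add] at hc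
  rw [hc, add_smul, one_smul, mul_comm, mul_smul, ← ofMul_zpow, zpow_natCast, hA]
  simp

universe u

variable {G : Type u} [Group G] [Finite G] {p : ℕ} [hp : Fact p.Prime]

theorem hw_main {S W H : Subgroup G} (hS : SylIn p S H) (hW : W ≤ S) (hSW : S ≤ N[W])
    (hfix : ∀ g : G, (∀ w ∈ W, g⁻¹ * w * g ∈ H) → g ∈ H) {A : Type*} [CommGroup A]
    (hA : ∀ a : A, a ^ p = 1) (μ : H →* A) (hμ : μ ≠ 1) (hV : ∀ s ∈ S, MonoidHom.transfer μ s = 1) :
    ∃ x ∈ S, ∃ z ∈ W, ∃ W₀ ≤ W, W₀.relIndex W = p ∧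
      (fun y : G => y⁻¹ * z⁻¹ * y * z)^[p - 1] x ∈ W₀ ∧ ∃ ψ : G → A,
        (∀ a ∈ W₀, ∀ b ∈ W₀, ψ (a * b) = ψ a * ψ b) ∧
          ψ ((fun y : G => y⁻¹ * z⁻¹ * y * z)^[p - 1] x) ≠ 1 := by
  classical
  have hex : ∃ n, ∃ h : H, orderOf h = p ^ n ∧ μ h ≠ 1 := by
    by_contra h
    push Not at h
    refine hμ (MonoidHom.ext fun x => ?_)
    obtain ⟨T⟩ : Nonempty (Sylow p H) := inferInstance
    have h1 : pResidual p H ⊔ T ≤ μ.ker := sup_le (pResidual_le_ker (fun a => ⟨1, by simp [hA]⟩) μ)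
      fun y hy => by
        obtain ⟨k, hk⟩ := pgrp_iff_orderOf.1 T.isPGroup' y hy
        exact h k y hk
    exact h1 ((pResidual_sup_sylow T).ge (mem_top x))
  obtain ⟨h₀, h1, h2⟩ := Nat.find_spec hex
  have hmin : ∀ m < Nat.find hex, ∀ h : H, orderOf h = p ^ m → μ h = 1 := fun m hm h e => by
    by_contra e'
    exact Nat.find_min hex hm ⟨h, e, e'⟩
  generalize Nat.find hex = n at h1 hmin
  obtain ⟨g, hg, h3⟩ := syl_exists_cj_le hS (zpowers_le.2 h₀.2)
    (isPGroup_zpowers_of_orderOf (orderOf_coe h₀ ▸ h1))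
  obtain ⟨u, hu⟩ : ∃ u, u = g * h₀ * g⁻¹ := ⟨_, rfl⟩
  have huS : u ∈ S := hu ▸ h3 (conj_mem_cj (mem_zpowers _))
  have ho : orderOf u = p ^ n := by rw [hu, orderOf_conj', orderOf_coe, h1]
  have hμu : μ ⟨u, hS.1 huS⟩ ≠ 1 := by
    rw [show (⟨u, hS.1 huS⟩ : H) = ⟨g, hg⟩ * h₀ * ⟨g, hg⟩⁻¹ from Subtype.ext hu]
    simpa using h2
  have := Fintype.ofFinite (G ⧸ H)
  have hK := H20.hwK_mul μ
  have hlow : ∀ (m : ℕ) (q : G ⧸ H), p ∣ m → u ^ m • q = q → H20.hwK μ (u ^ m) q = 1 := by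
    rintro _ q ⟨m, rfl⟩ e
    have h4 := H20.hw_mem (u ^ (p * m)) q
    rw [H20.hwK, H20.hwExt_of_mem μ h4]
    rcases n with _ | n
    · exact absurd (by rw [orderOf_eq_one_iff.1 h1, map_one]) h2
    have h5 : (⟨_, h4⟩ : H) ^ p ^ n = 1 := Subtype.ext (by
      simp only [e, SubmonoidClass.mk_pow, OneMemClass.coe_one]
      rw [← inv_inv q.out, inv_inv q.out⁻¹, conj_pow, ← pow_mul, mul_right_comm, ← pow_succ', pow_mul, ← ho,
        pow_orderOf_eq_one]
      simp)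
    obtain ⟨j, hj, e'⟩ := (Nat.dvd_prime_pow hp.out).1 (orderOf_dvd_of_pow_eq_one h5)
    exact hmin j (by omega) _ e'
  set U := W ⊔ zpowers u with hU
  have hUS : U ≤ S := sup_le hW (zpowers_le.2 huS)
  have h4 := hV u huS
  rw [H20.transfer_eq_prod_hwK, ← mul_prod_erase _ _ (mem_univ ((1 : G) : G ⧸ H))] at h4
  have h5 : ∀ y ∈ H, y • ((1 : G) : G ⧸ H) = (1 : G) := fun y hy =>
    QuotientGroup.eq.2 (by simpa using hy)
  have h6 : H20.hwK μ u (1 : G) = μ ⟨u, hS.1 huS⟩ := by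
    have a1 : ((1 : G) : G ⧸ H).out ∈ H := by
      simpa using QuotientGroup.eq.1 (QuotientGroup.out_eq' ((1 : G) : G ⧸ H)).symm
    rw [H20.hwK, h5 u (hS.1 huS), H20.hwExt_mul μ (mul_mem (inv_mem a1) (hS.1 huS)) a1,
      H20.hwExt_mul μ (inv_mem a1) (hS.1 huS), mul_right_comm, ← H20.hwExt_mul μ (inv_mem a1) a1,
      inv_mul_cancel, H20.hwExt_of_mem μ (one_mem _), H20.hwExt_of_mem μ (hS.1 huS)]
    exact (congrArg (· * _) (map_one μ)).trans (one_mul _)
  have hO : ∀ y ∈ U, ∀ q ∈ univ.erase ((1 : G) : G ⧸ H), y • q ∈ univ.erase ((1 : G) : G ⧸ H) := by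
    intro y hy q hq
    refine mem_erase.2 ⟨fun e => (mem_erase.1 hq).1 ?_, mem_univ _⟩
    rw [← inv_smul_smul y q, e, h5 _ (inv_mem (hS.1 (hUS hy)))]
  by_contra hcon
  rw [prod_orbits U _ hO _ fun q hq => ?_, mul_one, h6] at h4
  · exact hμu h4
  by_cases hf : ∃ x ∈ orb U q, u • x = x
  swap
  · refine prod_orbits (zpowers u) _ (fun y hy x hx => smul_mem_orb (mem_sup_right hy) hx) _
      fun x hx => ?_
    rw [prod_orb_zpowers hK]
    refine hlow _ _ ?_ (MulAction.pow_period_smul _ _)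
    obtain ⟨j, -, e⟩ := (Nat.dvd_prime_pow hp.out).1 (ho ▸ MulAction.period_dvd_orderOf u x)
    rcases j with _ | j
    · refine absurd ⟨x, hx, ?_⟩ hf
      have := MulAction.pow_period_smul u x
      rwa [e, pow_zero, pow_one] at this
    · rw [e]; exact dvd_pow_self p (by omega)
  obtain ⟨x, hx, hux⟩ := hf
  have hx1 : x ≠ ((1 : G) : G ⧸ H) := by
    obtain ⟨y, hy, rfl⟩ := mem_orb.1 hx
    exact (mem_erase.1 (hO y hy q hq)).1
  rw [← orb_eq hx]
  have hUp := hS.2.to_le hUS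
  have hR : ¬ W ≤ MulAction.stabilizer G x := fun h => hx1 <| by
    rw [← QuotientGroup.out_eq' x]
    have : x.out ∈ H := hfix _ fun w hw => by
      have := H20.hw_mem w x
      rwa [show w • x = x from h hw] at this
    exact QuotientGroup.eq.2 (by simpa using this)
  obtain ⟨M', a1, a2, a3⟩ := H3.exists_index_p_ge hUp (H := (MulAction.stabilizer G x).subgroupOf U)
    fun e => hR (le_sup_left.trans (subgroupOf_eq_top.1 e))
  set M := M'.map U.subtype with hM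
  have hMU : M ≤ U := map_subtype_le _
  have hUM : U ≤ N[M] := le_N_map_subtype _
  have a4 : M.relIndex U = p := by rw [relIndex, hM, map_subtype_subgroupOf, a3]
  have a5 : ∀ y ∈ U, y • x = x → y ∈ M := fun y hy e => ⟨⟨y, hy⟩, a1 e, rfl⟩
  have huM : u ∈ M := a5 u (mem_sup_right (mem_zpowers u)) hux
  have a6 : ¬ W ≤ M := fun h => by
    rw [relIndex_eq_one.2 (sup_le h (zpowers_le.2 huM))] at a4
    exact hp.out.one_lt.ne a4
  obtain ⟨z, hz, hzM⟩ := SetLike.not_le_iff_exists.1 a6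
  have hzU : z ∈ U := mem_sup_left hz
  have a7 : z ^ p ∈ M := ⟨⟨z, hzU⟩ ^ p, a3 ▸ M'.pow_index_mem _, rfl⟩
  rw [prod_orb_split hMU hzU a5 (m := p) (fun i => by
    rw [← zpow_natCast, H3.zpow_mem_iff_of_prime hp.out hzM a7, Int.natCast_dvd_natCast]) hp.out.pos
    (fun y hy => by
      rw [← H3.sup_zpowers_eq_of_prime (a4 ▸ hp.out) hMU hzU hzM] at hy
      obtain ⟨a, ha, k, rfl⟩ := (H3.mem_sup_zpowers_iff_nat (hUM hzU)).1 hy
      exact ⟨k, _, conj_mem_of_N' (pow_mem (hUM hzU) k) ha, by group⟩)]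
  rw [prod_congr rfl fun i _ => prod_orb_conj hK x (conj_mem_of_N' (pow_mem (hUM hzU) i) huM),
    prod_conj_eq_iter hp.out hA (hUM hzU) (fun y => ∏ a ∈ orb M x, H20.hwK μ y a)
      (fun a _ b hb => prod_orb_mul hK x a hb) huM]
  by_contra a8
  refine hcon ⟨u, huS, z, hz, W ⊓ M, inf_le_left, ?_, ?_, fun y => ∏ a ∈ orb M x, H20.hwK μ y a,
    fun a _ b hb => prod_orb_mul hK x a hb.2, a8⟩
  · rw [inf_relIndex_left]
    refine ((Nat.dvd_prime hp.out).1 ?_).resolve_left fun e => a6 (relIndex_eq_one.1 e)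
    have := normal_subgroupOf_of_le_N hUM
    rw [← a4, ← relIndex_subgroupOf (H := M) (le_sup_left : W ≤ U)]
    exact relIndex_dvd_index_of_normal _ _
  · have key : ∀ k, ∀ y ∈ M, (fun y : G => y⁻¹ * z⁻¹ * y * z)^[k + 1] y ∈ W ⊓ M := by
      intro k
      have b : ∀ y ∈ M, y⁻¹ * z⁻¹ * y * z ∈ W ⊓ M := fun y hy => ⟨W.mul_mem
        (conj_mem_of_N' (hSW (hUS (hMU hy))) (W.inv_mem hz)) hz, by
          rw [show y⁻¹ * z⁻¹ * y * z = y⁻¹ * (z⁻¹ * y * z) by group]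
          exact M.mul_mem (M.inv_mem hy) (conj_mem_of_N' (hUM hzU) hy)⟩
      induction k with
      | zero => exact b
      | succ k ih => intro y hy; rw [Function.iterate_succ_apply]; exact ih _ (b y hy).2
    have := key (p - 2) u huM
    rwa [show p - 2 + 1 = p - 1 by have := hp.out.two_le; omega] at this

theorem exists_hom_transfer_trivial {S H : Subgroup G} (hS : SylIn p S H)
    (h : S ⊓ _root_.commutator G ≠ S ⊓ ⁅H, H⁆) :
    ∃ (A : Type u) (_ : CommGroup A) (μ : H →* A), (∀ a : A, a ^ p = 1) ∧ μ ≠ 1 ∧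
      ∀ s ∈ S, MonoidHom.transfer μ s = 1 := by
  let B := Abelianization H ⧸ pResidual p (Abelianization H)
  let μ₀ : H →* B := (QuotientGroup.mk' _).comp Abelianization.of
  have hs : Function.Surjective μ₀ := (QuotientGroup.mk'_surjective _).comp (QuotientGroup.mk'_surjective _)
  have hB : IsPGroup p B := isPGroup_quotient_pResidual p
  have h1 : S.map (MonoidHom.transfer μ₀) ≠ ⊤ := fun e => h <| by
    refine (eq_of_le_of_card_ge (inf_le_inf_left _ (commutator_mono le_top le_top)) ?_).symm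
    have a1 := H22.card_inf_mul_relIndex (MonoidHom.transfer μ₀).ker S
    have a2 := H22.card_inf_mul_relIndex μ₀.ker (S.subgroupOf H)
    rw [relIndex_ker, e] at a1
    rw [relIndex_ker, Nat.card_congr (subgroupOfEquivOfLe hS.1).toEquiv, ← a1] at a2
    have a3 : Nat.card ↥((MonoidHom.transfer μ₀).ker ⊓ S) ≤ Nat.card ↥(μ₀.ker ⊓ S.subgroupOf H) :=
      Nat.le_of_mul_le_mul_right (a2.ge.trans (Nat.mul_le_mul_left _ (card_le_of_le le_top))) (card_pos' _)
    refine (card_le_of_le (le_inf (inf_le_right.trans (Abelianization.commutator_subset_ker _))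
      inf_le_left)).trans (a3.trans ?_)
    rw [← card_subtype H]
    refine card_le_of_le ?_
    rintro _ ⟨x, hx, rfl⟩
    refine ⟨hx.2, ?_⟩
    have b1 : Abelianization.of x ∈ pResidual p (Abelianization H) := (QuotientGroup.eq_one_iff _).1 hx.1
    have b2 := eq_one_of_pgrp_of_coprime ((H18.isPGroup_subgroupOf hS.2).map Abelianization.of)
      (mem_map_of_mem _ hx.2) ((hasNPC_mem_pResidual_iff hasNPC_of_isNilpotent _).1 b1)
    have b3 : x ∈ _root_.commutator H := (QuotientGroup.eq_one_iff _).1 b2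
    have := mem_map_of_mem H.subtype b3
    rwa [commutator_def, map_commutator, map_subtype_top] at this
  obtain ⟨M, a1, a2, a3⟩ := H3.exists_index_p_ge hB h1
  refine ⟨B ⧸ M, inferInstance, (QuotientGroup.mk' M).comp μ₀, fun a => ?_, fun e => ?_, fun s hs => ?_⟩
  · exact (congrArg (a ^ ·) a3.symm).trans pow_card_eq_one'
  · have : M = ⊤ := eq_top_iff.2 fun b _ => by
      obtain ⟨x, rfl⟩ := hs b
      exact (QuotientGroup.eq_one_iff _).1 (DFunLike.congr_fun e x)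
    rw [this, index_top] at a3
    exact hp.out.one_lt.ne a3
  · rw [H18.transfer_comp]
    exact (QuotientGroup.eq_one_iff _).2 (a1 (mem_map_of_mem _ hs))

/-- Hall–Wielandt. -/
theorem hall_wielandt (S : Sylow p G) {W : Subgroup G} (hW : IsWeaklyClosed W (S : Subgroup G))
    (h : (S : Subgroup G) ⊓ _root_.commutator G ≠ (S : Subgroup G) ⊓ ⁅N[W], N[W]⁆) :
    ∃ x ∈ (S : Subgroup G), ∃ z ∈ W, ∃ W₀ ≤ W, W₀.relIndex W = p ∧
      (fun y : G => y⁻¹ * z⁻¹ * y * z)^[p - 1] x ∈ W₀ ∧ ∃ (A : Type u) (_ : CommGroup A) (ψ : G → A),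
        (∀ a : A, a ^ p = 1) ∧ (∀ a ∈ W₀, ∀ b ∈ W₀, ψ (a * b) = ψ a * ψ b) ∧
          ψ ((fun y : G => y⁻¹ * z⁻¹ * y * z)^[p - 1] x) ≠ 1 := by
  have hSW : (S : Subgroup G) ≤ N[W] := fun g hg => mem_N_iff_cj.2 (hW.2 g (cj_le_of_mem hg hW.1))
  have hS := (sylIn_top S).mono hSW le_top
  obtain ⟨A, _, μ, a1, a2, a3⟩ := exists_hom_transfer_trivial hS h
  obtain ⟨x, hx, z, hz, W₀, b1, b2, b3, ψ, b4, b5⟩ := hw_main hS hW.1 hSW (fun g hg => by
    obtain ⟨y, hy, e⟩ := syl_exists_cj_le hS (P := cj g⁻¹ W) (cj_le_iff'.2 (by simpa using hg))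
      (isPGroup_cj _ (S.isPGroup'.to_le hW.1))
    rw [← cj_mul] at e
    exact inv_mem_iff.1 ((mul_mem_cancel_left hy).1 (mem_N_iff_cj.2 (hW.2 _ e)))) a1 μ a2 a3
  exact ⟨x, hx, z, hz, W₀, b1, b2, b3, A, inferInstance, ψ, a1, b4, b5⟩

theorem res_eq_of_inf_commutator (S : Sylow p G) {H : Subgroup G} (hS : (S : Subgroup G) ≤ H)
    (h : (S : Subgroup G) ⊓ _root_.commutator G = (S : Subgroup G) ⊓ ⁅H, H⁆) :
    pResidualOf p H = pResidual p G ⊓ H := by
  rw [inf_comm]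
  refine (tate_of_le_commutator_sup ((sylow_index_coprime S).of_dvd_left (index_dvd_of_le hS))
    fun x hx => ?_).symm
  obtain ⟨a, ha, s, hs, rfl⟩ := (mem_sup_of_le_N' (hS.trans (le_N_pResidualOf H))).1
    ((pResidualOf_sup_syl ((sylIn_top S).mono hS le_top)).ge hx.1)
  refine mul_mem (mem_sup_right ha) (mem_sup_left (h.le ⟨hs, ?_⟩).2)
  have h1 : s ∈ pResidual p G :=
    (mul_mem_cancel_left (pResidualOf_top (p := p) (G := G) ▸ pResidualOf_mono le_top ha)).1 hx.2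
  have h2 := le_commutator_of_pResidual_eq_top (pResidual_pResidual p)
    (H18.isPGroup_subgroupOf (H := pResidual p G) S.isPGroup') (x := ⟨s, h1⟩) hs
  have := mem_map_of_mem (pResidual p G).subtype h2
  rw [commutator_def, map_commutator] at this
  exact commutator_mono le_top le_top this

end Cfsg.Agent.H4
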