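import Mathlib
import Cfsg.Agent.H12.Ae0

/-! The `3`-local characterization of `A₈`: the case `C(U) ≤ N(⟨z⟩)` does not occur. -/

set_option autoImplicit false
set_option linter.unusedVariables false

namespace Cfsg.Agent.H12.Ae

open Subgroup Equiv

theorem pB2_a : ∀ (a : Perm (Fin 3)), a ^ 3 = 1 → a = 1 ∨ a = swap 0 1 * swap 1 2 ∨ a = (swap 0 1 * swap 1 2) ^ 2 := by
  decide +kernel

theorem pB2_b : ∀ (b : Perm (Fin 5)), b ^ 3 = 1 → b * (swap 0 1 * swap 2 3) = (swap 0 1 * swap 2 3) * b →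
    b * (swap 0 2 * swap 1 3) = (swap 0 2 * swap 1 3) * b → b = 1 := by
  decide +kernel

theorem pB2_c : ∀ (a : Perm (Fin 3)), a * a = 1 → a = 1 ∨ Perm.sign a = -1 := by
  decide +kernel

theorem pB2_d : ∀ (b : Perm (Fin 5)), b * b = 1 → Perm.sign b = -1 → ∃ c : Perm (Fin 5), Perm.sign c = 1 ∧
    b * (c * (swap 0 1 * swap 1 2) * c⁻¹) = (c * (swap 0 1 * swap 1 2) * c⁻¹) * b := by
  decide +kernel

theorem pB2_e : ∀ (a : Perm (Fin 3)), a * swap 0 1 = swap 0 1 * a → a = 1 ∨ a = swap 0 1 := by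
  decide +kernel

theorem pB2_f : ∀ (b : Perm (Fin 5)), b * (swap 0 1 * swap 2 3) = (swap 0 1 * swap 2 3) * b → b ^ 4 = 1 ∧
    (b * b = 1 → (Perm.sign b = 1 → b = 1 ∨ b = swap 0 1 * swap 2 3 ∨ b = swap 0 2 * swap 1 3 ∨
      b = swap 0 3 * swap 1 2) ∧ (Perm.sign b = -1 → b = swap 0 1 ∨ b = swap 2 3)) := by
  decide +kernel

theorem pB2_g : ∀ (a : Perm (Fin 3)), a * swap 0 1 * a⁻¹ * swap 0 1 = swap 0 1 * (a * swap 0 1 * a⁻¹) →
    a * swap 0 1 = swap 0 1 * a := by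
  decide +kernel

theorem pB2_h : ∀ (b : Perm (Fin 5)),
    b * swap 0 1 * b⁻¹ * (swap 0 1 * swap 2 3) = (swap 0 1 * swap 2 3) * (b * swap 0 1 * b⁻¹) →
    b * (swap 0 1 * swap 2 3) * b⁻¹ * (swap 0 1 * swap 2 3) =
      (swap 0 1 * swap 2 3) * (b * (swap 0 1 * swap 2 3) * b⁻¹) →
    b * (swap 0 1 * swap 2 3) = (swap 0 1 * swap 2 3) * b := by
  decide +kernel

/-- a Sylow `2`-subgroup of `E35` -/
def pB2_T : Subgroup E35 :=
  (centralizer {swap (0 : Fin 3) 1}).comap ((MonoidHom.fst _ _).comp E35.subtype) ⊓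
    (centralizer {swap (0 : Fin 5) 1 * swap 2 3}).comap ((MonoidHom.snd _ _).comp E35.subtype)

theorem pB2_mem {x : E35} : x ∈ pB2_T ↔ x.1.1 * swap 0 1 = swap 0 1 * x.1.1 ∧
    x.1.2 * (swap 0 1 * swap 2 3) = (swap 0 1 * swap 2 3) * x.1.2 := by
  simp only [pB2_T, mem_inf, mem_comap, mem_centralizer_singleton_iff]
  rfl

def pB2_r : E35 := el (swap 0 1) (swap 0 1)
def pB2_r' : E35 := el (swap 0 1) (swap 2 3)
def pB2_u3 : E35 := el 1 (swap 0 3 * swap 1 2)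
def pB2_c0 : E35 := el 1 (swap 2 4 * swap 2 3)

theorem pB2_inv {x : E35} (hx : x ∈ pB2_T) (h2 : x * x = 1) : x ∈ [1, u1E, u2E, pB2_u3, pB2_r, pB2_r'] := by
  obtain ⟨⟨a, b⟩, hs⟩ := x
  obtain ⟨h1, h3⟩ := pB2_mem.1 hx
  have h4 : b * b = 1 := congrArg (fun y : E35 => y.1.2) h2
  have hs' : Perm.sign a * Perm.sign b = 1 := hs
  obtain ⟨k1, k2⟩ := (pB2_f b h3).2 h4
  simp only [List.mem_cons, List.not_mem_nil, or_false]
  rcases pB2_e a h1 with rfl | rfl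
  · rcases k1 (by simpa using hs') with rfl | rfl | rfl | rfl
    · exact Or.inl rfl
    · exact Or.inr (Or.inl rfl)
    · exact Or.inr (Or.inr (Or.inl rfl))
    · exact Or.inr (Or.inr (Or.inr (Or.inl rfl)))
  · rcases k2 (by
      rw [Perm.sign_swap (by decide)] at hs'
      rcases Int.units_eq_one_or (Perm.sign b) with e | e
      · rw [e] at hs'; exact absurd hs' (by decide)
      · exact e) with rfl | rfl
    · exact Or.inr (Or.inr (Or.inr (Or.inr (Or.inl rfl))))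
    · exact Or.inr (Or.inr (Or.inr (Or.inr (Or.inr rfl))))

set_option synthInstance.maxSize 4000 in
set_option synthInstance.maxHeartbeats 400000 in
theorem pB2_two : ∀ x ∈ [1, u1E, u2E, pB2_u3, pB2_r, pB2_r'], ∀ y ∈ [1, u1E, u2E, pB2_u3, pB2_r, pB2_r'],
    x ≠ 1 → y ≠ 1 → x ≠ y → x * y = y * x → (zE * x = x * zE ∧ zE * y = y * zE) ∨
      (pB2_c0 * x * pB2_c0⁻¹ ∈ [eE, eE', eE * eE'] ∧ pB2_c0 * y * pB2_c0⁻¹ ∈ [eE, eE', eE * eE'] ∧
        ∀ w ∈ [eE, eE', eE * eE'], pB2_c0⁻¹ * w * pB2_c0 ∈ [x, y, x * y]) := by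
  decide +kernel

variable {G : Type*} [Group G] [Finite G] {ε ε' : E35 →* G} {σ : G}

theorem pB2_N (h : SA ε σ) (hU : ∀ g, Commute g (ε u1E) → Commute g (ε u2E) → g ∈ ε.range) {g : G}
    (h1 : Commute (ε zE) (g⁻¹ * ε u1E * g)) (h2 : Commute (ε zE) (g⁻¹ * ε u2E * g)) : g ∈ ε.range := by
  have k : ∀ u, Commute (ε zE) (g⁻¹ * u * g) → Commute (g * ε zE * g⁻¹) u := fun u e => by
    have := e.eq
    show _ = _
    calc g * ε zE * g⁻¹ * u = g * (ε zE * (g⁻¹ * u * g)) * g⁻¹ := by group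
      _ = _ := by rw [this]; group
  obtain ⟨x, hx⟩ := hU _ (k _ h1) (k _ h2)
  have x3 : x ^ 3 = 1 := h.inj (by
    rw [map_pow, hx, conj_pow, ← map_pow, show zE ^ 3 = 1 by decide +kernel, map_one]; group)
  have c1 : x * u1E = u1E * x := h.inj (by rw [map_mul, map_mul, hx]; exact (k _ h1).eq)
  have c2 : x * u2E = u2E * x := h.inj (by rw [map_mul, map_mul, hx]; exact (k _ h2).eq)
  have hz : x ∈ zpowers zE := by
    obtain ⟨⟨a, b⟩, hs⟩ := x
    obtain rfl : b = 1 := pB2_b b (congrArg (fun y : E35 => y.1.2) x3) (congrArg (fun y : E35 => y.1.2) c1)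
      (congrArg (fun y : E35 => y.1.2) c2)
    rcases pB2_a a (congrArg (fun y : E35 => y.1.1) x3) with rfl | rfl | rfl
    · exact one_mem _
    · exact mem_zpowers zE
    · have e : (⟨((swap 0 1 * swap 1 2) ^ 2, 1), hs⟩ : E35) = zE ^ 2 := Subtype.ext (Prod.ext rfl (one_pow 2).symm)
      rw [e]; exact pow_mem (mem_zpowers zE) 2
  refine (h.rng g).2 (mem_normalizer_fintype ?_)
  rintro _ ⟨n, rfl⟩
  obtain ⟨m, rfl⟩ := hz
  rw [← conj_zpow, ← hx, map_zpow]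
  exact zpow_mem (zpow_mem (mem_zpowers _) m) n

theorem pB2_S (h : SA ε σ) (g : G) : g * σ * g⁻¹ ∉ ε.range := by
  rintro ⟨x, hx⟩
  have hz : orderOf (ε zE) = 3 := by
    rw [orderOf_injective ε h.inj]
    haveI : Fact (Nat.Prime 3) := ⟨Nat.prime_three⟩
    exact orderOf_eq_prime (by decide +kernel) (by decide +kernel)
  have hc : Commute (ε zE) (ε zE') := Commute.map (show zE * zE' = zE' * zE by decide +kernel) ε
  have hi : ε zE' ∉ zpowers (ε zE) := by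
    rintro ⟨n, hn⟩
    have e : zE ^ n = zE' := h.inj (by rw [map_zpow]; exact hn)
    have e2 : (1 : Perm (Fin 5)) ^ n = swap 0 1 * swap 1 2 := congrArg (fun y : E35 => y.1.2) e
    rw [one_zpow] at e2
    exact absurd e2 (by decide)
  have nc := not_comm hz hc hi h.ss h.sz h.cy h.cz h.syl
  have k : ∀ c, ¬ Commute (ε x) (c * ε zE * c⁻¹) := fun c e => nc (g⁻¹ * c) (by
    have := e.eq
    rw [hx] at this
    show _ = _
    calc g⁻¹ * c * ε zE * (g⁻¹ * c)⁻¹ * σ = g⁻¹ * ((c * ε zE * c⁻¹) * (g * σ * g⁻¹)) * g := by group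
      _ = _ := by rw [← this]; group)
  have x2 : x * x = 1 := h.inj (by
    rw [map_mul, hx, map_one]
    calc _ = g * (σ * σ) * g⁻¹ := by group
      _ = 1 := by rw [h.ss]; group)
  obtain ⟨⟨a, b⟩, hs⟩ := x
  have hs' : Perm.sign a * Perm.sign b = 1 := hs
  rcases pB2_c a (congrArg (fun y : E35 => y.1.1) x2) with rfl | e
  · refine k 1 ?_
    rw [one_mul, inv_one, mul_one]
    refine Commute.map ?_ ε
    exact Subtype.ext (Prod.ext (Commute.one_left _).eq (Commute.one_right _).eq)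
  · obtain ⟨c, c1, c2⟩ := pB2_d b (congrArg (fun y : E35 => y.1.2) x2) (by
      rw [e] at hs'
      rcases Int.units_eq_one_or (Perm.sign b) with e | e
      · rw [e] at hs'; exact absurd hs' (by decide)
      · exact e)
    refine k (ε (el 1 c (by simp [c1])) * σ) ?_
    rw [show ∀ A : G, A * σ * ε zE * (A * σ)⁻¹ = A * (σ * ε zE * σ⁻¹) * A⁻¹ from fun A => by group, h.sz,
      ← map_inv, ← map_mul, ← map_mul]
    refine Commute.map ?_ ε
    refine Subtype.ext (Prod.ext ?_ c2)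
    show a * (1 * 1 * 1⁻¹) = (1 * 1 * 1⁻¹) * a
    simp

theorem pB2 (h : SA ε σ) (hU : ∀ g, Commute g (ε u1E) → Commute g (ε u2E) → g ∈ ε.range) : False := by
  haveI : Fact (Nat.Prime 2) := ⟨Nat.prime_two⟩
  have hT : IsPGroup 2 (pB2_T.map ε) := by
    refine IsPGroup.map (fun x => ⟨2, ?_⟩) ε
    obtain ⟨⟨⟨a, b⟩, hs⟩, hx⟩ := x
    obtain ⟨h1, h3⟩ := pB2_mem.1 hx
    refine Subtype.ext (Subtype.ext (Prod.ext ?_ (pB2_f b h3).1))
    show a ^ 4 = 1
    rcases pB2_e a h1 with rfl | rfl <;> decide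
  obtain ⟨P, hP⟩ := hT.exists_le_sylow
  by_cases hPT : (P : Subgroup G) ≤ pB2_T.map ε
  · have : IsPGroup 2 (zpowers σ) := by
      refine IsPGroup.of_card_dvd_pow (n := 1) ?_
      rw [Nat.card_zpowers, pow_one]
      exact orderOf_dvd_of_pow_eq_one (by rw [pow_two, h.ss])
    obtain ⟨Q, hQ⟩ := this.exists_le_sylow
    obtain ⟨g, rfl⟩ := MulAction.exists_smul_eq G Q P
    refine pB2_S h g (map_le_range _ _ (hPT ?_))
    rw [← SetLike.mem_coe, Sylow.coe_coe, Sylow.coe_smul]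
    exact ⟨_, hQ (mem_zpowers σ), rfl⟩
  haveI := P.isPGroup'.isNilpotent
  obtain ⟨g0, g1, g2⟩ := SetLike.exists_of_lt (normalizerCondition_of_isNilpotent (G := P)
    ((pB2_T.map ε).subgroupOf P) (lt_top_iff_ne_top.2 fun e => hPT (subgroupOf_eq_top.1 e)))
  have n1 : ∀ x ∈ pB2_T, ∃ y ∈ pB2_T, ε y = g0.1 * ε x * g0.1⁻¹ := fun x hx =>
    (mem_normalizer_iff.1 g1 ⟨ε x, hP (mem_map_of_mem ε hx)⟩).1 (mem_map_of_mem ε hx)
  have n2 : ∀ x ∈ pB2_T, ∃ y ∈ pB2_T, ε y = g0.1⁻¹ * ε x * g0.1 := fun x hx => by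
    have := (mem_normalizer_iff.1 (inv_mem g1) ⟨ε x, hP (mem_map_of_mem ε hx)⟩).1 (mem_map_of_mem ε hx)
    rw [inv_inv] at this
    exact this
  have g3 : g0.1 ∉ pB2_T.map ε := g2
  generalize g0.1 = g at n1 n2 g3
  have m1 : u1E ∈ pB2_T := pB2_mem.2 (by decide +kernel)
  have m2 : u2E ∈ pB2_T := pB2_mem.2 (by decide +kernel)
  have m3 : pB2_r ∈ pB2_T := pB2_mem.2 (by decide +kernel)
  have g4 : g ∉ ε.range := by
    rintro ⟨x, rfl⟩
    refine g3 (mem_map_of_mem ε ?_)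
    have k : ∀ t ∈ pB2_T, x * t * x⁻¹ ∈ pB2_T := fun t ht => by
      obtain ⟨y, y1, y2⟩ := n1 t ht
      rw [← map_inv, ← map_mul, ← map_mul] at y2
      exact h.inj y2 ▸ y1
    exact pB2_mem.2 ⟨pB2_g _ (pB2_mem.1 (k _ m3)).1, pB2_h _ (pB2_mem.1 (k _ m3)).2 (pB2_mem.1 (k _ m1)).2⟩
  obtain ⟨x, x1, x2⟩ := n2 _ m1
  obtain ⟨y, y1, y2⟩ := n2 _ m2
  have cj : ∀ {a b : G}, g⁻¹ * a * g = g⁻¹ * b * g → a = b := fun e => mul_left_cancel (mul_right_cancel e)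
  have mu : ∀ a b : G, g⁻¹ * a * g * (g⁻¹ * b * g) = g⁻¹ * (a * b) * g := fun a b => by group
  have o1 : g⁻¹ * ε 1 * g = 1 := by rw [map_one]; group
  rcases pB2_two x (pB2_inv x1 (h.inj (by
      rw [map_mul, x2, mu, ← map_mul, show u1E * u1E = 1 by decide +kernel, o1, map_one])))
    y (pB2_inv y1 (h.inj (by
      rw [map_mul, y2, mu, ← map_mul, show u2E * u2E = 1 by decide +kernel, o1, map_one])))
    (fun e => absurd (h.inj (cj (x2.symm.trans (by rw [e, o1, map_one])) : ε u1E = ε 1)) (by decide +kernel))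
    (fun e => absurd (h.inj (cj (y2.symm.trans (by rw [e, o1, map_one])) : ε u2E = ε 1)) (by decide +kernel))
    (fun e => absurd (h.inj (cj (x2.symm.trans (e ▸ y2)))) (by decide +kernel))
    (h.inj (by rw [map_mul, map_mul, x2, y2, mu, mu, ← map_mul, ← map_mul,
      show u1E * u2E = u2E * u1E by decide +kernel])) with ⟨e1, e2⟩ | ⟨e1, e2, e3⟩
  · exact g4 (pB2_N h hU (x2 ▸ Commute.map e1 ε) (y2 ▸ Commute.map e2 ε))
  have hs : σ⁻¹ = σ := inv_eq_of_mul_eq_one_right h.ss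
  have se : σ⁻¹ * ε eE * σ = ε eE' := by rw [← h.se, hs]
  have se' : σ⁻¹ * ε eE' * σ = ε eE := by rw [← h.se]; group
  have f1 : ∀ w ∈ [eE, eE', eE * eE'], ∃ w' ∈ [eE, eE', eE * eE'], σ⁻¹ * ε w * σ = ε w' := by
    simp only [List.mem_cons, List.not_mem_nil, or_false]
    rintro w (rfl | rfl | rfl)
    · exact ⟨_, Or.inr (Or.inl rfl), se⟩
    · exact ⟨_, Or.inl rfl, se'⟩
    · refine ⟨_, Or.inr (Or.inr rfl), ?_⟩
      calc _ = (σ⁻¹ * ε eE * σ) * (σ⁻¹ * ε eE' * σ) := by rw [map_mul]; group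
        _ = _ := by rw [se, se', ← map_mul, show eE * eE' = eE' * eE by decide +kernel]
  have z1 : Commute (ε zE) (ε u1E) := Commute.map (show zE * u1E = u1E * zE by decide +kernel) ε
  have z2 : Commute (ε zE) (ε u2E) := Commute.map (show zE * u2E = u2E * zE by decide +kernel) ε
  have cc : ∀ a : G, g * (g⁻¹ * a * g) * g⁻¹ = a := fun a => by group
  have f2 : ∀ w ∈ [x, y, x * y], Commute (ε zE) (g * ε w * g⁻¹) := by
    simp only [List.mem_cons, List.not_mem_nil, or_false]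
    rintro w (rfl | rfl | rfl)
    · rwa [x2, cc]
    · rwa [y2, cc]
    · rw [map_mul, x2, y2, mu, cc]; exact z1.mul_right z2
  have f3 : ∀ (t : E35) (u : G), ε t = g⁻¹ * u * g → pB2_c0 * t * pB2_c0⁻¹ ∈ [eE, eE', eE * eE'] →
      Commute (ε zE) ((g * (ε pB2_c0)⁻¹ * σ * (g * (ε pB2_c0)⁻¹)⁻¹)⁻¹ * u *
        (g * (ε pB2_c0)⁻¹ * σ * (g * (ε pB2_c0)⁻¹)⁻¹)) := fun t u e ht => by
    obtain ⟨w, w1, w2⟩ := f1 _ ht
    have := f2 _ (e3 w w1)
    rw [map_mul, map_mul, map_inv, ← w2, map_mul, map_mul, map_inv, e] at this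
    convert this using 1
    group
  exact pB2_S h _ (pB2_N h hU (f3 _ _ x2 e1) (f3 _ _ y2 e2))

end Cfsg.Agent.H12.Ae
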