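import Mathlib
import Cfsg.Agent.H3.Two
import Cfsg.Agent.H4.Transfer2
import Cfsg.Agent.H20.Invol
import Cfsg.Agent.S0071

/-! Simple groups of short length with a maximal Sylow 2-subgroup: chains, the basic configuration, fusion lemmas. -/

set_option autoImplicit false
set_option linter.unusedSectionVars false

namespace Cfsg.Agent.H4L

open Cfsg Subgroup Cfsg.Agent.FT
open scoped commutatorElement

universe u

variable {G : Type u} [Group G] [Finite G]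

/-- there is a chain of length `n` descending from `H` -/
inductive Ch {G : Type u} [Group G] : ℕ → Subgroup G → Prop
  | zero (H : Subgroup G) : Ch 0 H
  | step {n : ℕ} {H K : Subgroup G} : Ch n H → H < K → Ch (n + 1) K

theorem Ch.mono {n : ℕ} {H K : Subgroup G} (h : Ch n H) (hle : H ≤ K) : Ch n K := by
  cases h with
  | zero => exact Ch.zero _
  | step h hlt => exact Ch.step h (hlt.trans_le hle)

theorem Ch.pred {n : ℕ} {H : Subgroup G} (h : Ch (n + 1) H) : Ch n H := by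
  cases h with
  | step h hlt => exact h.mono hlt.le

theorem Ch.of_le {n m : ℕ} {H : Subgroup G} (h : Ch n H) (hm : m ≤ n) : Ch m H := by
  induction hm with
  | refl => exact h
  | step _ ih => exact ih h.pred

theorem Ch.toFin {n : ℕ} {H : Subgroup G} (h : Ch n H) : ∃ c : Fin (n + 1) → Subgroup G, StrictAnti c ∧ c 0 = H := by
  induction h with
  | zero H => exact ⟨fun _ => H, fun a b h => absurd h (by omega), rfl⟩
  | @step n H K _ hlt ih =>
    obtain ⟨c, hc, h0⟩ := ih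
    refine ⟨Fin.cons K c, ?_, rfl⟩
    rw [Fin.strictAnti_iff_succ_lt]
    intro i
    refine Fin.cases ?_ (fun j => ?_) i
    · simpa [h0] using hlt
    · simpa using hc (Fin.castSucc_lt_succ (i := j))

theorem ch_ofFin : ∀ (n : ℕ) (c : Fin (n + 1) → Subgroup G), StrictAnti c → Ch n (c 0)
  | 0, _, _ => Ch.zero _
  | n + 1, c, hc => Ch.step (ch_ofFin n (fun i => c i.succ) (hc.comp_strictMono Fin.strictMono_succ))
      (hc (Fin.succ_pos 0))

theorem ch_pow : ∀ (r : ℕ) (R : Subgroup G), #R = 2 ^ r → Ch r R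
  | 0, R, _ => Ch.zero _
  | r + 1, R, h => by
    obtain ⟨Q, hQ, hc⟩ := exists_card_pow_le (H := R) (n := r) Nat.prime_two (h ▸ pow_dvd_pow 2 r.le_succ)
    exact Ch.step (ch_pow r Q hc) (lt_of_card_lt hQ (by rw [h, hc]; exact Nat.pow_lt_pow_right one_lt_two r.lt_succ_self))

theorem Ch.map {G' : Type u} [Group G'] {f : G →* G'} (hf : Function.Injective f) {n : ℕ} {H : Subgroup G}
    (h : Ch n H) : Ch n (H.map f) := by
  induction h with
  | zero H => exact Ch.zero _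
  | step _ hlt ih =>
    exact Ch.step ih (lt_of_le_of_ne (map_mono hlt.le) fun e => hlt.ne (map_injective hf e))

theorem Ch.comap {G' : Type u} [Group G'] {f : G →* G'} (hf : Function.Surjective f) (hk : f.ker ≠ ⊥) {n : ℕ}
    {H : Subgroup G'} (h : Ch n H) : Ch (n + 1) (H.comap f) := by
  induction h with
  | zero H => exact Ch.step (Ch.zero ⊥) (bot_lt_iff_ne_bot.2 (ne_bot_of_le (ker_le_comap f H) hk))
  | step _ hlt ih =>
    exact Ch.step ih (lt_of_le_of_ne (comap_mono hlt.le) fun e => hlt.ne (comap_injective hf e))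

/-- The basic configuration. -/
structure Cf (S R H : Subgroup G) (y : G) : Prop where
  syl : Syl 2 S ⊤
  cz : ∀ z ∈ S, z ≠ 1 → z ∈ C(S) → C[z] = S
  RS : R ≤ S
  mx : MaxIn R H
  sR : Syl 2 R H
  big' : ∀ K : Subgroup G, K ≠ ⊥ → PGrp 2 K → ¬ PGrp 2 N(K) → ∀ P, P ≤ N(K) → PGrp 2 P → #P ≤ #R
  core : O[{2}](H) ≠ ⊥
  yS : y ∈ S
  yN : y ∈ N(R)
  yR : y ∉ R
  y2 : y * y ∈ R

theorem exists_cf [IsSimpleGroup G] (hG : ¬ IsMulCommutative G) {S : Subgroup G} (hS : Syl 2 S ⊤)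
    (hmx : IsCoatom S) : ∃ R H y, Cf S R H y := by
  have hs := IsSimpleGroup.eq_bot_or_eq_top_of_normal (G := G)
  have hS1 : S ≠ ⊥ := by
    rintro rfl
    apply hG
    obtain ⟨x, hx⟩ := exists_ne (1 : G)
    have := hmx.2 _ (bot_lt_iff_ne_bot.2 (zpowers_ne_bot' hx))
    refine ⟨⟨fun a b => ?_⟩⟩
    exact H3.comm_of_mem_zpowers (this ▸ mem_top a) (this ▸ mem_top b)
  have hnn : ∀ K : Subgroup G, K ≠ ⊥ → PGrp 2 K → N(K) ≠ ⊤ := fun K h1 h2 e => by
    have : K = ⊤ := (hs K (normalizer_eq_top_iff.1 e)).resolve_left h1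
    exact hmx.1 (hS.max (this ▸ h2) le_top le_top).symm
  have cz : ∀ z ∈ S, z ≠ 1 → z ∈ C(S) → C[z] = S := fun z hz h1 hc => by
    by_contra hne
    have := hmx.2 _ (lt_of_le_of_ne (le_cen1.2 hc) (Ne.symm hne))
    exact hnn ⟪z⟫ (zpowers_ne_bot' h1) (hS.pi.mono (zpowers_le.2 hz))
      (top_le_iff.1 (norms_zpowers_of_cen1 this.ge))
  -- a 2-local subgroup which is not a 2-group
  have ex : ∃ E : Subgroup G, E ≠ ⊥ ∧ PGrp 2 E ∧ ¬ PGrp 2 N(E) := by
    by_contra hne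
    push Not at hne
    obtain ⟨T, rfl⟩ := (syl_top_iff Nat.prime_two).1 hS
    obtain ⟨M, hM, hc⟩ := (S0071.result T).2 fun Q hQ g hg hc => by
      by_cases h1 : Q = ⊥
      · rw [h1, cen_bot]; exact mem_top g
      · have := ((p'elt_iff_coprime Nat.prime_two).2 hc).eq_one_of_mem' (hne Q h1 (hS.pi.mono hQ)) hg
        rw [this]; exact one_mem _
    rcases hs M hM with rfl | rfl
    · exact hmx.1 (by simpa using hc.sup_eq_top)
    · exact hS1 (by simpa using hc.disjoint)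
  obtain ⟨E0, hE0⟩ := ex
  obtain ⟨R0, hR0⟩ := exists_syl 2 N(E0)
  obtain ⟨R1, ⟨E1, h1, h2, h3, h4⟩, hbig⟩ := exists_max_fun
    (fun R => ∃ E : Subgroup G, E ≠ ⊥ ∧ PGrp 2 E ∧ ¬ PGrp 2 N(E) ∧ Syl 2 R N(E)) (fun R => #R)
    (A := R0) ⟨E0, hE0.1, hE0.2.1, hE0.2.2, hR0⟩
  obtain ⟨g, -, hg⟩ := hS.syl_Jsub h4.pi le_top
  set R := cj g R1 with hR
  set E := cj g E1 with hE
  have e1 : E ≠ ⊥ := fun e => h1 (cj_eq_bot.1 e)
  have e2 : PGrp 2 E := h2.cj g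
  have e3 : ¬ PGrp 2 N(E) := fun e => h3 (by rw [← cj_nrm] at e; exact piGrp_cj.1 e)
  have e4 : Syl 2 R N(E) := by rw [← cj_nrm]; exact h4.cj g
  have hlt : R < N(E) := lt_of_le_of_ne e4.le fun e => e3 (e ▸ e4.pi)
  obtain ⟨H, hH1, hH2, hH3⟩ := exists_min (fun H => R < H) (A := N(E)) hlt
  have hER : E ≤ R := e4.ge_of_nml e2 (nml_nrm E)
  have sR : Syl 2 R H := e4.subl hH2.le hH1
  have hRS : R < S := by
    refine lt_of_le_of_ne hg fun e => hnn E e1 e2 (top_le_iff.1 ?_)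
    rw [← hmx.2 H (e ▸ hH2)]; exact hH1
  obtain ⟨Y, hY1, hY2, hY3⟩ := (hS.pi.mono (inf_le_left : S ⊓ N(R) ≤ S)).exists_between (n := (#R).factorization 2 + 1)
    Nat.prime_two (hS.pi.lt_subnorm hRS).le (by
      obtain ⟨n, hn⟩ := sR.pi.card
      rw [hn, Nat.Prime.factorization_pow Nat.prime_two]; simp; exact Nat.pow_le_pow_right two_pos n.le_succ) (by
      obtain ⟨n, hn⟩ := sR.pi.card
      have := (hS.pi.mono (inf_le_left : S ⊓ N(R) ≤ S)).mul_card_le (hS.pi.lt_subnorm hRS)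
      rw [hn] at this
      rw [hn, Nat.Prime.factorization_pow Nat.prime_two, Finsupp.single_eq_same, pow_succ, mul_comm]; exact this)
  have hi : R.relIndex Y = 2 := by
    obtain ⟨n, hn⟩ := sR.pi.card
    apply H3.relIndex_of_card_mul hY1
    rw [hY3, hn, Nat.Prime.factorization_pow Nat.prime_two]; simp; ring
  obtain ⟨y, hy1, hy2⟩ : ∃ y ∈ Y, y ∉ R := by
    by_contra hne
    push Not at hne
    rw [relIndex_eq_one.2 hne] at hi
    exact absurd hi (by decide)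
  refine ⟨R, H, y, hS, cz, hg, ⟨hH2, fun K a b => hH3 K a b⟩, sR, fun K k1 k2 k3 P p1 p2 => ?_,
    pcore_ne_bot e2 ⟨hER.trans hH2.le, hH1⟩ e1, (hY2 hy1).1, (hY2 hy1).2, hy2,
    H3.mul_mem_of_relIndex_two hi hy1 hy1 hy2 hy2⟩
  obtain ⟨P', q1, q2⟩ := p2.exists_syl p1
  have := hbig P' ⟨K, k1, k2, k3, q1⟩
  rw [hR, card_cj]
  exact (card_le q2).trans this

namespace Cf

variable {S R H : Subgroup G} {y : G}

theorem RH (h : Cf S R H y) : R ≤ H := h.mx.lt.le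
theorem QR (h : Cf S R H y) : O[{2}](H) ≤ R := pcore_le_syl h.sR
theorem npH (h : Cf S R H y) : ¬ PGrp 2 H := fun e => h.mx.lt.ne (h.sR.eq_of_piGrp e)

theorem big (h : Cf S R H y) (K : Subgroup G) (h1 : K ≠ ⊥) (h2 : PGrp 2 K) (h3 : H ≤ N(K)) :
    ∀ P, P ≤ N(K) → PGrp 2 P → #P ≤ #R := h.big' K h1 h2 fun e => h.npH (e.mono h3)

theorem key (h : Cf S R H y) {K : Subgroup G} (h1 : K ≠ ⊥) (h2 : PGrp 2 K) (h3 : H ≤ N(K)) : S ⊓ N(K) ≤ R :=
  (eq_of_card_le (le_inf h.RS (h.RH.trans h3))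
    (h.big K h1 h2 h3 _ inf_le_right (h.syl.pi.mono inf_le_left))).ge

theorem ny (h : Cf S R H y) {K : Subgroup G} (h2 : K ≤ R) (h3 : H ≤ N(K)) (h4 : y ∈ N(K)) : K = ⊥ := by
  by_contra h1
  exact h.yR (h.key h1 (h.sR.pi.mono h2) h3 ⟨h.yS, h4⟩)

theorem ZS (h : Cf S R H y) {z : G} (hz : z ∈ S) (hc : z ∈ C(S)) : z ∈ R :=
  h.key h.core (pcore_pi _ _) (pcore_nrm _ _) ⟨hz, cen_le_nrm _ (cen_anti (h.QR.trans h.RS) hc)⟩

theorem exists_z (h : Cf S R H y) : ∃ z ∈ S, z ∈ C(S) ∧ orderOf z = 2 := by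
  have h1 : S ≠ ⊥ := ne_bot_of_le (h.QR.trans h.RS) h.core
  obtain ⟨z, hz, ho⟩ := (h.syl.pi.mono (inf_le_left : Z(S) ≤ S)).exists_elt (h.syl.pi.center_ne_bot h1)
  exact ⟨z, hz.1, hz.2, ho⟩

theorem HS (h : Cf S R H y) : H ⊓ S = R :=
  h.sR.max (h.syl.pi.mono inf_le_right) (le_inf h.RH h.RS) inf_le_left

end Cf

/-- conjugates of `t` in `S = C(z)` -/
theorem fus_of {S : Subgroup G} {z t : G} (hz : C[z] = S)
    (h : ∀ g : G, g * z * g⁻¹ ∈ C[t] → ∃ c ∈ C[t], c * z * c⁻¹ = g * z * g⁻¹) (g : G) (hg : g * t * g⁻¹ ∈ S) :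
    ∃ s ∈ S, s * t * s⁻¹ = g * t * g⁻¹ := by
  have h1 : g⁻¹ * z * g⁻¹⁻¹ ∈ C[t] := by
    rw [← hz, mem_cen1] at hg
    rw [mem_cen1]
    calc g⁻¹ * z * g⁻¹⁻¹ * t = g⁻¹ * (z * (g * t * g⁻¹)) * g := by group
      _ = _ := by rw [← hg]; group
  obtain ⟨c, hc, e⟩ := h _ h1
  refine ⟨g * c, ?_, ?_⟩
  · rw [← hz, mem_cen1]
    calc g * c * z = g * (c * z * c⁻¹) * c := by group
      _ = _ := by rw [e]; group
  · rw [mem_cen1] at hc
    calc g * c * t * (g * c)⁻¹ = g * (c * t) * c⁻¹ * g⁻¹ := by group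
      _ = _ := by rw [hc]; group

theorem mem_der_of_fus (hp : _root_.commutator G = ⊤) {S : Subgroup G} (hS : Syl 2 S ⊤) {t : G} (ht : t ∈ S)
    (h2 : t * t = 1) (h : ∀ g : G, g * t * g⁻¹ ∈ S → ∃ s ∈ S, s * t * s⁻¹ = g * t * g⁻¹) : t ∈ ⁅S, S⁆ := by
  have hp2 : ∀ k : ℕ, t ^ k = 1 ∧ Even k ∨ t ^ k = t ∧ Odd k := fun k => by
    rcases Nat.even_or_odd k with ⟨j, rfl⟩ | ⟨j, rfl⟩
    · exact Or.inl ⟨by rw [← two_mul, pow_mul, sq, h2, one_pow], ⟨j, rfl⟩⟩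
    · exact Or.inr ⟨by rw [pow_succ, pow_mul, sq, h2, one_pow, one_mul], ⟨j, rfl⟩⟩
  have h1 := H4.transfer_eq_pow_of_forall (Abelianization.of : S →* Abelianization S) t
    (Abelianization.of ⟨t, ht⟩) (fun k g hg => by
      rw [← map_pow]
      have e0 : (⟨t, ht⟩ : S) ^ k = ⟨t ^ k, pow_mem ht k⟩ := Subtype.ext (by simp)
      rw [e0]
      rcases hp2 k with ⟨e, -⟩ | ⟨e, -⟩
      · congr 1; apply Subtype.ext; simp [e]
      · simp only [e] at hg ⊢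
        obtain ⟨s, hs, e'⟩ := h g⁻¹ (by simpa using hg)
        have : (⟨g⁻¹ * t * g, hg⟩ : S) = ⟨s, hs⟩ * ⟨t, ht⟩ * ⟨s, hs⟩⁻¹ := Subtype.ext (by simp [e'])
        rw [this, map_mul, map_mul, map_inv, mul_comm (Abelianization.of (⟨s, hs⟩ : S)), mul_inv_cancel_right])
  have h3 : MonoidHom.transfer (Abelianization.of : S →* Abelianization S) t = 1 :=
    Abelianization.commutator_subset_ker _ (hp ▸ mem_top t)
  have hodd : Odd S.index := by
    have := hS.not_dvd Nat.prime_two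
    rw [relIndex_top_right] at this
    exact Nat.odd_iff.mpr (Nat.two_dvd_ne_zero.mp this)
  rw [h3, ← map_pow, eq_comm] at h1
  have h4 : (⟨t, ht⟩ : S) ^ S.index ∈ _root_.commutator S := (QuotientGroup.eq_one_iff _).mp h1
  have h5 : t ^ S.index ∈ ⁅S, S⁆ := by
    rw [der_eq_map]
    exact ⟨_, h4, rfl⟩
  rcases hp2 S.index with ⟨-, e⟩ | ⟨e, -⟩
  · exact absurd e (Nat.not_even_iff_odd.2 hodd)
  · rwa [e] at h5

end Cfsg.Agent.H4L
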