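import Mathlib
import Cfsg.Agent.H4.Ln1
import Cfsg.Agent.H3.Plane

/-! Short simple groups: the case where `C_H(O₂(H))` is not a 2-group. -/

set_option autoImplicit false
set_option linter.unusedSectionVars false

namespace Cfsg.Agent.H4L

open Cfsg Subgroup Cfsg.Agent.FT
open scoped commutatorElement

universe u

variable {G : Type u} [Group G] [Finite G]

theorem four {a b : G} (ha : orderOf a = 2) (hb : orderOf b = 2) (hc : a * b = b * a) (hne : a ≠ b) :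
    2 < #(⟪a⟫ ⊔ ⟪b⟫) ∧ (∀ w ∈ ⟪a⟫ ⊔ ⟪b⟫, w * w = 1) ∧ ∀ w ∈ ⟪a⟫ ⊔ ⟪b⟫, w = 1 ∨ w = a ∨ w = b ∨ w = a * b := by
  have a2 := H20.mul_self_of_orderOf_two ha
  have b2 := H20.mul_self_of_orderOf_two hb
  have a2' : a ^ 2 = 1 := by rw [sq, a2]
  have b2' : b ^ 2 = 1 := by rw [sq, b2]
  have h3 : ∀ w ∈ ⟪a⟫ ⊔ ⟪b⟫, w = 1 ∨ w = a ∨ w = b ∨ w = a * b := fun w hw => by
    obtain ⟨x, hx, y, hy, rfl⟩ := (mem_sup_norm (norms_zpowers_of_cen1 (zpowers_le.2 (mem_cen1.2 hc.symm)))).1 hw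
    rcases (H3.mem_zpowers_two a2').1 hx with rfl | rfl <;> rcases (H3.mem_zpowers_two b2').1 hy with rfl | rfl <;> simp
  refine ⟨?_, fun w hw => ?_, h3⟩
  · have : ⟪a⟫ < ⟪a⟫ ⊔ ⟪b⟫ := lt_of_le_of_ne le_sup_left fun e => by
      have : b ∈ ⟪a⟫ := e ▸ mem_sup_right (mem_zpowers b)
      rcases (H3.mem_zpowers_two a2').1 this with e | e
      · exact H20.ne_one_of_orderOf_two hb e
      · exact hne e.symm
    have := card_lt this
    rwa [card_zpowers', ha] at this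
  · rcases h3 w hw with rfl | rfl | rfl | rfl
    · simp
    · exact a2
    · exact b2
    · calc a * b * (a * b) = a * (b * a) * b := by group
        _ = a * a * (b * b) := by rw [← hc]; group
        _ = 1 := by rw [a2, b2, one_mul]

namespace Cf

variable {S R H : Subgroup G} {y : G}

theorem cjR (h : Cf S R H y) : cj y R = R := cj_of_mem_nrm h.yN

theorem nrm2 (h : Cf S R H y) (h2 : ¬ H ⊓ C(O[{2}](H)) ≤ R) {K : Subgroup G} (hK : K ≤ O[{2}](H)) (hn : R ≤ N(K)) :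
    H ≤ N(K) := by
  rw [← h.mx.sup_eq inf_le_left h2]
  exact sup_le hn (cents_norm (centsS hK inf_le_right))

theorem cen2 (h : Cf S R H y) (h2 : ¬ H ⊓ C(O[{2}](H)) ≤ R) {t : G} (hK : t ∈ O[{2}](H)) (hn : t ∈ C(R)) :
    H ≤ C[t] := by
  rw [← h.mx.sup_eq inf_le_left h2]
  exact sup_le (le_cen1.2 hn) (inf_le_right.trans (cen_le_cen1 hK))

theorem nQy (h : Cf S R H y) : cj y O[{2}](H) ⊴ R := by
  have := ((pcore_nml {2} H).mono h.QR h.RH).cj y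
  rwa [h.cjR] at this

theorem inf2 (h : Cf S R H y) (h2 : ¬ H ⊓ C(O[{2}](H)) ≤ R) : O[{2}](H) ⊓ cj y O[{2}](H) = ⊥ := by
  have hn : R ≤ N(O[{2}](H)) := h.RH.trans (pcore_nrm _ _)
  refine h.ny (inf_le_left.trans h.QR) (h.nrm2 h2 inf_le_left (normsI hn h.nQy.nrm)) ?_
  rw [← cj_eq_self, cj_inf, cj_cj, cj_of_mem_nrm (hn h.y2), inf_comm]

theorem exists_t (h : Cf S R H y) : ∃ t ∈ O[{2}](H), t ∈ C(R) ∧ orderOf t = 2 := by
  obtain ⟨t, ht, ho⟩ := ((pcore_pi {2} H).mono (inf_le_left : O[{2}](H) ⊓ C(R) ≤ _)).exists_elt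
    (h.sR.pi.meet_cen (pcore_pi _ _) (h.RH.trans (pcore_nrm _ _)) h.core)
  exact ⟨t, ht.1, ht.2, ho⟩

theorem nconj (h : Cf S R H y) {z t : G} (hz : z ∈ S) (hc : z ∈ C(S)) (ho : orderOf z = 2) (ht : H ≤ C[t]) (g : G) :
    g * z * g⁻¹ ≠ t := fun e => by
  rw [← e, ← cj_cen1, h.cz z hz (H20.ne_one_of_orderOf_two ho) hc] at ht
  exact h.npH ((h.syl.pi.cj g).mono ht)

theorem s_spec (h : Cf S R H y) (h2 : ¬ H ⊓ C(O[{2}](H)) ≤ R) {t : G} (hQ : t ∈ O[{2}](H)) (hc : t ∈ C(R))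
    (ho : orderOf t = 2) : y * t * y⁻¹ ∈ R ∧ y * t * y⁻¹ ∈ C(R) ∧ y * t * y⁻¹ ∉ O[{2}](H) := by
  refine ⟨conj_mem h.yN (h.QR hQ), conj_mem (norms_cent le_rfl h.yN) hc, fun e => ?_⟩
  exact conj_ne_one.2 (H20.ne_one_of_orderOf_two ho) (eq_one_of_mem_inf (h.inf2 h2) e (conj_mem_cj.2 hQ))

theorem z_eq (h : Cf S R H y) (h2 : ¬ H ⊓ C(O[{2}](H)) ≤ R) {t : G} (hQ : t ∈ O[{2}](H)) (hc : t ∈ C(R))
    (ho : orderOf t = 2) {z : G} (hzc : z ∈ C(S))
    (hw : z * (y * t * y⁻¹) ∈ O[{2}](H)) : t = z * (y * t * y⁻¹) := by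
  have e1 : y * (z * (y * t * y⁻¹)) * y⁻¹ = z * t := by
    calc y * (z * (y * t * y⁻¹)) * y⁻¹ = (y * z) * y⁻¹ * ((y * y) * t) * (y * y)⁻¹ := by group
      _ = _ := by rw [mem_cen.1 hzc y h.yS, mem_cen.1 hc _ h.y2]; group
  have e2 := conj_mem_cj (g := y).2 hw
  rw [e1] at e2
  have e3 := mem_cen.1 hc _ (conj_mem h.yN (h.QR hQ))
  have e4 := eq_one_of_mem_inf (h.inf2 h2) (mul_mem hw hQ)
    (by rw [mul_assoc, e3, ← mul_assoc]; exact mul_mem e2 (conj_mem_cj.2 hQ))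
  rw [← H20.inv_eq_self_of_orderOf_two ho]
  nth_rewrite 2 [H20.inv_eq_self_of_orderOf_two ho]
  exact (eq_inv_of_mul_eq_one_left e4).symm

theorem fin (h : Cf S R H y) (hp : _root_.commutator G = ⊤) (h2 : ¬ H ⊓ C(O[{2}](H)) ≤ R) {t : G}
    (hQ : t ∈ O[{2}](H)) (hc : t ∈ C(R)) (ho : orderOf t = 2)
    (hw : ∀ W, W ⊴ R → (∀ w ∈ W, w * w = 1) → #W = 4 → ∃ a ∈ W, a ≠ 1 ∧ ¬ PGrp 2 C[a])
    {z : G} (hz : z ∈ S) (hzc : z ∈ C(S)) (hoz : orderOf z = 2) (hzs : t = z * (y * t * y⁻¹))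
    (hF : ∀ g : G, g * z * g⁻¹ ∈ R → ∃ c ∈ H, c * z * c⁻¹ = g * z * g⁻¹)
    (hI : #S ≤ 2 * #R → Ab R ∨ ∃ c ∈ H, c * z * c⁻¹ ∈ R ∧ c * z * c⁻¹ ≠ z) : ∃ a ∈ S, 2 * orderOf a = #S := by
  obtain ⟨s1, s2, s3⟩ := h.s_spec h2 hQ hc ho
  have hH := h.cen2 h2 hQ hc
  set s := y * t * y⁻¹ with hs
  have t1 := H20.ne_one_of_orderOf_two ho
  have t2 := H20.mul_self_of_orderOf_two ho
  have z1 := H20.ne_one_of_orderOf_two hoz
  have tR := h.QR hQ
  have hst : s ≠ t := fun e => s3 (e ▸ hQ)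
  have s22 : s * s = 1 := H20.mul_self_of_orderOf_two (by rw [hs, orderOf_conj, ho])
  have hzts : z = t * s := by rw [hzs, mul_assoc, s22, mul_one]
  have hT : PGrp 2 ⟪t⟫ := (pcore_pi {2} H).mono (zpowers_le.2 hQ)
  have hCN : C[t] ≤ N(⟪t⟫) := norms_zpowers_of_cen1 le_rfl
  have hk : S ⊓ C[t] ≤ R := (inf_le_inf_left S hCN).trans (h.key (zpowers_ne_bot' t1) hT (hH.trans hCN))
  have hsy : Syl 2 R C[t] := by
    obtain ⟨P, p1, p2⟩ := h.sR.pi.exists_syl (h.RH.trans hH)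
    rw [eq_of_card_le p2 (h.big _ (zpowers_ne_bot' t1) hT (hH.trans hCN) P (p1.le.trans hCN) p1.pi)]
    exact p1
  have hcz := h.cz z hz z1 hzc
  have fus := fus_of (t := t) hcz fun g hg => by
    obtain ⟨c, c1, c2⟩ := hsy.syl_elt hg ((pElt_of_pow_eq_one Nat.prime_two (hoz ▸ pow_orderOf_eq_one z)).conj g)
    obtain ⟨d, d1, d2⟩ := hF (c * g) (by simpa [mul_assoc] using c2)
    refine ⟨c⁻¹ * d, mul_mem (inv_mem c1) (hH d1), ?_⟩
    calc c⁻¹ * d * z * (c⁻¹ * d)⁻¹ = c⁻¹ * (d * z * d⁻¹) * c := by group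
      _ = _ := by rw [d2]; group
  have hder := mem_der_of_fus hp h.syl (h.RS tR) t2 fus
  have hU : ¬ #S ≤ 2 * #R := by
    intro hle
    have hi : R.relIndex S = 2 := H3.relIndex_of_card_mul h.RS (le_antisymm hle
      (h.syl.pi.mul_card_le (lt_of_le_of_ne h.RS fun e => h.yR (e ▸ h.yS))))
    have hx : ∀ x ∈ S, x ∈ R ∨ x * y⁻¹ ∈ R := fun x hx => by
      by_cases e : x ∈ R
      · exact Or.inl e
      · exact Or.inr (H3.mul_mem_of_relIndex_two hi hx (inv_mem h.yS) e fun f => h.yR (inv_mem_iff.1 f))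
    have hU : ∀ x ∈ S, x * t * x⁻¹ = t ∨ x * t * x⁻¹ = s := fun x hx' => by
      rcases hx x hx' with e | e
      · exact Or.inl (by rw [mem_cen.1 hc x e, mul_inv_cancel_right])
      · right
        calc x * t * x⁻¹ = (x * y⁻¹ * s) * (x * y⁻¹)⁻¹ := by rw [hs]; group
          _ = s := by rw [mem_cen.1 s2 _ e, mul_inv_cancel_right]
    rcases hI hle with hI | ⟨c, c1, c2, c3⟩
    · have _h := hI
      have cm : ∀ a ∈ R, ∀ b ∈ R, a * b = b * a := fun a ha b hb => hI.comm ha hb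
      let K : Subgroup G :=
        { carrier := {c | c ∈ R ∧ y * c * y⁻¹ = c⁻¹}
          one_mem' := ⟨one_mem _, by simp⟩
          mul_mem' := fun {a b} ha hb => ⟨mul_mem ha.1 hb.1, by
            calc y * (a * b) * y⁻¹ = (y * a * y⁻¹) * (y * b * y⁻¹) := by group
              _ = _ := by rw [ha.2, hb.2, cm a ha.1 b hb.1, mul_inv_rev]⟩
          inv_mem' := fun {a} ha => ⟨inv_mem ha.1, by
            calc y * a⁻¹ * y⁻¹ = (y * a * y⁻¹)⁻¹ := by group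
              _ = _ := by rw [ha.2]⟩ }
      have k1 : ∀ r ∈ R, r * (y * r * y⁻¹)⁻¹ ∈ K := fun r hr => by
        have e1 := conj_mem h.yN hr
        refine ⟨mul_mem hr (inv_mem e1), ?_⟩
        calc y * (r * (y * r * y⁻¹)⁻¹) * y⁻¹ = (y * r * y⁻¹) * ((y * y) * r⁻¹ * (y * y)⁻¹) := by group
          _ = (y * r * y⁻¹) * r⁻¹ := by rw [cm _ h.y2 _ (inv_mem hr)]; group
          _ = _ := by group
      have k2 : ∀ a ∈ R, ∀ b ∈ R, ⁅a, b * y⁆ ∈ K := fun a ha b hb => by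
        have e1 := conj_mem h.yN (inv_mem ha)
        have : ⁅a, b * y⁆ = a * (y * a * y⁻¹)⁻¹ := by
          calc ⁅a, b * y⁆ = a * (b * (y * a⁻¹ * y⁻¹)) * b⁻¹ := by rw [commutatorElement_def]; group
            _ = _ := by rw [cm _ hb _ e1]; group
        rw [this]; exact k1 a ha
      have hK : ⁅S, S⁆ ≤ K := by
        rw [commutator_le]
        intro a ha b hb
        rcases hx a ha with e | e <;> rcases hx b hb with f | f
        · rw [commutatorElement_eq_one_iff_mul_comm.2 (cm a e b f)]; exact one_mem _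
        · simpa using k2 a e _ f
        · rw [← commutatorElement_inv]; exact inv_mem (by simpa using k2 b f _ e)
        · obtain ⟨a', rfl⟩ : ∃ a', a = a' * y := ⟨a * y⁻¹, by group⟩
          obtain ⟨b', rfl⟩ : ∃ b', b = b' * y := ⟨b * y⁻¹, by group⟩
          simp only [mul_inv_cancel_right] at e f
          have e1 := conj_mem h.yN (mul_mem f (inv_mem e))
          have : ⁅a' * y, b' * y⁆ = ((b' * a'⁻¹) * (y * (b' * a'⁻¹) * y⁻¹)⁻¹)⁻¹ := by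
            calc ⁅a' * y, b' * y⁆ = a' * (y * (b' * a'⁻¹) * y⁻¹) * b'⁻¹ := by rw [commutatorElement_def]; group
              _ = _ := by rw [cm _ e _ e1]; group
          rw [this]; exact inv_mem (k1 _ (mul_mem f (inv_mem e)))
      exact hst ((hK hder).2.trans (H20.inv_eq_self_of_orderOf_two ho))
    · have ct : c * t = t * c := mem_cen1.1 (hH c1)
      have e1 : c⁻¹ * y * t * (c⁻¹ * y)⁻¹ ∈ S := by
        rw [← hcz, mem_cen1]
        have := mem_cen.1 s2 _ c2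
        calc c⁻¹ * y * t * (c⁻¹ * y)⁻¹ * z = c⁻¹ * (s * (c * z * c⁻¹)) * c := by rw [hs]; group
          _ = _ := by rw [← this, hs]; group
      obtain ⟨x, x1, x2⟩ := fus _ e1
      have e2 : s = c * (x * t * x⁻¹) * c⁻¹ := by rw [x2, hs]; group
      rcases hU x x1 with e | e
      · rw [e, ct, mul_inv_cancel_right] at e2
        exact hst e2
      · rw [e] at e2
        apply c3
        rw [hzts]
        calc c * (t * s) * c⁻¹ = c * t * c⁻¹ * (c * s * c⁻¹) := by group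
          _ = _ := by rw [← e2, ct, mul_inv_cancel_right]
  rcases H3.cyc_or_mc_of_no_normal_four h.syl.pi (fun A hA hE => hU (by
    have : Fact (Nat.Prime 2) := ⟨Nat.prime_two⟩
    have a0 := H3.relIndex_cen_dvd h.syl.pi hE.card hA.nrm
    have a1 : ⁅S, S⁆ ≤ C(A) := der_le_of_relIndex_dvd_sq Nat.prime_two (norms_cent hA.nrm) (a0.trans (by norm_num))
    have a2 : A ≤ R := (le_inf hA.le (le_cen1.2 (a1 hder))).trans hk
    have a3 : ∀ w ∈ A, w * w = 1 := fun w hw => by rw [← sq]; exact hE.abelem.pow hw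
    obtain ⟨a, a4, a5, a6⟩ := hw A (hA.mono a2 h.RS) a3 hE.card
    have hCN : C[a] ≤ N(⟪a⟫) := norms_zpowers_of_cen1 le_rfl
    have a7 := h.big' ⟪a⟫ (zpowers_ne_bot' a5) (h.sR.pi.mono (zpowers_le.2 (a2 a4))) (fun e => a6 (e.mono hCN))
      (C(A) ⊓ S) (inf_le_left.trans ((cen_le_cen1 a4).trans hCN)) (h.syl.pi.mono inf_le_right)
    rw [← card_inf_mul_relIndex C(A) S, mul_comm]
    exact Nat.mul_le_mul (Nat.le_of_dvd two_pos a0) a7)) with hc | ⟨a, b, m, hm⟩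
  · exact absurd (hk ⟨h.yS, mem_cen1.2 (hc.ab.comm h.yS (h.RS tR))⟩) h.yR
  · exact ⟨a, hm.a_mem, by rw [hm.card, hm.ord]; ring⟩

end Cf

end Cfsg.Agent.H4L
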