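import Mathlib
import Cfsg.Agent.H4.Ln2

/-! Short simple groups: the solvable case with `O(H) ≠ 1`. -/

set_option autoImplicit false
set_option linter.unusedSectionVars false

namespace Cfsg.Agent.H4L

open Cfsg Subgroup Cfsg.Agent.FT
open scoped commutatorElement

universe u

variable {G : Type u} [Group G] [Finite G]

theorem inv_fpf {V : Subgroup G} {x y : G} (hz : x * x = 1) (hn : x ∈ N(V)) (h : V ⊓ C[x] = ⊥) (hv : y ∈ V) :
    x * y * x⁻¹ = y⁻¹ := by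
  have h1 : MonoidHom.FixedPointFree ⇑(pfun (autHom V) x : MulAut V) := fun v e => Subtype.ext (eq_one_of_mem_inf h v.2 (by
    have := congrArg Subtype.val e
    rw [pfun_autHom hn] at this
    exact mem_cen1.2 (mul_inv_eq_iff_eq_mul.1 this).symm))
  have h2 : Function.Involutive ⇑(pfun (autHom V) x : MulAut V) := fun v => by
    rw [← MulAut.mul_apply, ← pfun_mul _ hn hn, hz, pfun_one, MulAut.one_apply]
  have := congrArg Subtype.val (congrFun (h1.coe_eq_inv_of_involutive h2) ⟨y, hv⟩)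
  rwa [pfun_autHom hn] at this

theorem ch_sup {n : ℕ} {O : Subgroup G} (h : Ch n O) : ∀ (r : ℕ) (R : Subgroup G), #R = 2 ^ r → R ≤ N(O) → O ⊓ R = ⊥ →
    Ch (n + r) (O ⊔ R)
  | 0, _, _, _, _ => h.mono le_sup_left
  | r + 1, R, hc, hn, hi => by
    obtain ⟨Q, hQ, hc'⟩ := exists_card_pow_le (H := R) (n := r) Nat.prime_two (hc ▸ pow_dvd_pow 2 r.le_succ)
    have hi' := inf_eq_bot_mono hi le_rfl hQ
    refine Ch.step (ch_sup h r Q hc' (hQ.trans hn) hi') (lt_of_card_lt (sup_le_sup_left hQ O) ?_)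
    rw [card_sup_of_inf hn hi, card_sup_of_inf (hQ.trans hn) hi', hc, hc']
    exact Nat.mul_lt_mul_of_pos_left (Nat.pow_lt_pow_right one_lt_two r.lt_succ_self) (card_pos O)

namespace Cf

variable {S R H : Subgroup G} {y : G}

theorem two_mul_le (h : Cf S R H y) : 2 * #R ≤ #S :=
  h.syl.pi.mul_card_le (lt_of_le_of_ne h.RS fun e => h.yR (e ▸ h.yS))

theorem caseB (h : Cf S R H y) (hp : _root_.commutator G = ⊤) (h2 : ¬ H ⊓ C(O[{2}](H)) ≤ R) (hs : Sol H) {k : ℕ}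
    (hS : #S = 2 ^ k) (hl : ¬ Ch (k + 2) (⊤ : Subgroup G)) (hH : H ≠ ⊤) : ∃ a ∈ S, 2 * orderOf a = #S := by
  set O := O[{2}ᶜ](H) with hO
  have o1 : O ≠ ⊥ := fun e => h2 ((cent_sub_pcore hs e).trans h.QR)
  have o2 : PiGrp {2}ᶜ O := pcore_pi _ _
  have o3 : O ⊴ H := pcore_nml _ _
  have o4 : ∀ K : Subgroup G, K ≤ O → PGrp 2 K → K = ⊥ := fun K a b => b.eq_bot (o2.mono a)
  have o5 : R ⊔ O = H := h.mx.sup_eq o3.le fun e => o1 (o4 _ le_rfl (h.sR.pi.mono e))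
  have o6 : R ⊓ C(O) ≤ O[{2}](H) := pcore_max (h.sR.pi.mono inf_le_left) ⟨inf_le_left.trans h.RH, by
    rw [← o5]
    exact sup_le (norms_subcent (le_nrm R) (h.RH.trans o3.nrm)) (cents_norm (centsC inf_le_right))⟩
  have o7 : ∀ a ∈ R, ∀ b ∈ R, a * a = 1 → b * b = 1 → O ⊓ C[a] = ⊥ → O ⊓ C[b] = ⊥ → a * b ∈ R ⊓ C(O) :=
    fun a ha b hb a2 b2 a3 b3 => ⟨mul_mem ha hb, mem_cen.2 fun v hv => by
      have e1 := inv_fpf a2 (o3.nrm (h.RH ha)) a3 (inv_mem hv)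
      have e2 := inv_fpf b2 (o3.nrm (h.RH hb)) b3 hv
      calc v * (a * b) = (a * v⁻¹ * a⁻¹) * (a * b) := by rw [e1, inv_inv]
        _ = a * (b * v * b⁻¹) * b := by rw [e2]; group
        _ = _ := by group⟩
  have o8 : ∀ a : G, PGrp 2 C[a] → O ⊓ C[a] = ⊥ := fun a e => o4 _ inf_le_left (e.mono inf_le_right)
  obtain ⟨t, hQ, hc, ho⟩ := h.exists_t
  obtain ⟨z, hz, hzc, hoz⟩ := h.exists_z
  obtain ⟨s1, s2, s3⟩ := h.s_spec h2 hQ hc ho
  have z2 := H20.mul_self_of_orderOf_two hoz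
  have hcz := h.cz z hz (H20.ne_one_of_orderOf_two hoz) hzc
  have zg : ∀ g : G, O ⊓ C[g * z * g⁻¹] = ⊥ := fun g => o8 _ (by rw [← cj_cen1, hcz]; exact h.syl.pi.cj g)
  have zg2 : ∀ g : G, g * z * g⁻¹ * (g * z * g⁻¹) = 1 := fun g =>
    H20.mul_self_of_orderOf_two (by rw [orderOf_conj, hoz])
  have z0 : O ⊓ C[z] = ⊥ := by simpa using zg 1
  have zR := h.ZS hz hzc
  have s4 : O ⊓ C[y * t * y⁻¹] = ⊥ := by
    by_contra hne
    have := h.mx.sup_eq (K := O ⊓ C[y * t * y⁻¹]) (inf_le_left.trans o3.le)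
      fun e => hne (o4 _ inf_le_left (h.sR.pi.mono e))
    have e : H ≤ C[y * t * y⁻¹] := by rw [← this]; exact sup_le (le_cen1.2 s2) inf_le_right
    exact s3 (o6 ⟨s1, le_cen1.1 (o3.le.trans e)⟩)
  refine h.fin hp h2 hQ hc ho (fun W w1 w2 w3 => ?_) hz hzc hoz (h.z_eq h2 hQ hc ho hzc (o6 (o7 _ zR _ s1 z2
    (H20.mul_self_of_orderOf_two (by rw [orderOf_conj, ho])) z0 s4))) (fun g hg => ⟨1, one_mem _, ?_⟩) fun hle => Or.inl ?_
  · by_contra hne
    push Not at hne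
    obtain ⟨a, a1, a2⟩ := exists_ne_one (H := W) (ne_bot_of_one_lt_card (by rw [w3]; norm_num))
    obtain ⟨b, b1, b2⟩ : ∃ b ∈ W, b ∉ ⟪a⟫ := by
      by_contra e
      push Not at e
      have := card_le (A := W) e
      rw [card_zpowers', H20.orderOf_two_of (w2 a a1) a2, w3] at this
      omega
    have b3 : b ≠ 1 := fun e => b2 (e ▸ one_mem _)
    have b4 : a * b ≠ 1 := fun e => b2 (by rw [eq_inv_of_mul_eq_one_right e]; exact inv_mem (mem_zpowers a))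
    have := o7 a (w1.le a1) b (w1.le b1) (w2 a a1) (w2 b b1) (o8 a (hne a a1 a2)) (o8 b (hne b b1 b3))
    exact o1 (o4 _ le_rfl ((hne _ (mul_mem a1 b1) b4).mono (le_cen1.2 this.2)))
  · have e1 := o6 (o7 _ hg _ zR (zg2 g) z2 (zg g) z0)
    have e2 := o6 (o7 (y * g * z * (y * g)⁻¹) (by simpa [mul_assoc] using conj_mem h.yN hg) _ zR (zg2 _) z2 (zg _) z0)
    have e3 : y * g * z * (y * g)⁻¹ * z = y * (g * z * g⁻¹ * z) * y⁻¹ := by
      calc y * g * z * (y * g)⁻¹ * z = y * (g * z * g⁻¹) * y⁻¹ * (z * y) * y⁻¹ := by group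
        _ = _ := by rw [← mem_cen.1 hzc y h.yS]; group
    rw [e3] at e2
    have e4 := eq_one_of_mem_inf (h.inf2 h2) e2 (conj_mem_cj.2 e1)
    have e5 : g * z * g⁻¹ * z = 1 := by simpa using e4
    rw [eq_inv_of_mul_eq_one_left e5, H20.inv_eq_self_of_orderOf_two hoz]; simp
  · obtain ⟨r, hr⟩ := h.sR.pi.card
    have hk : k = r + 1 := by
      have := le_antisymm hle h.two_mul_le
      rw [hS, hr, ← pow_succ'] at this
      exact Nat.pow_right_injective le_rfl this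
    have hcy : Cyc O := by
      obtain ⟨p, p1, p2⟩ := exists_prime_dvd_card o1
      obtain ⟨X, x1, x2⟩ := exists_card_prime_le p1 p2
      by_cases e : X = O
      · exact e ▸ cyc_of_prime (x2 ▸ p1)
      · exfalso
        have c1 : Ch 2 O := Ch.step (Ch.step (Ch.zero ⊥) (bot_lt_iff_ne_bot.2 (ne_bot_of_prime_card (x2 ▸ p1))))
          (lt_of_le_of_ne x1 e)
        have c2 := ch_sup c1 r R hr (h.RH.trans o3.nrm) (o4 _ inf_le_left (h.sR.pi.mono inf_le_right))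
        rw [sup_comm, o5] at c2
        exact hl (by rw [hk, show r + 1 + 2 = 2 + r + 1 by ring]; exact Ch.step c2 (lt_top_iff_ne_top.2 hH))
    have d1 : ⁅R, R⁆ ≤ O[{2}](H) := (le_inf (der_le R) (hcy.der_cents (h.RH.trans o3.nrm))).trans o6
    have d2 : ⁅R, R⁆ ≤ cj y O[{2}](H) := by
      have := cj_mono y d1
      rwa [cj_comm, h.cjR] at this
    exact ab_iff_der.2 (eq_bot_of_le (le_inf d1 d2) (h.inf2 h2))

end Cf

end Cfsg.Agent.H4L
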