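import Mathlib
import Cfsg.Prelude.Def_SylowChains
import Cfsg.Agent.H4.AG

/-! Families of subgroups controlling Sylow intersections. -/

set_option autoImplicit false
set_option linter.unusedSectionVars false
set_option linter.unusedVariables false

namespace Cfsg.Agent.H4

open Subgroup Cfsg.Agent.H18 Cfsg.Agent.H22 Relation
open scoped commutatorElement Pointwise

theorem rtg_iff_fin {α : Type*} {r : α → α → Prop} {a b : α} : ReflTransGen r a b ↔
    ∃ (n : ℕ) (c : Fin (n + 1) → α), c 0 = a ∧ c (Fin.last n) = b ∧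
      ∀ i : Fin n, r (c i.castSucc) (c i.succ) := by
  constructor
  · intro h
    obtain ⟨l, hl, hl'⟩ := List.exists_isChain_cons_of_relationReflTransGen h
    refine ⟨l.length, fun i => (a :: l)[i], rfl, ?_, fun i => ?_⟩
    · rw [← hl', List.getLast_eq_getElem]; simp
    · exact List.isChain_iff_getElem.mp hl i (by simp)
  · rintro ⟨n, c, rfl, rfl, h⟩
    have : ∀ i, ReflTransGen r (c 0) (c i) := by
      intro i
      induction i using Fin.induction with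
      | zero => exact ReflTransGen.refl
      | succ i ih => exact ih.tail (h i)
    exact this _

variable {G : Type*} [Group G] [Finite G] {p : ℕ} [hp : Fact p.Prime]

/-- One step of a chain of Sylow subgroups. -/
def Step (p : ℕ) (𝓕 : Set (Subgroup G)) (D A B : Subgroup G) : Prop :=
  ∃ X ∈ 𝓕, SylIn p (A ⊓ X) X ∧ SylIn p (B ⊓ X) X ∧ (∃ x ∈ X, cj x A = B) ∧ D ≤ A ∧ D ≤ B ∧ D ≤ X

/-- Control of Sylow intersections in `H`. -/
def Ctrl (p : ℕ) (𝓕 : Set (Subgroup G)) (H : Subgroup G) : Prop :=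
  ∀ S T, SylIn p S H → SylIn p T H → S ⊓ T ≠ ⊥ → ReflTransGen (Step p 𝓕 (S ⊓ T)) S T

theorem Step.mono {𝓕 𝓕' : Set (Subgroup G)} {D D' A B : Subgroup G} (h : Step p 𝓕 D A B)
    (h1 : 𝓕 ⊆ 𝓕') (h2 : D' ≤ D) : Step p 𝓕' D' A B := by
  obtain ⟨X, a, b, c, d, e, f, g⟩ := h
  exact ⟨X, h1 a, b, c, d, h2.trans e, h2.trans f, h2.trans g⟩

theorem rtg_mono {𝓕 𝓕' : Set (Subgroup G)} {D D' A B : Subgroup G}
    (h : ReflTransGen (Step p 𝓕 D) A B) (h1 : 𝓕 ⊆ 𝓕') (h2 : D' ≤ D) :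
    ReflTransGen (Step p 𝓕' D') A B := by
  induction h with
  | refl => exact ReflTransGen.refl
  | tail _ h ih => exact ih.tail (h.mono h1 h2)

theorem Step.cj {𝓕 : Set (Subgroup G)} {D A B : Subgroup G} (h : Step p 𝓕 D A B) {g : G}
    (hg : ∀ X ∈ 𝓕, cj g X ∈ 𝓕) : Step p 𝓕 (cj g D) (cj g A) (cj g B) := by
  obtain ⟨X, a, b, c, ⟨x, hx, d⟩, e, f, k⟩ := h
  refine ⟨_, hg X a, by rw [← cj_inf]; exact sylIn_cj b g, by rw [← cj_inf]; exact sylIn_cj c g,
    ⟨_, conj_mem_cj hx, ?_⟩, cj_mono g e, cj_mono g f, cj_mono g k⟩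
  rw [← d, ← cj_mul, ← cj_mul, inv_mul_cancel_right]

theorem rtg_cj {𝓕 : Set (Subgroup G)} {D A B : Subgroup G} (h : ReflTransGen (Step p 𝓕 D) A B)
    {g : G} (hg : ∀ X ∈ 𝓕, cj g X ∈ 𝓕) : ReflTransGen (Step p 𝓕 (cj g D)) (cj g A) (cj g B) :=
  h.lift (cj g) fun _ _ h => h.cj hg

theorem mem_sylowMembers {𝓕 : Set (Subgroup G)} {S X : Subgroup G} :
    X ∈ sylowMembers p 𝓕 S ↔ X ∈ 𝓕 ∧ SylIn p (S ⊓ X) X := by
  refine and_congr_right fun _ => ⟨?_, fun h => ?_⟩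
  · rintro ⟨P, e⟩
    exact e ▸ sylIn_map_subtype P
  · obtain ⟨P, e⟩ := h.exists_sylow
    exact ⟨P, by rw [e, map_subgroupOf_eq_of_le inf_le_right]⟩

theorem cj_mem_of_normalSet {𝓕 : Set (Subgroup G)} (h : IsNormalSet 𝓕) (g : G) :
    ∀ X ∈ 𝓕, cj g X ∈ 𝓕 := fun X hX => by
  have := h X hX g⁻¹
  rwa [subgroupConjRight, inv_inv] at this

theorem ctrl_top_iff {𝓕 : Set (Subgroup G)} : ControlsSylowIntersections p 𝓕 ↔ Ctrl p 𝓕 ⊤ := by
  constructor
  · intro h S T hS hT hne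
    obtain ⟨S, rfl⟩ := hS.exists_sylow_top
    obtain ⟨T, rfl⟩ := hT.exists_sylow_top
    by_cases e : S = T
    · rw [e]
    obtain ⟨n, c, X, x, h0, h1, h2⟩ := h S T e hne
    have h3 : ∀ i, (S : Subgroup G) ⊓ T ≤ c i := fun i => by
      refine Fin.cases (h0 ▸ inf_le_left) (fun j => (h2 j).2.2.2.2.trans inf_le_left) i
    refine rtg_iff_fin.2 ⟨n, fun i => c i, congrArg _ h0, congrArg _ h1, fun i => ?_⟩
    obtain ⟨a, b, d, e, f⟩ := h2 i
    exact ⟨X i, a.1, (mem_sylowMembers.1 a).2, (mem_sylowMembers.1 b).2,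
      ⟨x i, d, by beta_reduce; rw [← e, subgroupConjRight, cj_def, cj_cj_inv]⟩, h3 _, h3 _, f.trans inf_le_right⟩
  · intro h S T _ hne
    obtain ⟨n, c, h0, h1, h2⟩ := rtg_iff_fin.1 (h S T (sylIn_top S) (sylIn_top T) hne)
    have h3 : ∀ i, SylIn p (c i) ⊤ := by
      intro i
      induction i using Fin.induction with
      | zero => exact h0 ▸ sylIn_top S
      | succ i ih =>
        obtain ⟨X, -, -, -, ⟨x, -, e⟩, -⟩ := h2 i
        exact e ▸ sylIn_cj_mem ih (mem_top x)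
    choose c' hc' using fun i => (h3 i).exists_sylow_top
    choose X a b d x e using h2
    choose x hx using x
    refine ⟨n, c', X, x, Sylow.ext (by rw [hc', h0]), Sylow.ext (by rw [hc', h1]), fun i => ?_⟩
    rw [hc', hc']
    exact ⟨mem_sylowMembers.2 ⟨a i, b i⟩, mem_sylowMembers.2 ⟨a i, d i⟩, (hx i).1,
      by rw [← (hx i).2, subgroupConjRight, cj_def, cj_inv_cj], le_inf (e i).2.1 (e i).2.2⟩

theorem Step.map {G' : Type*} [Group G'] [Finite G'] {f : G →* G'} (hf : Function.Injective f)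
    {𝓕 : Set (Subgroup G)} {𝓕' : Set (Subgroup G')} (h𝓕 : ∀ X ∈ 𝓕, X.map f ∈ 𝓕')
    {D A B : Subgroup G} (h : Step p 𝓕 D A B) : Step p 𝓕' (D.map f) (A.map f) (B.map f) := by
  obtain ⟨X, a, b, c, ⟨x, hx, d⟩, e, k, l⟩ := h
  exact ⟨_, h𝓕 X a, by rw [← map_inf _ _ _ hf]; exact b.map f, by rw [← map_inf _ _ _ hf]; exact c.map f,
    ⟨_, mem_map_of_mem f hx, by rw [← map_cj, d]⟩, map_mono e, map_mono k, map_mono l⟩

theorem mem_functorFamily {f : Subgroup G → Set (Subgroup G)} {M X : Subgroup G} :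
    X ∈ functorFamily p f M ↔ ∃ P, SylIn p P M ∧ ∃ F ∈ f P, X = M ⊓ N[F] := by
  constructor
  · rintro ⟨P, h⟩
    exact ⟨_, sylIn_map_subtype P, h⟩
  · rintro ⟨P, hP, h⟩
    obtain ⟨P', e⟩ := hP.exists_sylow
    exact ⟨P', by rwa [e, map_subgroupOf_eq_of_le hP.le]⟩

theorem ctrl_of_regular {f : Subgroup G → Set (Subgroup G)} {M : Subgroup G}
    (h : IsFunctorRegular p f M) : Ctrl p (functorFamily p f M) M := by
  intro S T hS hT hne
  obtain ⟨S', e1⟩ := hS.exists_sylow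
  obtain ⟨T', e2⟩ := hT.exists_sylow
  have e0 : (S ⊓ T).subgroupOf M = S.subgroupOf M ⊓ T.subgroupOf M := rfl
  have h1 := ctrl_top_iff.1 h _ _ (sylIn_top S') (sylIn_top T') (fun e => hne (by
    rw [← map_subgroupOf_eq_of_le (inf_le_left.trans hS.le : S ⊓ T ≤ M), e0, ← e1, ← e2, e,
      Subgroup.map_bot]))
  have h2 := h1.lift (Subgroup.map M.subtype) fun _ _ h => h.map M.subtype_injective
    (𝓕' := functorFamily p f M) (by
      rintro _ ⟨X, hX, rfl⟩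
      obtain ⟨P, -, F, -, e⟩ := mem_functorFamily.1 hX
      rwa [map_subgroupOf_eq_of_le (e ▸ inf_le_left)])
  rwa [Function.onFun, e1, e2, ← e0, map_subgroupOf_eq_of_le hS.le, map_subgroupOf_eq_of_le hT.le,
    map_subgroupOf_eq_of_le (inf_le_left.trans hS.le)] at h2

theorem regular_top {f : Subgroup G → Set (Subgroup G)}
    (h : Ctrl p (functorFamily p f ⊤) ⊤) : IsFunctorRegular p f ⊤ := by
  refine ctrl_top_iff.2 fun S T hS hT hne => ?_
  have hi := (⊤ : Subgroup G).subtype_injective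
  have a := hS.map (⊤ : Subgroup G).subtype
  have b := hT.map (⊤ : Subgroup G).subtype
  rw [map_subtype_top] at a b
  have h1 := h _ _ a b (by rwa [← map_inf _ _ _ hi, Ne, map_eq_bot_iff_of_injective _ hi])
  have e : ∀ X : Subgroup G, X.map topEquiv.symm.toMonoidHom = X.subgroupOf ⊤ := fun X => by
    ext x; rw [mem_map_equiv]; rfl
  have h2 := h1.lift (Subgroup.map topEquiv.symm.toMonoidHom) fun _ _ h => h.map topEquiv.symm.injective
    (𝓕' := (fun X : Subgroup G => X.subgroupOf ⊤) '' functorFamily p f ⊤) fun X hX => ⟨X, hX, (e X).symm⟩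
  rwa [Function.onFun, ← map_inf _ _ _ hi, e, e, e, map_subtype_subgroupOf, map_subtype_subgroupOf,
    map_subtype_subgroupOf] at h2

theorem cj_mem_functorFamily_top {f : Subgroup G → Set (Subgroup G)} (hf : IsNormalizerFunctor p f)
    (g : G) : ∀ X ∈ functorFamily p f ⊤, cj g X ∈ functorFamily p f ⊤ := by
  intro X hX
  obtain ⟨P, hP, F, hF, rfl⟩ := mem_functorFamily.1 hX
  refine mem_functorFamily.2 ⟨_, sylIn_cj_mem hP (mem_top g), cj g F, ?_, by rw [cj_inf, cj_top, cj_N]⟩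
  rw [← cj_def, (hf P hP.isP).2 g]
  exact ⟨F, hF, rfl⟩

theorem step_functor {f : Subgroup G → Set (Subgroup G)} (hf : IsNormalizerFunctor p f)
    {M D A B : Subgroup G} (h : Step p (functorFamily p f M) D A B) (hA : SylIn p A M) :
    SylIn p B M ∧ D ≤ A ∧ D ≤ B ∧ ∃ P, SylIn p P M ∧ ∃ F ∈ f P, A ≤ N[F] ∧ ∃ x ∈ N[F], cj x A = B := by
  obtain ⟨X, a, b, c, ⟨x, hx, d⟩, e, k, l⟩ := h
  obtain ⟨P, hP, F, hF, rfl⟩ := mem_functorFamily.1 a
  refine ⟨d ▸ sylIn_cj_mem hA hx.1, e, k, P, hP, F, hF, ?_, x, hx.2, d⟩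
  have h1 := b.card_le (le_inf hP.le (le_normalizer.trans ((hf P hP.isP).1 F hF).2)) hP.isP
  rw [← hA.card_eq hP] at h1
  exact (eq_of_le_of_card_ge inf_le_left h1).ge.trans (inf_le_right.trans inf_le_right)

theorem step_top {f : Subgroup G → Set (Subgroup G)} (hf : IsNormalizerFunctor p f)
    {M D A B : Subgroup G} (h : Step p (functorFamily p f M) D A B) (hA : SylIn p A M)
    (hA' : SylIn p A ⊤) : Step p (functorFamily p f ⊤) D A B := by
  obtain ⟨hB, a, b, P, hP, F, hF, c, x, hx, d⟩ := step_functor hf h hA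
  have h1 : B ≤ N[F] := d ▸ cj_le_of_mem hx c
  have hB' : SylIn p B ⊤ := d ▸ sylIn_cj_mem hA' (mem_top x)
  refine ⟨N[F], mem_functorFamily.2 ⟨P, hA'.of_card_le le_top hP.isP (hA.card_eq hP).le, F, hF,
    (top_inf_eq _).symm⟩, ?_, ?_, ⟨x, hx, d⟩, a, b, a.trans c⟩
  · rw [inf_eq_left.2 c]; exact hA'.mono c le_top
  · rw [inf_eq_left.2 h1]; exact hB'.mono h1 le_top

theorem rtg_top {f : Subgroup G → Set (Subgroup G)} (hf : IsNormalizerFunctor p f)
    {M D A B : Subgroup G} (h : ReflTransGen (Step p (functorFamily p f M) D) A B) (hA : SylIn p A M)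
    (hA' : SylIn p A ⊤) : ReflTransGen (Step p (functorFamily p f ⊤) D) A B ∧ SylIn p B M := by
  induction h with
  | refl => exact ⟨ReflTransGen.refl, hA⟩
  | tail _ h ih => exact ⟨ih.1.tail (step_top hf h ih.2
      (hA'.of_card_le le_top ih.2.isP (hA.card_eq ih.2).le)), (step_functor hf h ih.2).1⟩

/-- The steps of a factorization with respect to a family. -/
def FamF (p : ℕ) (𝓕 : Set (Subgroup G)) (S T : Subgroup G) (x : G) : Prop :=
  ∃ Y ∈ 𝓕, SylIn p (S ⊓ Y) Y ∧ x ∈ Y ∧ T = cj x (S ⊓ Y)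

theorem chain_of_rtg {𝓕 : Set (Subgroup G)} (h𝓕 : IsNormalSet 𝓕) {D S T : Subgroup G}
    (h : ReflTransGen (Step p 𝓕 D) S T) : ∃ k, cj k S = T ∧ FusionChain (FamF p 𝓕 S) D k := by
  induction h with
  | refl => exact ⟨1, cj_one S, FusionChain.nil _⟩
  | tail _ h ih =>
    obtain ⟨k, rfl, h1⟩ := ih
    obtain ⟨X, a, b, c, ⟨x, hx, rfl⟩, e, l, m⟩ := h
    refine ⟨k * (k⁻¹ * x * k), by rw [← cj_mul]; congr 1; group, h1.trans (FusionChain.single
      ⟨_, cj_mem_of_normalSet h𝓕 k⁻¹ X a, ?_, by simpa using conj_mem_cj (g := k⁻¹) hx, rfl⟩ ?_)⟩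
    · have := sylIn_cj b k⁻¹
      rwa [cj_inf, cj_inv_cj] at this
    · rintro _ ⟨d, hd, rfl⟩
      refine mem_cj.2 ⟨?_, ?_⟩
      · have := mem_cj.1 (mem_cj.1 (l hd))
        simpa [mul_assoc] using this
      · have := conj_mem_cj (g := k⁻¹) (X.mul_mem (X.mul_mem (X.inv_mem hx) (m hd)) hx)
        simpa [mul_assoc] using this

theorem rtg_of_chain {𝓕 : Set (Subgroup G)} (h𝓕 : IsNormalSet 𝓕) {D S : Subgroup G} {A : Set G}
    {g : G} (h : FusionChain (FamF p 𝓕 S) A g) : ∀ k, (∀ d ∈ D, k⁻¹ * d * k ∈ A) → D ≤ cj k S →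
      ReflTransGen (Step p 𝓕 D) (cj k S) (cj (k * g) S) := by
  induction h with
  | nil A => intro k _ _; rw [mul_one]
  | cons A T x g h1 h2 _ ih =>
    intro k h3 h4
    obtain ⟨Y, a, b, c, rfl⟩ := h1
    have h5 : D ≤ cj (k * x) (S ⊓ Y) := fun d hd => by
      rw [cj_mul]; exact mem_cj.2 (h2 (h3 d hd))
    have e : cj (k * x) Y = cj k Y := by rw [cj_mul, cj_eq_of_mem c]
    rw [← mul_assoc]
    refine (ih (k * x) (fun d hd => ⟨_, h3 d hd, by simp [mul_assoc]⟩)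
      (h5.trans (cj_mono _ inf_le_left))).head ⟨_, cj_mem_of_normalSet h𝓕 k Y a,
        by rw [← cj_inf]; exact sylIn_cj b k, by rw [← e, ← cj_inf]; exact sylIn_cj b _,
        ⟨_, conj_mem_cj c, by rw [← cj_mul, inv_mul_cancel_right]⟩, h4,
        h5.trans (cj_mono _ inf_le_left), e ▸ h5.trans (cj_mono _ inf_le_right)⟩

end Cfsg.Agent.H4
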