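import Mathlib
import Cfsg.Agent.L1.Se0

/-! The `3`-local characterization of `S₈`: the centralizer of `(0 1)(2 3)`. -/

set_option autoImplicit false
set_option linter.unusedVariables false
set_option linter.unusedSectionVars false

namespace Cfsg.Agent.L1Se

open Subgroup Equiv

universe u

variable {G : Type u} [Group G] [Finite G] {f : Perm (Fin 8) →* G}

def pA3_d : Perm (Fin 8) := swap 0 1 * swap 2 3

def pA3_P (F : Fin 8 → Fin 8) : Prop :=
  ((∀ i, F (swap 4 5 i) = swap 4 5 (F i)) ∨ (∀ i, F (swap 5 6 i) = swap 5 6 (F i)) ∨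
    (∀ i, F (swap 6 7 i) = swap 6 7 (F i)) ∨
    ((∀ i, F ((swap 4 5 * swap 5 6 : Perm (Fin 8)) i) = (swap 4 5 * swap 5 6 : Perm (Fin 8)) (F i)) ∧
      ∀ i, F ((swap 5 6 * swap 6 7 : Perm (Fin 8)) i) = (swap 5 6 * swap 6 7 : Perm (Fin 8)) (F i))) →
    ∀ i, F (F (F (F i))) = i

instance (F : Fin 8 → Fin 8) : Decidable (pA3_P F) := by unfold pA3_P; infer_instance

set_option synthInstance.maxSize 4000 in
set_option synthInstance.maxHeartbeats 400000 in
theorem pA3_tab : ∀ x0, pA3_d x0 ≠ x0 → ∀ x2, pA3_d x2 ≠ x2 → x2 ≠ x0 → x2 ≠ pA3_d x0 → ∀ x4, pA3_d x4 = x4 →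
    ∀ x5, pA3_d x5 = x5 → x5 ≠ x4 → ∀ x6, pA3_d x6 = x6 → x6 ≠ x4 → x6 ≠ x5 → ∀ x7, pA3_d x7 = x7 → x7 ≠ x4 →
    x7 ≠ x5 → x7 ≠ x6 → pA3_P ![x0, pA3_d x0, x2, pA3_d x2, x4, x5, x6, x7] := by
  decide +kernel

theorem pA3_four {h : Perm (Fin 8)} (hd : h * pA3_d = pA3_d * h)
    (hs : h * swap 4 5 = swap 4 5 * h ∨ h * swap 5 6 = swap 5 6 * h ∨ h * swap 6 7 = swap 6 7 * h ∨
      (h * (swap 4 5 * swap 5 6) = swap 4 5 * swap 5 6 * h ∧ h * (swap 5 6 * swap 6 7) = swap 5 6 * swap 6 7 * h)) :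
    h ^ 4 = 1 := by
  have e : ∀ i, h (pA3_d i) = pA3_d (h i) := fun i => DFunLike.congr_fun hd i
  have n : ∀ i j, i ≠ j → h i ≠ h j := fun i j a b => a (h.injective b)
  have := pA3_tab (h 0) (e 0 ▸ n _ _ (by decide)) (h 2) (e 2 ▸ n _ _ (by decide)) (n _ _ (by decide))
    (e 0 ▸ n _ _ (by decide)) (h 4) (e 4).symm (h 5) (e 5).symm (n _ _ (by decide)) (h 6) (e 6).symm
    (n _ _ (by decide)) (n _ _ (by decide)) (h 7) (e 7).symm (n _ _ (by decide)) (n _ _ (by decide))
    (n _ _ (by decide))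
  have q : ![h 0, pA3_d (h 0), h 2, pA3_d (h 2), h 4, h 5, h 6, h 7] = (h : Fin 8 → Fin 8) := by
    funext i
    fin_cases i
    exacts [rfl, (e 0).symm, rfl, (e 2).symm, rfl, rfl, rfl, rfl]
  rw [q] at this
  refine Equiv.ext (this ?_)
  rcases hs with a | a | a | ⟨a, b⟩
  · exact Or.inl fun i => DFunLike.congr_fun a i
  · exact Or.inr (Or.inl fun i => DFunLike.congr_fun a i)
  · exact Or.inr (Or.inr (Or.inl fun i => DFunLike.congr_fun a i))
  · exact Or.inr (Or.inr (Or.inr ⟨fun i => DFunLike.congr_fun a i, fun i => DFunLike.congr_fun b i⟩))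

theorem pA3_sw : ∀ i j : Fin 8, i ≠ j → (swap i j * pA3_d).support.card = 2 →
    swap i j = swap 0 1 ∨ swap i j = swap 0 1 * pA3_d := by
  decide +kernel

theorem pA3_cj {a b : Perm (Fin 8)} (h : ∀ g, Commute g (f a) → g ∈ f.range) (c : IsConj a b) {g : G}
    (e : g * f a * g⁻¹ = f b) : g ∈ f.range := by
  obtain ⟨p, rfl⟩ := isConj_iff.1 c
  rw [map_mul, map_mul, map_inv] at e
  have := h ((f p)⁻¹ * g) (by
    show _ = _
    calc (f p)⁻¹ * g * f a = (f p)⁻¹ * (g * f a * g⁻¹) * g := by group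
      _ = _ := by rw [e]; group)
  simpa using mul_mem (⟨p, rfl⟩ : f p ∈ f.range) this

theorem pA3_cj' {a b : Perm (Fin 8)} (h : ∀ g, Commute g (f a) → g ∈ f.range) (c : IsConj a b) (g : G)
    (e : Commute g (f b)) : g ∈ f.range := by
  obtain ⟨p, rfl⟩ := isConj_iff.1 c
  have e' := e.eq
  rw [map_mul, map_mul, map_inv] at e'
  have := h ((f p)⁻¹ * g * f p) (by
    show _ = _
    calc (f p)⁻¹ * g * f p * f a = (f p)⁻¹ * (g * (f p * f a * (f p)⁻¹)) * f p := by group
      _ = _ := by rw [e']; group)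
  have k := mul_mem (mul_mem (⟨p, rfl⟩ : f p ∈ f.range) this) (inv_mem (⟨p, rfl⟩ : f p ∈ f.range))
  rwa [show f p * ((f p)⁻¹ * g * f p) * (f p)⁻¹ = g by group] at k

theorem pA3_fu (hf : FU f) {i j : Fin 8} (hij : i ≠ j) {g : G} {b : Perm (Fin 8)}
    (e : g * f (swap i j) * g⁻¹ = f b) : b.IsSwap := by
  obtain ⟨p, hp⟩ := isConj_iff.1 (Perm.isConj_swap (show (6 : Fin 8) ≠ 7 by decide) hij)
  refine hf (g * f p) b ?_
  rw [← e, ← hp, map_mul, map_mul, map_inv]; group

theorem pA3 (zs : ZS.{u}) (h : SH f) (hf : FU f) : CD f := by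
  have cS : ∀ {i j : Fin 8}, i ≠ j → ∀ g, Commute g (f (swap i j)) → g ∈ f.range := fun hij =>
    pA3_cj' h.cT (Perm.isConj_swap (by decide) hij)
  have dd : f pA3_d * f pA3_d = 1 := by rw [← map_mul, show pA3_d * pA3_d = 1 by decide, map_one]
  obtain ⟨Y, _, _, π, sur, hk⟩ : ∃ (Y : Type u) (_ : Group Y) (_ : Finite Y)
      (π : centralizer ({f pA3_d} : Set G) →* Y), Function.Surjective π ∧
        ∀ x y, π x = π y ↔ x.1 = y.1 ∨ x.1 = y.1 * f pA3_d := by
    let d0 : centralizer ({f pA3_d} : Set G) := ⟨f pA3_d, mem_centralizer_singleton_iff.2 rfl⟩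
    have c : ∀ g, g * d0 = d0 * g := fun g => Subtype.ext (mem_centralizer_singleton_iff.1 g.2)
    have d2 : d0 ^ (2 : ℤ) = 1 := by rw [zpow_two]; exact Subtype.ext dd
    haveI : (zpowers d0).Normal := ⟨by
      rintro _ ⟨n, rfl⟩ g
      rw [(Commute.zpow_right (c g) n).eq, mul_inv_cancel_right]
      exact zpow_mem (mem_zpowers _) n⟩
    refine ⟨_ ⧸ zpowers d0, inferInstance, inferInstance, QuotientGroup.mk' _, QuotientGroup.mk'_surjective _,
      fun x y => ?_⟩
    rw [eq_comm, QuotientGroup.mk'_apply, QuotientGroup.mk'_apply, QuotientGroup.eq]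
    constructor
    · rintro ⟨n, hn⟩
      have hn : d0 ^ n = y⁻¹ * x := hn
      rw [eq_inv_mul_iff_mul_eq] at hn
      rcases Int.even_or_odd' n with ⟨k, rfl | rfl⟩
      · rw [zpow_mul, d2, one_zpow, mul_one] at hn
        exact Or.inl (by rw [hn])
      · rw [zpow_add, zpow_mul, d2, one_zpow, one_mul, zpow_one] at hn
        exact Or.inr (by rw [← hn]; rfl)
    · rintro (e | e)
      · rw [Subtype.ext e, inv_mul_cancel]; exact one_mem _
      · rw [show x = y * d0 from Subtype.ext e, inv_mul_cancel_left]; exact mem_zpowers _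
  let el : ∀ a : Perm (Fin 8), a * pA3_d = pA3_d * a → centralizer ({f pA3_d} : Set G) := fun a e =>
    ⟨f a, mem_centralizer_singleton_iff.2 (by rw [← map_mul, e, map_mul])⟩
  let t0 := el (swap 0 1) (by decide)
  have key : ∀ g : G, g * f (swap 0 1) * g⁻¹ = f (swap 0 1) ∨ g * f (swap 0 1) * g⁻¹ = f (swap 0 1) * f pA3_d →
      g ∈ f.range := by
    rintro g (e | e)
    · exact pA3_cj (cS (by decide)) (IsConj.refl _) e
    · rw [← map_mul, show swap 0 1 * pA3_d = swap 2 3 by decide] at e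
      exact pA3_cj (cS (by decide)) (Perm.isConj_swap (by decide) (by decide)) e
  haveI : Fact (Nat.Prime 2) := ⟨Nat.prime_two⟩
  obtain ⟨O, On, Oo, Oc⟩ := zs Y (π t0) (by
    refine orderOf_eq_prime ?_ fun e => ?_
    · rw [← map_pow, show t0 ^ 2 = 1 from Subtype.ext (by
        show f _ ^ 2 = 1
        rw [← map_pow, pow_two, swap_mul_self, map_one]), map_one]
    · rw [← map_one π, hk] at e
      rcases e with e | e
      · exact absurd (h.inj (e.trans (map_one f).symm)) (by decide)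
      · exact absurd (h.inj (e.trans (one_mul _))) (by decide)) (by
    intro g hc
    obtain ⟨g, rfl⟩ := sur g
    rw [← map_inv, ← map_mul, ← map_mul] at hc ⊢
    have e1 : π (g * t0 * g⁻¹ * t0 * (g * t0 * g⁻¹)⁻¹) = π t0 := by
      rw [map_mul, map_mul _ _ t0, hc.eq, map_inv, mul_inv_cancel_right]
    obtain ⟨b, hb⟩ := key _ ((hk _ _).1 e1)
    have hb : g.1 * f (swap 0 1) * g.1⁻¹ = f b := hb.symm
    obtain ⟨i, j, hij, rfl⟩ := pA3_fu hf (by decide) hb
    have e2 : g.1 * f (swap 2 3) * g.1⁻¹ = f (swap i j * pA3_d) := by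
      have c : g.1 * f pA3_d = f pA3_d * g.1 := mem_centralizer_singleton_iff.1 g.2
      rw [map_mul, ← hb, show swap (2 : Fin 8) 3 = swap 0 1 * pA3_d by decide, map_mul]
      calc _ = g.1 * f (swap 0 1) * g.1⁻¹ * (g.1 * f pA3_d) * g.1⁻¹ := by group
        _ = _ := by rw [c]; group
    refine (hk _ _).2 ?_
    rcases pA3_sw i j hij (Perm.card_support_eq_two.2 (pA3_fu hf (by decide) e2)) with e | e
    · exact Or.inl (hb.trans (by rw [e]))
    · exact Or.inr (hb.trans (by rw [e, map_mul])))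
  have odd : ∀ (x : centralizer ({f pA3_d} : Set G)) (b : Perm (Fin 8)), π x ∈ O → f b = x.1 → b ^ 4 = 1 →
      π x = 1 := fun x b hx e b4 => by
    have x4 : π x ^ 4 = 1 := by
      rw [← map_pow, show x ^ 4 = 1 from Subtype.ext (by
        show x.1 ^ 4 = 1
        rw [← e, ← map_pow, b4, map_one]), map_one]
    exact orderOf_eq_one_iff.1 (Nat.eq_one_of_dvd_coprimes ((Nat.coprime_two_left.2 Oo).pow_left 2)
      (orderOf_dvd_of_pow_eq_one x4) (O.orderOf_dvd_natCard hx))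
  have cm : ∀ {a b : Perm (Fin 8)}, f a * f b = f b * f a → a * b = b * a := fun e =>
    h.inj (by rw [map_mul, map_mul, e])
  have inv : ∀ (i j : Fin 8) (hij : i ≠ j) (c : swap i j * pA3_d = pA3_d * swap i j),
      (swap i j * pA3_d).support.card ≠ 2 →
      (∀ b, b * pA3_d = pA3_d * b → b * swap i j = swap i j * b → b ^ 4 = 1) →
      ∀ o ∈ O, π (el _ c) * o * (π (el _ c))⁻¹ = o⁻¹ := fun i j hij c ns b4 o ho => by
    have ss : π (el _ c) * π (el _ c) = 1 := by
      rw [← map_mul, show el _ c * el _ c = 1 from Subtype.ext (by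
        show f _ * f _ = 1
        rw [← map_mul, swap_mul_self, map_one]), map_one]
    have fp : MonoidHom.FixedPointFree (MulAut.conjNormal (π (el _ c)) : MulAut O) := by
      rintro ⟨x, hx⟩ e
      obtain ⟨x, rfl⟩ := sur x
      have e1 : π (el _ c) * π x * (π (el _ c))⁻¹ = π x := congrArg Subtype.val e
      have e2 : π (x * el _ c * x⁻¹) = π (el _ c) := by
        rw [map_mul, map_mul, map_inv, mul_inv_eq_iff_eq_mul]
        exact (mul_inv_eq_iff_eq_mul.1 e1).symm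
      rcases (hk _ _).1 e2 with e3 | e3
      · have e4 : x.1 * f (swap i j) = f (swap i j) * x.1 := mul_inv_eq_iff_eq_mul.1 e3
        obtain ⟨b, hb⟩ := cS hij _ e4
        exact Subtype.ext (odd x b hx hb (b4 b (cm (hb ▸ mem_centralizer_singleton_iff.1 x.2)) (cm (hb ▸ e4))))
      · exact absurd (Perm.card_support_eq_two.2 (pA3_fu hf hij (e3.trans (map_mul f _ _).symm))) ns
    have := fp.coe_eq_inv_of_involutive (fun x => by
      rw [← MulAut.mul_apply, ← map_mul, ss, map_one, MulAut.one_apply])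
    exact congrArg Subtype.val (congrFun this ⟨o, ho⟩)
  have i1 := inv 4 5 (by decide) (by decide) (by decide) fun b x y => pA3_four x (Or.inl y)
  have i2 := inv 5 6 (by decide) (by decide) (by decide) fun b x y => pA3_four x (Or.inr (Or.inl y))
  have i3 := inv 6 7 (by decide) (by decide) (by decide) fun b x y => pA3_four x (Or.inr (Or.inr (Or.inl y)))
  have two : ∀ (a b : Perm (Fin 8)) (ca cb), (∀ o ∈ O, π (el a ca) * o * (π (el a ca))⁻¹ = o⁻¹) →
      (∀ o ∈ O, π (el b cb) * o * (π (el b cb))⁻¹ = o⁻¹) → (a * b) ^ 3 = 1 → (a * b * pA3_d) ^ 3 ≠ 1 →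
      ∀ x, π x ∈ O → x.1 * f (a * b) = f (a * b) * x.1 := fun a b ca cb ha hb a3 d3 x hx => by
    have e1 : π (el a ca) * π (el b cb) * π x * (π (el a ca) * π (el b cb))⁻¹ = π x := by
      calc _ = π (el a ca) * (π (el b cb) * π x * (π (el b cb))⁻¹) * (π (el a ca))⁻¹ := by group
        _ = _ := by rw [hb _ hx, ha _ (inv_mem hx), inv_inv]
    have e2 : π (x * (el a ca * el b cb) * x⁻¹) = π (el a ca * el b cb) := by
      rw [map_mul, map_mul, map_mul, map_inv, mul_inv_eq_iff_eq_mul]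
      exact (mul_inv_eq_iff_eq_mul.1 e1).symm
    rcases (hk _ _).1 e2 with e3 | e3
    · rw [map_mul]; exact mul_inv_eq_iff_eq_mul.1 e3
    · have e4 : x.1 * (f a * f b) * x.1⁻¹ = f a * f b * f pA3_d := e3
      rw [← map_mul, ← map_mul] at e4
      refine absurd (h.inj ?_) d3
      rw [map_pow, ← e4, conj_pow, ← map_pow, a3, map_one]; group
  have triv : ∀ o ∈ O, o = 1 := fun o ho => by
    obtain ⟨x, rfl⟩ := sur o
    have c1 := two (swap 4 5) (swap 5 6) (by decide) (by decide) i1 i2 (by decide) (by decide) x ho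
    have c2 := two (swap 5 6) (swap 6 7) (by decide) (by decide) i2 i3 (by decide) (by decide) x ho
    obtain ⟨b, hb⟩ := pA3_cj' h.cz (isConj_iff.2 ⟨swap 0 4 * swap 1 5 * swap 2 6, by decide⟩) _ c1
    exact odd x b ho hb (pA3_four (cm (hb ▸ mem_centralizer_singleton_iff.1 x.2))
      (Or.inr (Or.inr (Or.inr ⟨cm (hb ▸ c1), cm (hb ▸ c2)⟩))))
  intro g hg
  have := triv _ (Oc (π ⟨g, mem_centralizer_singleton_iff.2 hg⟩))
  rw [mul_inv_eq_one, ← map_inv, ← map_mul, ← map_mul, hk] at this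
  exact key g this

end Cfsg.Agent.L1Se
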