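import Cfsg.Agent.H5.MP8

/-! A torus element in the local `C**(G, T)` configuration. -/

set_option autoImplicit false
set_option linter.unusedSectionVars false
set_option linter.unusedVariables false

namespace Cfsg.Agent.H4T
open Subgroup Cfsg.Agent.H22 Cfsg.Agent.H5b Matrix
open Cfsg.Agent.H18 hiding cj mem_cj conj_mem_cj conj_mem_cj_iff cj_le_iff cj_cj cj_one cj_inv_cj
  cj_cj_inv cj_mono cj_inf cj_sup cj_eq_iff cj_eq_of_mem cj_eq_of_normal cj_top card_cj isPGroup_cj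
open scoped commutatorElement

variable {G : Type*} [Group G] {p : ℕ} {P V S K D : Subgroup G} {r : ℕ} {E : Fin r → Subgroup G}

/-- coordinates on `V / C_V(D)` -/
structure Crd (V K D : Subgroup G) {F : Type} [Field F] (φ : G → Fin 2 → F) : Prop where
  add : ∀ v ∈ V, ∀ w ∈ V, φ (v * w) = φ v + φ w
  ker : ∀ v ∈ V, φ v = 0 ↔ v ∈ C[D]
  surj : ∀ y, ∃ v ∈ V, φ v = y
  act : ∀ g ∈ K, ∃ m : SpecialLinearGroup (Fin 2) F, ∀ v ∈ V, φ (g * v * g⁻¹) = (m : Matrix (Fin 2) (Fin 2) F) *ᵥ φ v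
  onto : ∀ m : SpecialLinearGroup (Fin 2) F, ∃ e ∈ D, ∀ v ∈ V,
    φ (e * v * e⁻¹) = (m : Matrix (Fin 2) (Fin 2) F) *ᵥ φ v

theorem sl2_e0 {F : Type} [Field F] {x : Fin 2 → F} (hx : x ≠ 0) :
    ∃ m : SpecialLinearGroup (Fin 2) F, (m : Matrix (Fin 2) (Fin 2) F) *ᵥ ![1, 0] = x := by
  by_cases h : x 0 = 0
  · have h1 : x 1 ≠ 0 := fun h1 => hx (by ext i; fin_cases i <;> simp [h, h1])
    refine ⟨⟨!![0, -(x 1)⁻¹; x 1, 0], by simp [Matrix.det_fin_two, h1]⟩, ?_⟩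
    ext i; fin_cases i <;> simp [Matrix.mulVec, dotProduct, Fin.sum_univ_two, h]
  · refine ⟨⟨!![x 0, 0; x 1, (x 0)⁻¹], by simp [Matrix.det_fin_two, h]⟩, ?_⟩
    ext i; fin_cases i <;> simp [Matrix.mulVec, dotProduct, Fin.sum_univ_two]

theorem sl2_inv_mulVec {F : Type} [Field F] (m : SpecialLinearGroup (Fin 2) F) (x : Fin 2 → F) :
    ((m⁻¹ : SpecialLinearGroup (Fin 2) F) : Matrix (Fin 2) (Fin 2) F) *ᵥ ((m : Matrix (Fin 2) (Fin 2) F) *ᵥ x) = x := by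
  rw [Matrix.mulVec_mulVec, ← Matrix.SpecialLinearGroup.coe_mul, inv_mul_cancel, Matrix.SpecialLinearGroup.coe_one,
    Matrix.one_mulVec]

theorem sl2_trans {F : Type} [Field F] {x y : Fin 2 → F} (hx : x ≠ 0) (hy : y ≠ 0) :
    ∃ m : SpecialLinearGroup (Fin 2) F, (m : Matrix (Fin 2) (Fin 2) F) *ᵥ x = y := by
  obtain ⟨m, rfl⟩ := sl2_e0 hx
  obtain ⟨m', rfl⟩ := sl2_e0 hy
  exact ⟨m' * m⁻¹, by rw [Matrix.SpecialLinearGroup.coe_mul, ← Matrix.mulVec_mulVec, sl2_inv_mulVec]⟩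

namespace Crd
variable {F : Type} [Field F] {φ : G → Fin 2 → F}

theorem one (c : Crd V K D φ) : φ 1 = 0 := (c.ker 1 (one_mem _)).2 (one_mem _)

theorem inv (c : Crd V K D φ) {v : G} (hv : v ∈ V) : φ v⁻¹ = -φ v := by
  have := c.add v hv v⁻¹ (inv_mem hv)
  rw [mul_inv_cancel, c.one] at this
  exact (neg_eq_of_add_eq_zero_right this.symm).symm

theorem not_C (c : Crd V K D φ) (nK : K ≤ N[V]) {g v : G} (hg : g ∈ K) (hv : v ∈ V) (h : v ∉ C[D]) :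
    g * v * g⁻¹ ∉ C[D] := fun h1 => by
  obtain ⟨m, hm⟩ := c.act g hg
  have h2 := (c.ker _ (conj_mem_of_N (nK hg) hv)).2 h1
  rw [hm v hv] at h2
  have h3 := sl2_inv_mulVec m (φ v)
  rw [h2, Matrix.mulVec_zero] at h3
  exact h ((c.ker v hv).1 h3.symm)

theorem trans (c : Crd V K D φ) (nD : D ≤ N[V]) {a b : G} (ha : a ∈ V) (hb : b ∈ V) (ha' : a ∉ C[D])
    (hb' : b ∉ C[D]) : ∃ e ∈ D, e * a * e⁻¹ * b⁻¹ ∈ C[D] := by
  obtain ⟨m, hm⟩ := sl2_trans (fun h => ha' ((c.ker a ha).1 h)) (fun h => hb' ((c.ker b hb).1 h))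
  obtain ⟨e, he, h⟩ := c.onto m
  have h1 := conj_mem_of_N (nD he) ha
  refine ⟨e, he, (c.ker _ (mul_mem h1 (inv_mem hb))).1 ?_⟩
  rw [c.add _ h1 _ (inv_mem hb), h a ha, hm, c.inv hb, add_neg_cancel]

end Crd

variable [Finite G] [hp : Fact p.Prime]

theorem comm_mem_C (q : MPQ p V P S K E) {i j : Fin r} (hij : i ≠ j) {e v : G} (he : e ∈ E i)
    (hv : v ∈ V) : e * v * e⁻¹ * v⁻¹ ∈ C[E j] := by
  have h1 : ⁅V, E i⁆ ≤ C[E j] := le_C_iff_comm.2 (q.cV i j hij)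
  have := inv_mem (h1 (commutator_mem_commutator hv he))
  rwa [commutatorElement_inv] at this

theorem exists_crd (q : MPQ p V P S K E) (hp2 : p ≠ 2) (hV : IsElementaryAbelian p V) (nV : P ≤ N[V])
    (i : Fin r) : ∃ (F : Type) (_ : Field F) (_ : Fintype F) (_ : CharP F p) (φ : G → Fin 2 → F),
      Crd V K (E i) φ := by
  obtain ⟨n, hn, ⟨F, _, _, cF, -, h0⟩ | ⟨h, -⟩⟩ := q.typ i
  swap
  · exact absurd h hp2
  obtain ⟨W, hW⟩ : ∃ W, W = ⁅V, E i⁆ := ⟨_, rfl⟩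
  rw [← hW] at h0
  obtain ⟨hN, -, ρ, ψ, h1, h2, h3, h4⟩ := h0
  have ch : CharP F p := charP_of_card_eq_prime_pow cF
  have nE : E i ≤ N[V] := (q.le i).trans nV
  have WV : W ≤ V := hW ▸ comm_le_of_le_N nE
  have ab : V ≤ C[V] := (elemAb_iff.1 hV).1
  have cm : ∀ v ∈ V, ∀ w ∈ V, v * w = w * v := fun v hv w hw => mem_C.1 (ab hw) v hv
  have key : ∀ v : G, ∃ y : Fin 2 → F, ∀ w : W, v * (w : G)⁻¹ ∈ C[E i] →
      y = Multiplicative.toAdd (ψ w) := fun v => by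
    by_cases h : ∃ w : W, v * (w : G)⁻¹ ∈ C[E i]
    · obtain ⟨w, hw⟩ := h
      refine ⟨Multiplicative.toAdd (ψ w), fun w' hw' => ?_⟩
      have : ψ (w * w'⁻¹) = 1 := (h3 _).2 ⟨(w * w'⁻¹).2, by
        have := mul_mem (inv_mem hw) hw'
        simpa [mul_assoc] using this⟩
      rw [map_mul, map_inv, mul_inv_eq_one] at this
      rw [this]
    · exact ⟨0, fun w hw => absurd ⟨w, hw⟩ h⟩
  choose φ hφ using key
  have dec : ∀ v ∈ V, ∃ w : W, v * (w : G)⁻¹ ∈ V ⊓ C[E i] := fun v hv => by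
    have h5 : V ≤ (V ⊓ C[E i]) ⊔ W := by
      conv_lhs => rw [← q.V_eq]
      refine sup_le ((inf_le_inf_left _ (C_anti (le_iSup E i))).trans le_sup_left) (iSup_le fun j => ?_)
      by_cases hj : j = i
      · subst hj; exact hW ▸ le_sup_right
      · exact (le_inf (comm_le_of_le_N ((q.le j).trans nV)) (le_C_iff_comm.2 (q.cV j i hj))).trans
          le_sup_left
    obtain ⟨a, ha, b, hb, rfl⟩ := (mem_sup_of_le_N (inf_le_left.trans ((ab.trans (C_anti WV)).trans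
      (C_le_N _)))).1 (h5 hv)
    exact ⟨⟨b, hb⟩, by simpa using ha⟩
  have add : ∀ v ∈ V, ∀ w ∈ V, φ (v * w) = φ v + φ w := fun v hv w hw => by
    obtain ⟨a, ha⟩ := dec v hv
    obtain ⟨b, hb⟩ := dec w hw
    rw [hφ v a ha.2, hφ w b hb.2, hφ (v * w) (a * b), map_mul, toAdd_mul]
    have e : v * w * ((a * b : W) : G)⁻¹ = v * (a : G)⁻¹ * (w * (b : G)⁻¹) := by
      rw [coe_mul, _root_.mul_inv_rev, cm _ (inv_mem (WV b.2)) _ (inv_mem (WV a.2)), mul_assoc, mul_assoc,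
        ← mul_assoc w, cm w hw _ (inv_mem (WV a.2)), mul_assoc]
    rw [e]; exact mul_mem ha.2 hb.2
  have ker : ∀ v ∈ V, φ v = 0 ↔ v ∈ C[E i] := fun v hv => by
    refine ⟨fun h => ?_, fun h => by rw [hφ v 1 (by simpa using h), map_one]; rfl⟩
    obtain ⟨a, ha⟩ := dec v hv
    rw [hφ v a ha.2] at h
    have := mul_mem ha.2 ((h3 a).1 (Multiplicative.toAdd.injective h)).2
    simpa using this
  have actE : ∀ e : E i, ∀ v ∈ V, φ (e * v * (e : G)⁻¹) = (ρ e : Matrix (Fin 2) (Fin 2) F) *ᵥ φ v := fun e v hv => by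
    obtain ⟨a, ha⟩ := dec v hv
    obtain ⟨w, hw, hw'⟩ := h4 e a
    rw [hφ v a ha.2, ← hw']
    refine hφ _ w ?_
    have : (e : G) * v * (e : G)⁻¹ * (w : G)⁻¹ = e * (v * (a : G)⁻¹) * (e : G)⁻¹ := by rw [hw]; group
    rw [this, conj_eq_of_C e.2 ha.2]; exact ha.2
  refine ⟨F, inferInstance, inferInstance, ch, φ, add, ker, fun y => ?_, fun g hg => ?_, fun m => ?_⟩
  · obtain ⟨w, hw⟩ := h2 (Multiplicative.ofAdd y)
    exact ⟨w, WV w.2, by rw [hφ w w (by simp), hw]; rfl⟩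
  · rw [← q.eq] at hg
    have : g ∈ N[V] ∧ ∃ m : SpecialLinearGroup (Fin 2) F, ∀ v ∈ V,
        φ (g * v * g⁻¹) = (m : Matrix (Fin 2) (Fin 2) F) *ᵥ φ v := by
      refine iSup_induction E (C := fun g => g ∈ N[V] ∧ ∃ m : SpecialLinearGroup (Fin 2) F, ∀ v ∈ V,
        φ (g * v * g⁻¹) = (m : Matrix (Fin 2) (Fin 2) F) *ᵥ φ v) hg (fun j x hx => ⟨nV (q.le j hx), ?_⟩)
        ⟨one_mem _, 1, fun v hv => by simp⟩ ?_
      · by_cases hj : j = i
        · subst hj; exact ⟨ρ ⟨x, hx⟩, actE ⟨x, hx⟩⟩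
        · refine ⟨1, fun v hv => ?_⟩
          have h5 := conj_mem_of_N (nV (q.le j hx)) hv
          have h6 := (ker _ (mul_mem h5 (inv_mem hv))).2 (comm_mem_C q hj hx hv)
          have h7 := add _ (mul_mem h5 (inv_mem hv)) v hv
          rw [h6, zero_add, inv_mul_cancel_right] at h7
          rw [h7, Matrix.SpecialLinearGroup.coe_one, Matrix.one_mulVec]
      · rintro x y ⟨hx, m, hm⟩ ⟨hy, m', hm'⟩
        refine ⟨mul_mem hx hy, m * m', fun v hv => ?_⟩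
        rw [Matrix.SpecialLinearGroup.coe_mul, ← Matrix.mulVec_mulVec, ← hm' v hv, ← hm _ (conj_mem_of_N hy hv)]
        congr 1; group
    exact this.2
  · obtain ⟨e, he⟩ : m ∈ ρ.range := h1 ▸ mem_top m
    exact ⟨e, e.2, fun v hv => he ▸ actE e v hv⟩

theorem exists_trans (q : MPQ p V P S K E) (hp2 : p ≠ 2) (hV : IsElementaryAbelian p V) (nV : P ≤ N[V])
    {a b : G} (ha : a ∈ V) (hb : b ∈ V) (ha' : ∀ j, a ∉ C[E j]) (hb' : ∀ j, b ∉ C[E j]) :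
    ∃ n ∈ K, n * a * n⁻¹ * b⁻¹ ∈ C[K] := by
  classical
  have KP : K ≤ P := le_sup_left.trans q.sup.le
  have key : ∀ J : Finset (Fin r), ∃ n ∈ K, ∀ j ∈ J, n * a * n⁻¹ * b⁻¹ ∈ C[E j] := fun J => by
    induction J using Finset.induction_on with
    | empty => exact ⟨1, one_mem _, by simp⟩
    | insert i J hi ih =>
      obtain ⟨n, hn, h⟩ := ih
      obtain ⟨F, _, _, _, φ, c⟩ := exists_crd q hp2 hV nV i
      have h1 := conj_mem_of_N (nV (KP hn)) ha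
      obtain ⟨e, he, h2⟩ := c.trans ((q.le i).trans nV) h1 hb (c.not_C (KP.trans nV) hn ha (ha' i)) (hb' i)
      refine ⟨e * n, mul_mem (q.eq ▸ le_iSup E i he) hn, fun j hj => ?_⟩
      have e1 : e * n * a * (e * n)⁻¹ = e * (n * a * n⁻¹) * e⁻¹ := by group
      rw [e1]
      by_cases hij : i = j
      · exact hij ▸ h2
      · have := mul_mem (comm_mem_C q hij he h1) (h j ((Finset.mem_insert.1 hj).resolve_left (Ne.symm hij)))
        simpa [mul_assoc] using this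
  obtain ⟨n, hn, h⟩ := key Finset.univ
  refine ⟨n, hn, ?_⟩
  rw [← q.eq]
  exact zpowers_le.1 (le_centralizer_iff.1 (iSup_le fun j => le_centralizer_iff.1
    (zpowers_le.2 (h j (Finset.mem_univ j)))))

theorem mem_C_of (q : MPQ p V P S K E) {u : G} (hu : u ∈ C[S]) {i : Fin r} (h : u ∈ C[E i]) :
    u ∈ C[P] := by
  rw [← q.sup, C_sup, ← q.eq]
  refine ⟨zpowers_le.1 (le_centralizer_iff.1 (iSup_le fun j => le_centralizer_iff.1
    (zpowers_le.2 ?_))), hu⟩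
  obtain ⟨t, ht, e⟩ := q.conj i j
  rw [← e, ← cj_C, ← conj_eq_of_C ht hu]
  exact conj_mem_cj h

theorem exists_trans' (q : MPQ p V P S K E) (hp2 : p ≠ 2) (hV : IsElementaryAbelian p V) (nV : P ≤ N[V])
    (hS : SylIn p S P) (nK : P ≤ N[K]) {a b : G} (ha : a ∈ V ⊓ C[S]) (hb : b ∈ V ⊓ C[S])
    (ha' : a ∉ C[P]) (hb' : b ∉ C[P]) : ∃ n ∈ K ⊓ N[S], n * a * n⁻¹ * b⁻¹ ∈ C[K] := by
  have KP : K ≤ P := le_sup_left.trans q.sup.le
  obtain ⟨n, hn, h⟩ := exists_trans q hp2 hV nV ha.1 hb.1 (fun j h => ha' (mem_C_of q ha.2 h))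
    (fun j h => hb' (mem_C_of q hb.2 h))
  have nC : P ≤ N[C[K]] := le_N_C nK
  let L : Subgroup G :=
    { carrier := {g | g ∈ P ∧ g * b * g⁻¹ * b⁻¹ ∈ C[K]}
      one_mem' := ⟨one_mem _, by simp⟩
      mul_mem' := by
        rintro x y ⟨hx, hx'⟩ ⟨hy, hy'⟩
        refine ⟨mul_mem hx hy, ?_⟩
        have := mul_mem (conj_mem_of_N (nC hx) hy') hx'
        convert this using 1; group
      inv_mem' := by
        rintro x ⟨hx, hx'⟩
        refine ⟨inv_mem hx, ?_⟩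
        have := inv_mem (conj_mem_of_N' (nC hx) hx')
        convert this using 1; group }
  have LP : L ≤ P := fun x hx => hx.1
  have h1 : S ≤ L := fun s hs => ⟨hS.le hs, by rw [conj_eq_of_C hs hb.2]; simp⟩
  have h2 : cj n S ≤ L := cj_le_iff'.2 fun s hs => by
    have sP := conj_mem_of_N (le_normalizer (KP hn)) (hS.le hs)
    refine ⟨sP, ?_⟩
    have := mul_mem (inv_mem (conj_mem_of_N (nC sP) h)) h
    have e := conj_eq_of_C hs ha.2
    convert this using 1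
    calc _ = n * s * n⁻¹ * b * (n * s⁻¹ * n⁻¹) * (n * ((s * a * s⁻¹)⁻¹ * a) * n⁻¹) * b⁻¹ := by
          rw [e]; group
      _ = _ := by group
  obtain ⟨m, hm, e⟩ := syl_exists_cj_eq ((sylIn_cj_mem hS (KP hn)).mono h2 LP) (hS.mono h1 LP)
  have h3 : m * n ∈ N[S] := mem_N_iff_cj.2 (by rw [cj_mul, e])
  have h4 : m * n ∈ S ⊔ K := by rw [sup_comm, q.sup]; exact mul_mem hm.1 (KP hn)
  obtain ⟨s, hs, k, hk, e'⟩ := (mem_sup_of_le_N (hS.le.trans nK)).1 h4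
  have e2 : k = (s⁻¹ * m) * n := by rw [mul_assoc, ← e']; group
  have h5 : s⁻¹ * m ∈ L := mul_mem (inv_mem (h1 hs)) hm
  have h6 : k ∈ N[S] := by rw [e2, mul_assoc]; exact mul_mem (inv_mem (le_normalizer hs)) h3
  refine ⟨k, ⟨hk, h6⟩, ?_⟩
  have := mul_mem (conj_mem_of_N (nC h5.1) h) h5.2
  convert this using 1
  rw [e2]; group

theorem exists_theta (q : MPQ p V P S K E) (hp2 : p ≠ 2) (hV : IsElementaryAbelian p V) (nV : P ≤ N[V])
    (hS : SylIn p S P) (nK : P ≤ N[K]) : ∃ (F : Type) (_ : Field F) (_ : Fintype F) (_ : CharP F p)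
      (θ : G → F), (∀ v ∈ V, ∀ w ∈ V, θ (v * w) = θ v + θ w) ∧
      (∀ u ∈ V ⊓ C[S], θ u = 0 → u ∈ C[P]) ∧ (∀ u ∈ V ⊓ C[K], θ u = 0) ∧
      ∀ g ∈ K, ∃ l : F, ∀ u ∈ V ⊓ C[S], θ (g * u * g⁻¹) = l * θ u := by
  have KP : K ≤ P := le_sup_left.trans q.sup.le
  let i : Fin r := ⟨0, q.pos⟩
  have EK : E i ≤ K := q.eq ▸ le_iSup E i
  obtain ⟨F, _, _, _, φ, c⟩ := exists_crd q hp2 hV nV i
  obtain ⟨e, he, h⟩ := c.onto ⟨!![1, 1; 0, 1], by simp [Matrix.det_fin_two]⟩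
  have eV := nV (q.le i he)
  have h1 : ∀ n : ℕ, ∀ v ∈ V, φ (e ^ n * v * (e ^ n)⁻¹) 0 = φ v 0 + n * φ v 1 ∧
      φ (e ^ n * v * (e ^ n)⁻¹) 1 = φ v 1 := fun n v hv => by
    induction n with
    | zero => simp
    | succ n ih =>
      have e1 : e ^ (n + 1) * v * (e ^ (n + 1))⁻¹ = e * (e ^ n * v * (e ^ n)⁻¹) * e⁻¹ := by
        rw [pow_succ']; group
      rw [e1, h _ (conj_mem_of_N (pow_mem eV n) hv)]
      simp only [Matrix.mulVec, dotProduct, Fin.sum_univ_two, of_apply, cons_val', cons_val_zero,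
        cons_val_one, cons_val_fin_one, ih.1, ih.2]
      constructor
      · push_cast; ring
      · ring
  obtain ⟨m, k, hm, hk, -⟩ := exists_pow_pelt (p := p) (isOfFinOrder_of_finite e)
  obtain ⟨g, hg, h2⟩ := syl_exists_le_cj hS (zpowers_le.2 (pow_mem (q.le i he) m)) (pgrp_zpowers hk)
  rw [← q.sup] at hg
  obtain ⟨x, hx, s, hs, rfl⟩ := (mem_sup_of_le_N' (hS.le.trans nK)).1 hg
  rw [cj_mul, cj_eq_of_mem hs] at h2
  have xV := nV (KP hx)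
  have m0 : (m : F) ≠ 0 := fun h => by
    have := (CharP.cast_eq_zero_iff F p m).1 h
    exact (hp.out.coprime_iff_not_dvd.1 hm.symm) this
  have h3 : ∀ u ∈ V ⊓ C[S], φ (x * u * x⁻¹) 1 = 0 := fun u hu => by
    have h4 : x * u * x⁻¹ ∈ C[cj x S] := by rw [← cj_C]; exact conj_mem_cj hu.2
    have h5 := (h1 m _ (conj_mem_of_N xV hu.1)).1
    rw [conj_eq_of_C (h2 (mem_zpowers _)) h4] at h5
    exact (mul_eq_zero.1 (left_eq_add.1 h5)).resolve_left m0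
  refine ⟨F, inferInstance, inferInstance, inferInstance, fun u => φ (x * u * x⁻¹) 0,
    fun v hv w hw => ?_, fun u hu h4 => ?_, fun u hu => ?_, fun g hg => ?_⟩
  · have e1 : x * (v * w) * x⁻¹ = x * v * x⁻¹ * (x * w * x⁻¹) := by group
    simp only [e1, c.add _ (conj_mem_of_N xV hv) _ (conj_mem_of_N xV hw), Pi.add_apply]
  · refine mem_C_of q hu.2 (i := i) (by_contra fun h5 => c.not_C (KP.trans nV) hx hu.1 h5 ?_)
    refine (c.ker _ (conj_mem_of_N xV hu.1)).1 ?_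
    ext j; fin_cases j
    · exact h4
    · exact h3 u hu
  · simp only [conj_eq_of_C hx hu.2, (c.ker u hu.1).2 (C_anti EK hu.2), Pi.zero_apply]
  · obtain ⟨a, ha⟩ := c.act _ (conj_mem_of_N (le_normalizer hx) hg)
    refine ⟨(a : Matrix (Fin 2) (Fin 2) F) 0 0, fun u hu => ?_⟩
    have e1 : x * (g * u * g⁻¹) * x⁻¹ = x * g * x⁻¹ * (x * u * x⁻¹) * (x * g * x⁻¹)⁻¹ := by group
    simp only [e1, ha _ (conj_mem_of_N xV hu.1), Matrix.mulVec, dotProduct, Fin.sum_univ_two, h3 u hu,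
      mul_zero, add_zero]

/-- the torus element -/
theorem exists_torus (q : MPQ p V P S K E) (hp2 : p ≠ 2) (hV : IsElementaryAbelian p V) (nV : P ≤ N[V])
    (hS : SylIn p S P) (nK : P ≤ N[K]) {a : G} (ha : a ∈ V ⊓ C[S]) (ha' : a ∉ C[P]) :
    ∃ x ∈ P ⊓ N[S], ∃ m : ℕ, m.Coprime p ∧ (∀ u ∈ V ⊓ C[S], x ^ m * u * (x ^ m)⁻¹ = u) ∧
      (∀ u ∈ V ⊓ C[S], ⁅x, u⁆ = 1 → u ∈ C[P]) ∧ ∀ u ∈ V ⊓ C[S], ∀ w ∈ V ⊓ C[S], ⁅x, u⁆ ≠ 1 →
        ⁅x, w⁆ ≠ 1 → ∃ n : ℕ, x ^ n * ⁅x, u⁆ * (x ^ n)⁻¹ = ⁅x, w⁆ := by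
  have KP : K ≤ P := le_sup_left.trans q.sup.le
  obtain ⟨F, _, _, _, θ, add, ker, ker', act⟩ := exists_theta q hp2 hV nV hS nK
  set U := V ⊓ C[S] with hU
  have nU : K ⊓ N[S] ≤ N[U] := le_N_inf (inf_le_left.trans (KP.trans nV)) (le_N_C inf_le_right)
  have θ1 : θ 1 = 0 := ker' 1 (one_mem _)
  have θi : ∀ v ∈ V, θ v⁻¹ = -θ v := fun v hv => by
    have := add v hv v⁻¹ (inv_mem hv)
    rw [mul_inv_cancel, θ1] at this
    exact (neg_eq_of_add_eq_zero_right this.symm).symm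
  have kerP : ∀ u ∈ U, u ∈ C[P] → θ u = 0 := fun u hu h => ker' u ⟨hu.1, C_anti KP h⟩
  let L : Subgroup Fˣ :=
    { carrier := {l | ∃ g ∈ K ⊓ N[S], ∀ u ∈ U, θ (g * u * g⁻¹) = l * θ u}
      one_mem' := ⟨1, one_mem _, fun u hu => by simp⟩
      mul_mem' := by
        rintro l l' ⟨g, hg, h⟩ ⟨g', hg', h'⟩
        refine ⟨g * g', mul_mem hg hg', fun u hu => ?_⟩
        rw [Units.val_mul, mul_assoc (l : F), ← h' u hu, ← h _ (conj_mem_of_N (nU hg') hu)]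
        congr 1; group
      inv_mem' := by
        rintro l ⟨g, hg, h⟩
        refine ⟨g⁻¹, inv_mem hg, fun u hu => ?_⟩
        have := h _ (conj_mem_of_N (nU (inv_mem hg)) hu)
        rw [Units.eq_inv_mul_iff_mul_eq, ← this]
        congr 1; group }
  obtain ⟨⟨l, x, hx, hl⟩, hgen⟩ := IsCyclic.exists_monoid_generator (α := L)
  have hpow : ∀ n : ℕ, ∀ u ∈ U, θ (x ^ n * u * (x ^ n)⁻¹) = (l : F) ^ n * θ u := fun n u hu => by
    induction n with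
    | zero => simp
    | succ n ih =>
      have e1 : x ^ (n + 1) * u * (x ^ (n + 1))⁻¹ = x * (x ^ n * u * (x ^ n)⁻¹) * x⁻¹ := by
        rw [pow_succ']; group
      rw [e1, hl _ (conj_mem_of_N (pow_mem (nU hx) n) hu), ih]; ring
  have htr : ∀ a ∈ U, ∀ b ∈ U, θ a ≠ 0 → θ b ≠ 0 → ∃ n : ℕ, (l : F) ^ n * θ a = θ b :=
    fun a ha b hb ha' hb' => by
      obtain ⟨g, hg, h⟩ := exists_trans' q hp2 hV nV hS nK ha hb (fun h => ha' (kerP a ha h))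
        (fun h => hb' (kerP b hb h))
      obtain ⟨c, hc⟩ := act g hg.1
      have h1 := conj_mem_of_N (nU hg) ha
      have h2 := ker' _ ⟨V.mul_mem h1.1 (V.inv_mem hb.1), h⟩
      rw [add _ h1.1 _ (inv_mem hb.1), θi b hb.1, hc a ha, add_neg_eq_zero] at h2
      have c0 : c ≠ 0 := fun h => hb' (by rw [← h2, h, zero_mul])
      obtain ⟨n, hn⟩ := hgen ⟨Units.mk0 c c0, g, hg, hc⟩
      refine ⟨n, ?_⟩
      have h3 : l ^ n = Units.mk0 c c0 := congrArg Subtype.val hn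
      rw [← Units.val_pow_eq_pow_val, h3, Units.val_mk0, h2]
  have a0 : θ a ≠ 0 := fun h => ha' (ker a ha h)
  have l1 : (l : F) - 1 ≠ 0 := fun h => by
    obtain ⟨n, hn⟩ := htr a ha a⁻¹ (inv_mem ha) a0 (by rw [θi a ha.1]; exact neg_ne_zero.2 a0)
    rw [sub_eq_zero.1 h, one_pow, one_mul, θi a ha.1, eq_neg_iff_add_eq_zero, ← two_mul] at hn
    have h2 : ((2 : ℕ) : F) = 0 := by exact_mod_cast (mul_eq_zero.1 hn).resolve_right a0
    exact hp2 ((Nat.prime_dvd_prime_iff_eq hp.out Nat.prime_two).1 ((CharP.cast_eq_zero_iff F p 2).1 h2))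
  have cU : ∀ u ∈ U, ⁅x, u⁆ ∈ U := fun u hu => mul_mem (conj_mem_of_N (nU hx) hu) (inv_mem hu)
  have θc : ∀ u ∈ U, θ ⁅x, u⁆ = (l - 1) * θ u := fun u hu => by
    rw [commutatorElement_def, add _ (conj_mem_of_N (nU hx) hu).1 _ (inv_mem hu.1), hl u hu, θi u hu.1]
    ring
  have inj : ∀ u ∈ U, ∀ w ∈ U, θ u = θ w → ⁅x, u⁆ = ⁅x, w⁆ := fun u hu w hw e => by
    have h1 := ker _ (mul_mem (inv_mem hw) hu) (by rw [add _ (inv_mem hw.1) _ hu.1, θi w hw.1, e]; ring)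
    have h2 := conj_eq_of_C (KP hx.1) h1
    calc ⁅x, u⁆ = x * w * x⁻¹ * (x * (w⁻¹ * u) * x⁻¹) * u⁻¹ := by rw [commutatorElement_def]; group
      _ = ⁅x, w⁆ := by rw [h2, commutatorElement_def]; group
  have cx : ∀ (n : ℕ) (u : G), x ^ n * ⁅x, u⁆ * (x ^ n)⁻¹ = ⁅x, x ^ n * u * (x ^ n)⁻¹⁆ := fun n u => by
    rw [conj_comm]; congr 1; group
  have ne0 : ∀ u ∈ U, ⁅x, u⁆ ≠ 1 → θ u ≠ 0 := fun u hu h h1 =>
    h (comm_eq_one_of_C (KP hx.1) (ker u hu h1))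
  refine ⟨x, ⟨KP hx.1, hx.2⟩, Fintype.card F - 1, ?_, fun u hu => ?_, fun u hu h => ?_,
    fun u hu w hw h1 h2 => ?_⟩
  · obtain ⟨n, -, hn⟩ := FiniteField.card F p
    rw [hn, Nat.coprime_comm, Nat.Prime.coprime_iff_not_dvd hp.out]
    intro h
    exact hp.out.one_lt.ne' (Nat.dvd_one.1 ((Nat.dvd_sub_iff_right (pow_pos hp.out.pos _)
      (dvd_pow_self p n.ne_zero)).1 h))
  · by_cases h : θ u = 0
    · exact conj_eq_of_C (pow_mem (KP hx.1) _) (ker u hu h)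
    obtain ⟨n, hn⟩ := htr _ (cU u hu) u hu (by rw [θc u hu]; exact mul_ne_zero l1 h) h
    have hw := conj_mem_of_N (pow_mem (nU hx) n) hu
    set w := x ^ n * u * (x ^ n)⁻¹ with hw'
    have h1 : u * ⁅x, w⁆⁻¹ ∈ C[P] := ker _ (mul_mem hu (inv_mem (cU w hw))) (by
      rw [add _ hu.1 _ (inv_mem (cU w hw).1), θi _ (cU w hw).1, hw', ← cx, hpow n _ (cU u hu), hn]; ring)
    set m := Fintype.card F - 1
    have h2 : ⁅x, x ^ m * w * (x ^ m)⁻¹⁆ = ⁅x, w⁆ := inj _ (conj_mem_of_N (pow_mem (nU hx) m) hw) w hw (by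
      rw [hpow m w hw, FiniteField.pow_card_sub_one_eq_one _ l.ne_zero, one_mul])
    have h3 := conj_eq_of_C (pow_mem (KP hx.1) m) h1
    calc _ = x ^ m * (u * ⁅x, w⁆⁻¹) * (x ^ m)⁻¹ * (x ^ m * ⁅x, w⁆ * (x ^ m)⁻¹) := by group
      _ = u := by rw [h3, cx, h2]; group
  · have := θc u hu
    rw [h, θ1] at this
    exact ker u hu ((mul_eq_zero.1 this.symm).resolve_left l1)
  · obtain ⟨n, hn⟩ := htr u hu w hw (ne0 u hu h1) (ne0 w hw h2)
    exact ⟨n, by rw [cx]; exact inj _ (conj_mem_of_N (pow_mem (nU hx) n) hu) w hw (by rw [hpow n u hu, hn])⟩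

end Cfsg.Agent.H4T
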