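import Cfsg.Agent.H4.Tor1
import Cfsg.Agent.H18.Average
import Cfsg.Agent.H18.Gen

/-! Central subgroups of a Sylow subgroup normalized by `N(J(S))`: the constrained case. -/

set_option autoImplicit false
set_option linter.unusedSectionVars false
set_option linter.unusedVariables false

namespace Cfsg.Agent.H4T
open Subgroup Cfsg.Agent.H22 Cfsg.Agent.H5b
open Cfsg.Agent.H18 hiding cj mem_cj conj_mem_cj conj_mem_cj_iff cj_le_iff cj_cj cj_one cj_inv_cj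
  cj_cj_inv cj_mono cj_inf cj_sup cj_eq_iff cj_eq_of_mem cj_eq_of_normal cj_top card_cj isPGroup_cj
open Cfsg.Agent.FT (pmap ppre pker pfun)
open Cfsg.Agent.P22 (bar til act emb Hol)
open scoped commutatorElement

variable {G : Type*} [Group G] [Finite G] {p : ℕ} [hp : Fact p.Prime] {H S T M A V : Subgroup G}

theorem exists_decomp (hS : SylIn p S H) (hV : IsElementaryAbelian p V) (VH : V ≤ H) (nV : H ≤ N[V])
    {t : G} (ht : t ∈ H) (ht' : t ∈ C[S]) (h : ∀ g ∈ H, ⁅t, g⁆ ∈ V) :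
    ∃ v ∈ V ⊓ C[S], v⁻¹ * t ∈ C[H] := by
  have : (V.subgroupOf H).Normal := normal_subgroupOf_of_le_normalizer nV
  obtain ⟨z, hz, e⟩ := exists_conj_of_fix (V.subgroupOf H) (S.subgroupOf H)
    (fun a ha b hb => Subtype.ext (mem_C.1 ((elemAb_iff.1 hV).1 hb) a ha))
    (pgrp_coprime (isPGroup_subgroupOf (elemAb_pgrp hV)) (syl_card_coprime_relIndex hS)).symm
    (MulAut.conj (⟨t, ht⟩ : H)).toMonoidHom (fun g => h g g.2)
    (fun s hs => Subtype.ext (by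
      have := mem_C.1 ht' s hs
      simp [← this]))
  have e' : ∀ g ∈ H, t * g * t⁻¹ = z * g * (z : G)⁻¹ := fun g hg => congrArg Subtype.val (e ⟨g, hg⟩)
  have h1 : (z : G)⁻¹ * t ∈ C[H] := mem_C.2 fun g hg => by
    calc g * ((z : G)⁻¹ * t) = (z : G)⁻¹ * (z * g * (z : G)⁻¹) * t := by group
      _ = _ := by rw [← e' g hg]; group
  refine ⟨z, ⟨hz, ?_⟩, h1⟩
  have := mul_mem ht' (inv_mem (C_anti hS.le h1))
  simpa using this

theorem exists_quad (hS : SylIn p S H) (h : ¬ H ≤ N[Jn 0 S]) : ∃ A, MaxAb 0 S A ∧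
    ¬ A ≤ pCoreOf p H ∧ pCoreOf p H ⊓ C[pCoreOf p H] ≤ N[A] := by
  have hQ := pCoreOf_le_syl hS
  have h1 : ¬ Jn 0 S ≤ pCoreOf p H := fun h1 => h (by
    rw [← Jn_eq_of_le hQ h1]
    exact P22.norms_Jn (le_N_pCoreOf H))
  rw [Jn_le_iff] at h1
  push Not at h1
  obtain ⟨U, hU, h1⟩ := h1
  by_cases h2 : pCoreOf p H ⊓ C[pCoreOf p H] ≤ U
  · exact ⟨U, hU, h1, h2.trans le_normalizer⟩
  have hK := center_le_C (pCoreOf p H)
  obtain ⟨A, hA, -, h3, h4⟩ := hU.exists_normed hS.isP le_rfl le_normalizer (inf_le_left.trans hQ)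
    (hS.le.trans (le_N_inf (le_N_pCoreOf H) (le_N_C (le_N_pCoreOf H)))) (fun _ => isMulComm_iff.2 hK)
    (by simp) ((le_C_iff_comm.1 hK).le.trans bot_le) h2
  exact ⟨A, hA, fun h5 => h3 (hA.le_of_C (inf_le_left.trans hQ) (fun _ _ => pow_zero _)
    (inf_le_right.trans (C_anti h5))), h4⟩

theorem bo_of_quad (hA : MaxAb 0 S A) (hV : IsElementaryAbelian p V) (VS : V ≤ S) (nA : A ≤ N[V])
    (h : V ≤ N[A]) : IsBestOffenderOn p V A := by
  have ab := (elemAb_iff.1 hV).1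
  refine ⟨fun B hB => ?_, (le_C_iff_comm.1 hA.le_C).le.trans bot_le, fun a ha => mem_C.2 fun v hv => ?_⟩
  · have h1 := hA.max (B ⊔ V ⊓ C[B]) (sup_le (hB.trans hA.le) (inf_le_left.trans VS))
      (elemAb_sup (elemAb_le hA.ab hB) (elemAb_iff.2 ⟨inf_le_left.trans (ab.trans (C_anti inf_le_left)),
        fun _ _ => pow_zero _⟩) (le_centralizer_iff.1 inf_le_right))
    rw [← card_sup_mul_of_le_N' ((inf_le_right : V ⊓ C[B] ≤ C[B]).trans (C_le_N _))]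
    exact Nat.mul_le_mul h1 (card_le_of_le (le_inf (inf_le_right.trans inf_le_left)
      (inf_le_left.trans (hB.trans hA.le_C))))
  · have h1 : ⁅a, v⁆ ∈ A := comm_le_of_le_N h (commutator_mem_commutator ha hv)
    have h2 : ⁅a, v⁆ ∈ V := comm_le_of_le_N' nA (commutator_mem_commutator ha hv)
    have h3 : ∀ n : ℕ, a ^ n * v * (a ^ n)⁻¹ = ⁅a, v⁆ ^ n * v := fun n => by
      induction n with
      | zero => simp
      | succ n ih =>
        have h4 := conj_eq_of_C ha (hA.le_C (pow_mem h1 n))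
        calc _ = a * (a ^ n * v * (a ^ n)⁻¹) * a⁻¹ := by rw [pow_succ']; group
          _ = a * ⁅a, v⁆ ^ n * a⁻¹ * (a * v * a⁻¹ * v⁻¹) * v := by rw [ih]; group
          _ = _ := by rw [h4, ← commutatorElement_def, pow_succ]
    have := h3 p
    rw [hV.2 _ h2, one_mul, mul_inv_eq_iff_eq_mul] at this
    exact this.symm

/-- the conclusion of the theorem, for groups -/
def GoodG (p : ℕ) (T : Subgroup G) (x : G) : Prop :=
  x ∈ N[T] ∧ (∃ m : ℕ, m.Coprime p ∧ ∀ t ∈ T, x ^ m * t * (x ^ m)⁻¹ = t) ∧ (∃ t ∈ T, ⁅x, t⁆ ≠ 1) ∧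
    ∀ t ∈ T, ∀ s ∈ T, ⁅x, t⁆ ≠ 1 → ⁅x, s⁆ ≠ 1 → ∃ n : ℕ, x ^ n * ⁅x, t⁆ * (x ^ n)⁻¹ = ⁅x, s⁆

theorem good_pmin (hp2 : p ≠ 2) (h : PMin p H S (H ⊓ N[T])) (hP : ChP p H) (hT : T ≤ S ⊓ C[S])
    (hJ : N[Jn 0 S] ≤ N[T]) : ∃ x, GoodG p T x := by
  have hS := h.syl
  obtain ⟨A, hA, h1, h2⟩ := exists_quad hS fun h1 => h.ne (le_inf le_rfl (h1.trans hJ))
  set Q := pCoreOf p H with hQ
  set V := omegaOneCenter p Q with hV
  have QS : Q ≤ S := pCoreOf_le_syl hS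
  have nQ : H ≤ N[Q] := le_N_pCoreOf H
  have nZ : H ≤ N[Q ⊓ C[Q]] := le_N_inf nQ (le_N_C nQ)
  have nV : H ≤ N[V] := nQ.trans (N_le_N_omegaOneCenter _)
  have eV : IsElementaryAbelian p V := elemAb_omegaOneCenter _
  have VZ : V ≤ Q ⊓ C[Q] := omegaOneCenter_le _
  have TZ : T ≤ Q ⊓ C[Q] := hT.trans (hP.center_syl_le hS)
  have abZ := center_le_C Q
  -- `p`-th powers of elements of `T` are central
  have hpow : ∀ t ∈ T, t ^ p ∈ C[H] := by
    obtain ⟨g, hg, hgO⟩ := SetLike.not_le_iff_exists.1 h1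
    have hd := quad_zpowers_of_mem (quad_of_le_N hA.ab.1 h2) hg
    obtain ⟨m, hm⟩ := pgrp_iff.1 hS.isP g (hA.le hg)
    obtain ⟨i, h6, h7⟩ := exists_pow_mem_of_not_mem (p := p) hgO (k := m) (by rw [hm]; exact one_mem _)
    have h8 := mem_centralizer_agZ (n := 1) (nQ (hS.le (pow_mem (hA.le hg) i))) h7
      fun a ha => iterate_comm_eq_one hd (npow_mem_zpowers g i)
        (by have := hp.out.two_le; omega) ha
    set U := agZ p 1 Q with hU
    have hKU : H ≤ N[U] := by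
      refine le_N_iff_cj.2 fun k hk => ?_
      have hk' := cj_eq_of_mem_N (nZ hk)
      rw [cj_le_iff]
      refine powerClosure_le_iff.2 fun x hx => ?_
      rw [mem_cj, inv_inv, ← conj_pow]
      exact pow_mem_powerClosure (hk'.le (conj_mem_cj hx))
    have h9 : H ≤ S ⊔ H ⊓ C[U] := h.le_sup inf_le_left fun h9 => h6 (h.inf_le_pCoreOf
      (le_N_inf le_normalizer (le_N_C hKU)) h9 ⟨pow_mem (hA.le hg) i, hS.le (pow_mem (hA.le hg) i), h8⟩)
    intro t ht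
    refine C_anti h9 ?_
    rw [C_sup]
    refine ⟨pow_mem (hT ht).2 p, le_centralizer_iff.1 inf_le_right ?_⟩
    have := pow_mem_powerClosure (p := p) (n := 1) (TZ ht)
    rwa [pow_one] at this
  have dec : ∀ t ∈ T, ∃ v ∈ V ⊓ C[S], v⁻¹ * t ∈ C[H] := fun t ht => by
    refine exists_decomp hS eV (VZ.trans (inf_le_left.trans (QS.trans hS.le))) nV (hS.le (hT ht).1)
      (hT ht).2 fun g hg => ?_
    have h3 := conj_mem_of_N (nZ hg) (inv_mem (TZ ht))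
    have e : ⁅t, g⁆ = t * (g * t⁻¹ * g⁻¹) := by rw [commutatorElement_def]; group
    rw [e]
    refine mem_omegaOne (mul_mem (TZ ht) h3) ?_
    rw [Commute.mul_pow (mem_C.1 (abZ h3) t (TZ ht)), conj_pow, inv_pow,
      conj_eq_of_C hg (inv_mem (hpow t ht)), mul_inv_cancel]
  have cen : ∀ g ∈ H, ∀ t v : G, v⁻¹ * t ∈ C[H] → g * t * g⁻¹ = g * v * g⁻¹ * (v⁻¹ * t) :=
    fun g hg t v h3 => by
      conv_rhs => rw [← conj_eq_of_C hg h3]
      group
  have hC : H ⊓ C[V ⊓ C[S]] ≤ H ⊓ N[T] := fun g hg => ⟨hg.1, C_le_N _ (mem_C.2 fun t ht => by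
    obtain ⟨v, hv, h3⟩ := dec t ht
    have h4 := cen g hg.1 t v h3
    rw [← mem_C.1 hg.2 v hv, mul_inv_cancel_right, mul_inv_cancel_left, mul_inv_eq_iff_eq_mul] at h4
    exact h4.symm)⟩
  have hO : Q ≤ C[V] := le_centralizer_iff.1 (VZ.trans inf_le_right)
  have hAV : ¬ A ≤ C[V] := fun h3 => h1 (le_trans (le_inf hA.le (le_inf (hA.le.trans hS.le) h3))
    (h.inf_le_pCoreOf (le_N_inf le_normalizer (le_N_C nV))
      ((inf_le_inf_left _ (C_anti inf_le_left)).trans hC)))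
  have c := h.mpc_bar eV nV hC (fun h3 => hAV (hA.le.trans h3)) hO
  have AH := hA.le.trans hS.le
  have bo := P22.BO.bar (bo_of_quad hA eV (VZ.trans (inf_le_left.trans QS)) (AH.trans nV) (VZ.trans h2))
    (AH.trans nV)
  obtain ⟨_, m⟩ := exists_mnO (FT.pmap_mono _ AH) (bo.abelem (P22.bar_faithful (AH.trans nV)))
    (fun e => hAV ((P22.bar_eq_bot (AH.trans nV)).1 e)) bo.best.card_le
  obtain ⟨r, E, s⟩ := c.struct m
  set K := H ⊓ ppre (act V) (dd p (til V V) (bar V H) (bar V H)) with hK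
  have q := s.pull (K := K) nV hS.le inf_le_left (inf_le_inf_left _ (by
    rw [← P22.pker_act]; exact FT.pker_le_ppre _ _)) (FT.pmap_inf_ppre_of_le dd_le_P)
  have nK : H ≤ N[K] := le_N_inf le_normalizer (FT.norms_ppre nV fun g hg =>
    c.toFM.N_dd hg (le_normalizer hg))
  obtain ⟨t₀, ht₀, h3⟩ : ∃ t ∈ T, t ∉ C[H] := by
    by_contra h3
    push Not at h3
    exact h.ne (le_inf le_rfl ((le_centralizer_iff.1 h3).trans (C_le_N _)))
  obtain ⟨v₀, hv₀, h4⟩ := dec t₀ ht₀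
  have h5 : v₀ ∉ C[H] := fun h5 => h3 (by simpa using mul_mem h5 h4)
  obtain ⟨x, hx, k, hk, h6, h7, h8⟩ := exists_torus q hp2 eV nV hS nK hv₀ h5
  have ce : ∀ t v : G, t ∈ T → v ∈ V → v⁻¹ * t ∈ C[H] → ⁅x, t⁆ = ⁅x, v⁆ := fun t v ht hv h9 => by
    rw [commutatorElement_def, commutatorElement_def, cen x hx.1 t v h9, mul_assoc, mul_inv_cancel_right]
  refine ⟨x, (h.N_le hx).2, ⟨k, hk, fun t ht => ?_⟩, ⟨t₀, ht₀, fun e => h5 (h7 v₀ hv₀ ?_)⟩,
    fun t ht s hs => ?_⟩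
  · obtain ⟨v, hv, h9⟩ := dec t ht
    rw [cen _ (pow_mem hx.1 k) t v h9, h6 v hv, mul_inv_cancel_left]
  · rw [← ce t₀ v₀ ht₀ hv₀.1 h4, e]
  · obtain ⟨v, hv, h9⟩ := dec t ht
    obtain ⟨w, hw, h10⟩ := dec s hs
    rw [ce t v ht hv.1 h9, ce s w hs hw.1 h10]
    exact h8 v hv w hw

theorem good_group (hp2 : p ≠ 2) (hS : SylIn p S ⊤) (hc : C[pCore p G] ≤ pCore p G) (hT : T ≤ S ⊓ C[S])
    (hJ : N[Jn 0 S] ≤ N[T]) (hn : ¬ T.Normal) : ∃ x, GoodG p T x := by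
  obtain ⟨H, -, ⟨h1, h2⟩, h3⟩ := exists_minimal_subgroup (P := fun H => S ≤ H ∧ ¬ H ≤ N[T]) (H := ⊤)
    ⟨le_top, fun h => hn (normal_iff_top_le_N.2 h)⟩
  refine good_pmin (H := H) hp2 ⟨hS.mono h1 le_top, le_inf h1 ((le_centralizer_iff.1
    (hT.trans inf_le_right)).trans (C_le_N _)), inf_le_left, fun h => h2 (h.trans inf_le_right),
    fun L h4 h5 h6 => le_inf h5 (by_contra fun h7 => h6 (h3 L ⟨h4, h7⟩ h5).ge),
    fun h => h2 ((P22.norms_Jn h).trans hJ)⟩ ?_ hT hJ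
  have : ChP p (⊤ : Subgroup G) := by
    unfold ChP
    rw [pCoreOf_top]
    exact inf_le_right.trans hc
  exact this.of_pCoreOf_le le_top ((pCoreOf_le_syl hS).trans h1)

end Cfsg.Agent.H4T
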