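import Cfsg.Agent.H4.Tor2
import Cfsg.Agent.H18.Sparse

/-! Central subgroups normalized by `N_F(J(S))`: reduction to the constrained case. -/

set_option autoImplicit false
set_option linter.unusedSectionVars false
set_option linter.unusedVariables false

namespace Cfsg.Agent.H4T

open Cfsg.FusionSystem Cfsg.Agent.H17 Cfsg.Agent.H18
open scoped commutatorElement

universe u

/-- a nontrivial `p'`-automorphism that is transitive on the nontrivial commutators -/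
def GoodA (p : ℕ) {T : Type*} [Group T] (α : MulAut T) : Prop :=
  (∃ m : ℕ, m.Coprime p ∧ α ^ m = 1) ∧ α ≠ 1 ∧
    ∀ t s : T, α t * t⁻¹ ≠ 1 → α s * s⁻¹ ≠ 1 → ∃ n : ℕ, (α ^ n) (α t * t⁻¹) = α s * s⁻¹

theorem pow_apply_of_fix {T : Type*} [Group T] (β : MulAut T) {t : T} (h : β (β t * t⁻¹) = β t * t⁻¹)
    (n : ℕ) : (β ^ n) t = (β t * t⁻¹) ^ n * t := by
  induction n with
  | zero => simp
  | succ n ih => rw [pow_succ', MulAut.mul_apply, ih, map_mul, map_pow, h, pow_succ]; group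

theorem GoodA.lift {p : ℕ} {T T' : Type*} [Group T] [Group T'] (hT : ∃ k : ℕ, ∀ t : T, t ^ p ^ k = 1)
    (hc : ∀ a b : T, a * b = b * a) (π : T →* T') (hπ : Function.Surjective π) {α : MulAut T}
    {α' : MulAut T'} (e : ∀ t, π (α t) = α' (π t)) (hk : ∀ t, π t = 1 → α t = t) (h : GoodA p α') :
    ∃ c : ℕ, GoodA p (α ^ c) := by
  obtain ⟨⟨m, hm, h1⟩, h2, h3⟩ := h
  obtain ⟨k, hT⟩ := hT
  have e' : ∀ (n : ℕ) t, π ((α ^ n) t) = (α' ^ n) (π t) := fun n t => by
    induction n with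
    | zero => rfl
    | succ n ih => rw [pow_succ', pow_succ', MulAut.mul_apply, MulAut.mul_apply, e, ih]
  have hk' : ∀ (n : ℕ) t, π t = 1 → (α ^ n) t = t := fun n t ht => by
    induction n with
    | zero => rfl
    | succ n ih => rw [pow_succ', MulAut.mul_apply, ih, hk t ht]
  have h4 : (α ^ m) ^ p ^ k = 1 := by
    ext t
    rw [pow_apply_of_fix _ (hk' m _ (by rw [map_mul, map_inv, e', h1]; simp)), hT, one_mul]
    rfl
  obtain ⟨c, c1, c2⟩ := Nat.chineseRemainder (hm.pow_right k) 1 0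
  obtain ⟨d, hd⟩ := Nat.modEq_zero_iff_dvd.1 c2
  have h5 : (α ^ c) ^ m = 1 := by
    rw [hd, ← pow_mul, show p ^ k * d * m = m * p ^ k * d by ring, pow_mul, pow_mul, h4, one_pow]
  have h6 : α' ^ c = α' := by
    rw [pow_eq_pow_iff_modEq.2 (c1.of_dvd (orderOf_dvd_of_pow_eq_one h1)), pow_one]
  set γ := α ^ c with hγ
  have e1 : ∀ t, π (γ t) = α' (π t) := fun t => by rw [hγ, e', h6]
  have e2 : ∀ (n : ℕ) t, π ((γ ^ n) t) = (α' ^ n) (π t) := fun n t => by
    rw [hγ, ← pow_mul, e', pow_mul, h6]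
  have inj : ∀ t, π (γ t * t⁻¹) = 1 → γ t * t⁻¹ = 1 := fun t ht => by
    have h7 := pow_apply_of_fix γ (hk' c _ ht) m
    rw [h5, MulAut.one_apply, right_eq_mul] at h7
    exact (pow_eq_one_iff_of_coprime (hm.pow_right k)).1 ⟨h7, hT _⟩
  refine ⟨c, ⟨m, hm, h5⟩, fun h => h2 ?_, fun t s ht hs => ?_⟩
  · ext y
    obtain ⟨t, rfl⟩ := hπ y
    rw [← e1, show γ = 1 from h]; rfl
  · obtain ⟨n, hn⟩ := h3 (π t) (π s) (fun h => ht (inj t (by rw [map_mul, map_inv, e1, h])))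
      (fun h => hs (inj s (by rw [map_mul, map_inv, e1, h])))
    refine ⟨n, ?_⟩
    have e3 : (γ ^ n) (γ t * t⁻¹) * (γ s * s⁻¹)⁻¹ = γ ((γ ^ n) t * s⁻¹) * ((γ ^ n) t * s⁻¹)⁻¹ := by
      have : (γ ^ n) (γ t) = γ ((γ ^ n) t) := by
        rw [← MulAut.mul_apply, ← MulAut.mul_apply, ← pow_succ, ← pow_succ']
      rw [map_mul, map_inv, map_mul, map_inv, this, mul_inv_rev, mul_inv_rev, inv_inv, mul_assoc, mul_assoc,
        hc ((γ ^ n) t)⁻¹, hc s, mul_assoc]
    rw [← mul_inv_eq_one, e3]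
    refine inj _ ?_
    rw [← e3, map_mul π, map_inv π, e2, map_mul π, map_mul π, map_inv π, map_inv π, e1, e1, hn,
      mul_inv_cancel]

theorem nmor_apply_mem {Ω : Type*} [Group Ω] {S T P : Subgroup Ω} {F : FusionSystem S} {f : Ω → Ω}
    (h : NMor F T P f) (hP : T ≤ P) : ∀ t ∈ T, f t ∈ T := fun t ht => by
  obtain ⟨-, g, -, h1, h2⟩ := h
  rw [← h1 t (hP ht), ← h2]
  exact mem_img_of_mem g (h2.symm ▸ ht)

theorem normal_or_good {p : ℕ} [Fact p.Prime] (hp : p ≠ 2) {Ω : Type u} [Group Ω] {S : Subgroup Ω}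
    [Finite S] {F : FusionSystem S} (hS : IsPGroup p S) (hF : F.IsSaturated p) {T : Subgroup Ω}
    (hT : T ≤ centralizerIn S S)
    (h : ∀ P f, NMor F (thompsonSubgroupAOf S) P f → T ≤ P → ∀ t ∈ T, f t ∈ T) :
    F.IsNormal T ∨ ∃ α ∈ F.autGroup T, GoodA p α := by
  have hW := posFunctor_thompsonA.{u} p
  refine fs_induction (M := fun {Ω} _ {S} F => IsPGroup p S → F.IsSaturated p → ∀ T : Subgroup Ω,
    T ≤ centralizerIn S S → (∀ P f, NMor F (thompsonSubgroupAOf S) P f → T ≤ P → ∀ t ∈ T, f t ∈ T) →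
    F.IsNormal T ∨ ∃ α ∈ F.autGroup T, GoodA p α)
    (fun Ω _ S _ F ih1 ih2 hS hF T hT h => ?_) Ω S F hS hF T hT h
  refine or_iff_not_imp_right.2 fun hG => ?_
  have TS : T ≤ S := hT.trans centralizerIn_le
  have TC : T ≤ Subgroup.centralizer (S : Set Ω) := hT.trans inf_le_right
  have SC : S ≤ Subgroup.centralizer (T : Set Ω) := Subgroup.le_centralizer_iff.1 TC
  have SN : S ≤ Subgroup.normalizer (T : Set Ω) := SC.trans (Subgroup.centralizer_le_normalizer _)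
  have TW := hT.trans (centralizerIn_self_le_WOf (W := fun (Q : Type u) [Group Q] => thompsonSubgroupA Q)
    (fun Q _ _ _ => center_le_thompsonA) hS)
  obtain ⟨E, hE⟩ := exists_nsys_top F TS SN
  have hih : ∀ (U : Subgroup Ω) (D : FusionSystem U), D.IsSaturated p → D.IsSubsystemOf F →
      ¬ F.IsSubsystemOf D → centralizerIn S S ≤ U →
      (∀ P f, NMor D (WOf (fun (Q : Type u) [Group Q] => thompsonSubgroupA Q) U) P f → Mor E P f) →
      D.IsSubsystemOf E := by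
    intro U D h1 h2 h3 h4 h5
    have : Finite U := H17.finite_of_le (le_of_subsystem h2)
    have h6 := ih2 U D h2 h3 (hS.to_le (le_of_subsystem h2)) h1 T (le_inf (hT.trans h4)
      (TC.trans (Subgroup.centralizer_le (le_of_subsystem h2))))
      fun P f hf hP => nmor_apply_mem ((hE P f).1 (h5 P f hf)) hP
    rcases h6 with h6 | ⟨α, h6, h7⟩
    · exact subsystem_iff.2 fun P f hf => (hE P f).2 (nmor_mono h2 (nmor_of_normal h6 hf))
    · refine absurd ⟨α, ?_, h7⟩ hG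
      have h8 := le_of_subsystem h2
      exact (mem_autGroup TS (fun x => (extF_coe (T.subtype.comp α.toMonoidHom) x).symm)).2
        (H18.Mor.of_sub h2 ((mem_autGroup (hT.trans h4)
          (fun x => (extF_coe (T.subtype.comp α.toMonoidHom) x).symm)).1 h6))
  have hNE : ∀ P f, NMor F (WOf (fun (Q : Type u) [Group Q] => thompsonSubgroupA Q) S) P f →
      Mor E P f := fun P f hf => by
    obtain ⟨g, h1, h2, h3, -⟩ := nmor_ext hf
    exact (hE P f).2 ⟨le_inf hf.mor.le (hf.mor.le.trans SN), g, h2.mono (sup_le_sup_left TW _), h3,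
      h2.img_eq_of_le (TW.trans le_sup_right) (h _ _ h1 (TW.trans le_sup_right))⟩
  rcases control_cases hW hS hF le_rfl hNE hih with h1 | h1 | ⟨h1, h2, h3⟩
  · exact hE.normal_of_sub h1
  · obtain ⟨G, _, _, P, j, k, hI, hc, -⟩ := exists_sylow_model hS h1
    have hj := hW.img_eq hS hI.toPIso
    have h2 : img j T ≤ centralizerIn (P : Subgroup G) P := by
      have := img_mono j hT
      rwa [hI.img_centralizerIn_top le_rfl, hI.img_top] at this
    refine hI.normal_of_group TS (by_contra fun hn => hG ?_)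
    obtain ⟨x, hx, ⟨m, hm, h3⟩, ⟨t₀, ht₀, h4⟩, h5⟩ := good_group hp (sylIn_top P) hc h2 (fun g hg => by
      rw [← H5b.thompsonAOf_eq_Jn] at hg
      have hg' : g ∈ Subgroup.normalizer
          (img j (WOf (fun (Q : Type u) [Group Q] => thompsonSubgroupA Q) S) : Set G) := by
        rw [hj]; exact hg
      have h4 : ∀ x ∈ WOf (fun (Q : Type u) [Group Q] => thompsonSubgroupA Q) S,
          g * j x * g⁻¹ ∈ (P : Subgroup G) := fun x hx =>
        hI.img_le (WOf_le S) (conj_mem_of_mem_normalizer hg' (mem_img_of_mem j hx))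
      have h5 := h _ _ (hI.nmor_group_of (f := fun x => k (g * j x * g⁻¹)) (WOf_le S)
        (le_normalizerIn (WOf_le S)) (fun x hx => hI.mk' _ (h4 x hx)) hg'
        fun x hx => hI.jk _ (h4 x hx)) TW
      refine H22.mem_N_of_cj_le (H22.cj_le_iff'.2 fun y hy => ?_)
      obtain ⟨t, ht, rfl⟩ := hI.exists_of_mem_img TS hy
      rw [← hI.jk _ (h4 t (TW ht))]
      exact mem_img_of_mem j (h5 t ht)) hn
    have h6 : ∀ t ∈ T, x * j t * x⁻¹ ∈ img j T := fun t ht => H22.conj_mem_of_N hx (mem_img_of_mem j ht)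
    have h7 : ∀ t ∈ T, x * j t * x⁻¹ ∈ (P : Subgroup G) := fun t ht => hI.img_le TS (h6 t ht)
    have hf : Mor F T fun t => k (x * j t * x⁻¹) := hI.mor_group_iff.2
      ⟨TS, fun t ht => hI.mk' _ (h7 t ht), x, fun t ht => hI.jk _ (h7 t ht)⟩
    obtain ⟨α, hα, e⟩ := hf.exists_aut (hf.img_eq_of_le le_rfl fun t ht => ((hI.mem_img TS).1 (h6 t ht)).2)
    have e1 : ∀ t : T, j (α t) = x * j t * x⁻¹ := fun t => by rw [e, hI.jk _ (h7 t t.2)]
    have e2 : ∀ (n : ℕ) (t : T), j ((α ^ n) t) = x ^ n * j t * (x ^ n)⁻¹ := fun n t => by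
      induction n with
      | zero => simp
      | succ n ih => rw [pow_succ', MulAut.mul_apply, e1, ih, pow_succ']; group
    have inj : ∀ s t : T, j s = j t → s = t := fun s t h => Subtype.ext (hI.injOn (TS s.2) (TS t.2) h)
    have e3 : ∀ t : T, j (α t * t⁻¹ : T) = ⁅x, j t⁆ := fun t => by
      rw [Subgroup.coe_mul, hI.hj.map_mul (TS (α t).2) (TS t⁻¹.2), e1, Subgroup.coe_inv,
        hI.hj.map_inv (TS t.2), commutatorElement_def]
    have e4 : ∀ t : T, α t * t⁻¹ ≠ 1 → ⁅x, j t⁆ ≠ 1 := fun t h h' =>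
      h (inj _ _ (by rw [e3, h', Subgroup.coe_one, hI.hj.map_one]))
    refine ⟨α, hα, ⟨m, hm, ?_⟩, fun h => h4 ?_, fun t s ht hs => ?_⟩
    · ext t
      exact congrArg Subtype.val (inj _ _ (by rw [e2, h3 _ (mem_img_of_mem j t.2)]; rfl))
    · obtain ⟨t, ht, rfl⟩ := hI.exists_of_mem_img TS ht₀
      rw [← e3 ⟨t, ht⟩, h, MulAut.one_apply, mul_inv_cancel, Subgroup.coe_one, hI.hj.map_one]
    · obtain ⟨n, hn⟩ := h5 _ (mem_img_of_mem j t.2) _ (mem_img_of_mem j s.2) (e4 t ht) (e4 s hs)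
      exact ⟨n, inj _ _ (by rw [e2, e3, e3, hn])⟩
  · obtain ⟨Ω', _, S', _, F', a, ha, hK, hS', hF'⟩ := exists_surj_quot hS hF (normal_sc (normal_core F))
    obtain ⟨D, hD1, hD2, hD3, hD4⟩ := exists_proper_lift hS hF ha hK (WOf_le S') (hW.le_normalizer hS')
      (hW.WOf_ne_bot hS' (surj_ne_bot ha (hK ▸ h2)))
    have hDE := hih S D hD1 hD2 hD3 centralizerIn_le fun P f hf => hNE P f (nmor_mono hD2 hf)
    have haT := ha.hom.mono TS
    have hT' : img a T ≤ centralizerIn S' S' := img_le_iff.2 fun t ht =>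
      ⟨ha.mem t (TS ht), ha.top ▸ ha.hom.map_mem_centralizer le_rfl (TS ht) (TC ht)⟩
    have h4 := ih1 Ω' S' F' (surj_card_lt ha (hK ▸ h1)) hS' hF' (img a T) hT'
      fun P' f' hf hP y hy => by
        obtain ⟨f, h4, h5⟩ := hD4 P' f' hf
        obtain ⟨t, ht, rfl⟩ := haT.mem_img.1 hy
        have h6 : T ≤ pre S a P' := le_pre TS hP
        rw [h5 t (h6 ht)]
        exact mem_img_of_mem a (nmor_apply_mem ((hE _ _).1 (H18.Mor.of_sub hDE h4)) h6 t ht)
    rcases h4 with h4 | ⟨α', h4, h5⟩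
    · have h5 : T ≤ F.core := hK ▸ le_pre TS (core_eq_bot_of_isPGroup hS hF ha hK h3 ▸ le_core h4)
      exact central_normal (central_of_isPGroup hS hF (normal_core F) h3 h5 TC)
    refine absurd ?_ hG
    have TS' : img a T ≤ S' := hT'.trans centralizerIn_le
    have SC' : S' ≤ Subgroup.centralizer (img a T : Set Ω') :=
      Subgroup.le_centralizer_iff.1 (hT'.trans inf_le_right)
    have h6 := (mem_autGroup TS' (fun x => (extF_coe ((img a T).subtype.comp α'.toMonoidHom) x).symm)).1 h4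
    obtain ⟨σ, h7, h8⟩ := sat_ext_centralizer hS' hF' h6 (by
      rw [h6.img_eq_of_le le_rfl fun x hx => by rw [extF_of_mem _ hx]; exact (α' ⟨x, hx⟩).2]
      exact fc_of_central F' TS' SC')
    obtain ⟨f, h9, h10⟩ := hD4 S' σ (hW.nmor_top hS' (h7.mono ((le_inf le_rfl SC').trans le_sup_right)))
    have h11 : T ≤ pre S a S' := le_pre TS TS'
    have hf : Mor F T f := (H18.Mor.of_sub hD2 h9).mono h11
    obtain ⟨α, hα, e⟩ := hf.exists_aut (hf.img_eq_of_le le_rfl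
      (nmor_apply_mem ((hE _ _).1 (H18.Mor.of_sub hDE h9)) h11))
    obtain ⟨s, hs, h12⟩ := exists_conj_of_isPGroup hS hF (normal_core F) h3 hf
    have : Finite T := H17.finite_of_le TS
    obtain ⟨c, hc⟩ := h5.lift (α := α) (by
        obtain ⟨k, hk⟩ := IsPGroup.iff_card.1 (hS.to_le TS)
        exact ⟨k, fun t => by rw [← hk, pow_card_eq_one']⟩)
      (fun x y => Subtype.ext (SC (TS y.2) x x.2))
      (haT.toHom.codRestrict (img a T) fun t => mem_img_of_mem a t.2)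
      (fun y => by
        obtain ⟨t, ht, e⟩ := haT.mem_img.1 y.2
        exact ⟨⟨t, ht⟩, Subtype.ext e⟩)
      (fun t => Subtype.ext (by
        show a (α t) = _
        rw [e, ← h10 t (h11 t.2), h8 _ (mem_img_of_mem a t.2), extF_of_mem _ (mem_img_of_mem a t.2)]
        rfl))
      (fun t ht => Subtype.ext (by
        have h13 : (t : Ω) ∈ F.core := hK ▸ ha.hom.mem_ker.2 ⟨TS t.2, congrArg Subtype.val ht⟩
        rw [e, h12 t t.2 h13, TC t.2 s hs, mul_inv_cancel_right]))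
    exact ⟨α ^ c, pow_mem hα c, hc⟩

theorem GoodA.final {p : ℕ} {T : Type*} [Group T] [Finite T] (hc : ∀ a b : T, a * b = b * a)
    {α : MulAut T} (h : GoodA p α) : Subgroup.zpowers α ≠ ⊥ ∧ IsCyclic (Subgroup.zpowers α) ∧
      (Nat.card (Subgroup.zpowers α)).Coprime p ∧ ∀ a b : T,
      a ∈ Subgroup.closure {y : T | ∃ ψ ∈ Subgroup.zpowers α, ∃ t : T, y = ψ t * t⁻¹} →
      b ∈ Subgroup.closure {y : T | ∃ ψ ∈ Subgroup.zpowers α, ∃ t : T, y = ψ t * t⁻¹} → a ≠ 1 → b ≠ 1 →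
      ∃ ψ ∈ Subgroup.zpowers α, ψ a = b := by
  obtain ⟨⟨m, hm, h1⟩, h2, h3⟩ := h
  let Y : Subgroup T :=
    { carrier := {y | ∃ t, y = α t * t⁻¹}
      one_mem' := ⟨1, by simp⟩
      mul_mem' := by
        rintro _ _ ⟨t, rfl⟩ ⟨s, rfl⟩
        exact ⟨t * s, by rw [map_mul, mul_inv_rev, mul_assoc, hc t⁻¹, mul_assoc, mul_assoc]⟩
      inv_mem' := by
        rintro _ ⟨t, rfl⟩
        exact ⟨t⁻¹, by rw [map_inv, mul_inv_rev, hc]⟩ }
  have hY : Subgroup.closure {y : T | ∃ ψ ∈ Subgroup.zpowers α, ∃ t : T, y = ψ t * t⁻¹} ≤ Y := by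
    refine (Subgroup.closure_le _).2 ?_
    rintro _ ⟨ψ, hψ, t, rfl⟩
    obtain ⟨n, rfl⟩ := (mem_powers_iff_mem_zpowers.2 hψ : ψ ∈ Submonoid.powers α)
    show (α ^ n) t * t⁻¹ ∈ Y
    clear hψ
    induction n with
    | zero => simp
    | succ n ih =>
      have : α ((α ^ n) t) * ((α ^ n) t)⁻¹ ∈ Y := ⟨_, rfl⟩
      have := Y.mul_mem this ih
      rwa [mul_assoc, inv_mul_cancel_left, ← MulAut.mul_apply, ← pow_succ'] at this
  refine ⟨fun h => h2 (Subgroup.zpowers_eq_bot.1 h), inferInstance, ?_, fun a b ha hb a1 b1 => ?_⟩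
  · rw [Nat.card_zpowers]
    exact hm.coprime_dvd_left (orderOf_dvd_of_pow_eq_one h1)
  · obtain ⟨t, rfl⟩ := hY ha
    obtain ⟨s, rfl⟩ := hY hb
    obtain ⟨n, hn⟩ := h3 t s a1 b1
    exact ⟨α ^ n, Subgroup.npow_mem_zpowers α n, hn⟩

end Cfsg.Agent.H4T
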