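import Mathlib

/-! A model of the quotient of the unitriangular group of degree five over two elements by its centre. -/

set_option autoImplicit false
set_option linter.unusedSectionVars false
set_option linter.unusedVariables false

namespace Cfsg.Agent.H4U

open Subgroup

abbrev K2 : Type := ZMod 2

/-- the quotient by the centre. -/
@[ext] structure M where
  (v1 v2 v3 w1 w2 w3 x y z : K2)
  deriving DecidableEq

namespace M

instance : Mul M := ⟨fun g h => ⟨g.v1 + h.v1, g.v2 + g.v1 * h.x + h.v2, g.v3 + g.v1 * h.z + g.v2 * h.y + h.v3,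
  h.w1 + g.x * h.w2 + g.z * h.w3 + g.w1, h.w2 + g.y * h.w3 + g.w2, h.w3 + g.w3, g.x + h.x, g.y + h.y,
  h.z + g.x * h.y + g.z⟩⟩
instance : One M := ⟨⟨0, 0, 0, 0, 0, 0, 0, 0, 0⟩⟩
instance : Inv M := ⟨fun g => ⟨-g.v1, g.v1 * g.x - g.v2, -(g.v1 * (g.x * g.y - g.z)) + g.v2 * g.y - g.v3,
  -(g.w1 - g.x * g.w2 + (g.x * g.y - g.z) * g.w3), -(g.w2 - g.y * g.w3), -g.w3, -g.x, -g.y, g.x * g.y - g.z⟩⟩

theorem mul_def (g h : M) : g * h = ⟨g.v1 + h.v1, g.v2 + g.v1 * h.x + h.v2, g.v3 + g.v1 * h.z + g.v2 * h.y + h.v3,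
  h.w1 + g.x * h.w2 + g.z * h.w3 + g.w1, h.w2 + g.y * h.w3 + g.w2, h.w3 + g.w3, g.x + h.x, g.y + h.y,
  h.z + g.x * h.y + g.z⟩ := rfl
theorem one_def : (1 : M) = ⟨0, 0, 0, 0, 0, 0, 0, 0, 0⟩ := rfl
theorem inv_def (g : M) : g⁻¹ = ⟨-g.v1, g.v1 * g.x - g.v2, -(g.v1 * (g.x * g.y - g.z)) + g.v2 * g.y - g.v3,
  -(g.w1 - g.x * g.w2 + (g.x * g.y - g.z) * g.w3), -(g.w2 - g.y * g.w3), -g.w3, -g.x, -g.y, g.x * g.y - g.z⟩ := rfl

instance : Group M := Group.ofLeftAxioms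
  (fun a b c => by simp only [mul_def]; ext <;> simp only [] <;> ring)
  (fun a => by simp only [mul_def, one_def]; ext <;> simp only [] <;> ring)
  (fun a => by simp only [mul_def, one_def, inv_def]; ext <;> simp only [] <;> ring)

def eqv : M ≃ (K2 × K2 × K2) × (K2 × K2 × K2) × (K2 × K2 × K2) where
  toFun g := ((g.v1, g.v2, g.v3), (g.w1, g.w2, g.w3), (g.x, g.y, g.z))
  invFun p := ⟨p.1.1, p.1.2.1, p.1.2.2, p.2.1.1, p.2.1.2.1, p.2.1.2.2, p.2.2.1, p.2.2.2.1, p.2.2.2.2⟩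
  left_inv _ := rfl
  right_inv _ := rfl

instance : Fintype M := Fintype.ofEquiv _ eqv.symm

theorem card_M : Nat.card M = 512 := by
  rw [Nat.card_congr eqv]; simp

def dd (x y z : K2) : M := ⟨0, 0, 0, 0, 0, 0, x, y, z⟩

def rep : M →* M := MonoidHom.mk' (fun g => dd g.x g.y g.z) fun a b => by
  simp only [mul_def, dd]; ext <;> simp

end M

open M

/-- the abelian subgroup of order 64. -/
def AM : Subgroup M := rep.ker

theorem mem_AM {g : M} : g ∈ AM ↔ g.x = 0 ∧ g.y = 0 ∧ g.z = 0 := by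
  change dd g.x g.y g.z = ⟨0, 0, 0, 0, 0, 0, 0, 0, 0⟩ ↔ _
  simp [dd]

instance : DecidablePred (· ∈ AM) := fun g => decidable_of_iff _ mem_AM.symm

instance : AM.Normal := MonoidHom.normal_ker _

theorem card_of_filter (H : Subgroup M) (p : M → Prop) [DecidablePred p] (h : ∀ g, g ∈ H ↔ p g) :
    Nat.card H = (Finset.univ.filter p).card := by
  rw [← Fintype.card_subtype, ← Nat.card_eq_fintype_card]
  exact Nat.card_congr (Equiv.subtypeEquivRight h)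

theorem card_AM : Nat.card AM = 64 := (card_of_filter AM (· ∈ AM) fun _ => Iff.rfl).trans (by decide +kernel)

theorem AM_comm {a b : M} (ha : a ∈ AM) (hb : b ∈ AM) : a * b = b * a := by
  obtain ⟨h1, h2, h3⟩ := mem_AM.1 ha
  obtain ⟨h4, h5, h6⟩ := mem_AM.1 hb
  simp only [mul_def, h1, h2, h3, h4, h5, h6]; ext <;> simp only [] <;> ring

theorem AM_sq : ∀ a ∈ AM, a * a = 1 := by decide +kernel

theorem conj_rep (s : M) {a : M} (ha : a ∈ AM) : s * a * s⁻¹ = rep s * a * (rep s)⁻¹ := by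
  have h : (rep s)⁻¹ * s ∈ AM := by
    change rep _ = 1
    rw [map_mul, map_inv]
    exact inv_mul_cancel (rep s)
  calc s * a * s⁻¹ = rep s * ((rep s)⁻¹ * s * a) * s⁻¹ := by group
    _ = _ := by rw [AM_comm h ha]; group

theorem rep_mem {s : M} : rep s ∈ AM ↔ s ∈ AM := Iff.rfl

theorem cen_AM {s : M} (h : ∀ a ∈ AM, s * a * s⁻¹ = a) : s ∈ AM := by
  have : ∀ x y z, (∀ a ∈ AM, dd x y z * a * (dd x y z)⁻¹ = a) → dd x y z ∈ AM := by decide +kernel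
  exact this s.x s.y s.z fun a ha => (conj_rep s ha).symm.trans (h a ha)

theorem mem_cen {G : Type*} [Group G] {a s : G} : a ∈ centralizer ({s} : Set G) ↔ s * a * s⁻¹ = a := by
  rw [mem_centralizer_singleton_iff, mul_inv_eq_iff_eq_mul, eq_comm]

theorem f2 {s : M} (h1 : s ∉ AM) (h2 : s * s ∈ AM) : Nat.card (AM ⊓ centralizer {s} : Subgroup M) = 16 := by
  have : ∀ x y z, dd x y z ∉ AM → dd x y z * dd x y z ∈ AM →
    (Finset.univ.filter fun a => a ∈ AM ∧ dd x y z * a * (dd x y z)⁻¹ = a).card = 16 := by decide +kernel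
  refine (card_of_filter _ _ fun g => ?_).trans (this s.x s.y s.z h1 ((map_mul rep s s) ▸ (rep_mem.2 h2)))
  rw [mem_inf, mem_cen]
  exact and_congr_right fun hg => by rw [conj_rep s hg]; rfl

theorem f3 (U : Subgroup M) (h : ∀ u ∈ U, u * u = 1) : Nat.card U ≤ 4 * Nat.card (U ⊓ AM : Subgroup M) := by
  have h1 : Nat.card rep.range = 8 := by
    have := card_mul_index AM
    rw [card_AM, card_M, AM, index_ker] at this
    omega
  have h2 : U.map rep < rep.range := lt_of_le_of_ne (map_le_range _ _) fun e => by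
    obtain ⟨u, hu, e1⟩ : dd 1 1 0 ∈ U.map rep := e ▸ ⟨dd 1 1 0, rfl⟩
    have := congrArg rep (h u hu)
    rw [map_mul, e1, map_one] at this
    exact absurd this (by decide)
  have h3 : Nat.card (U.map rep) ≤ 4 := by
    have d := card_dvd_of_le h2.le
    have : Nat.card (U.map rep) < Nat.card rep.range := lt_of_not_ge fun h => h2.ne (eq_of_le_of_card_ge h2.le h)
    rw [h1] at d this
    obtain ⟨k, hk, e⟩ := (Nat.dvd_prime_pow Nat.prime_two (m := 3)).1 d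
    rw [e] at this ⊢
    interval_cases k <;> simp_all
  have h4 := card_mul_index (AM.subgroupOf U)
  have h5 : (AM.subgroupOf U).index = Nat.card (U.map rep) := relIndex_ker U rep
  have h6 : Nat.card (AM.subgroupOf U) = Nat.card (U ⊓ AM : Subgroup M) := by
    rw [← inf_subgroupOf_left]
    exact Nat.card_congr (subgroupOfEquivOfLe inf_le_left).toEquiv
  rw [← h4, h5, h6]
  nlinarith

/-- the four-group condition modulo the abelian subgroup. -/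
def Four (s t : M) : Prop := s ∉ AM ∧ t ∉ AM ∧ s * t ∉ AM ∧ s * s ∈ AM ∧ t * t ∈ AM ∧ s * t * (s * t) ∈ AM

instance (s t : M) : Decidable (Four s t) := by unfold Four; infer_instance

theorem Four.rep {s t : M} (h : Four s t) : Four (rep s) (rep t) := by
  simp only [Four, ← map_mul]
  exact h

theorem f4 {s t : M} (h : Four s t) :
    Nat.card (AM ⊓ centralizer {s} ⊓ centralizer {t} : Subgroup M) = 8 := by
  have : ∀ x y z x' y' z', Four (dd x y z) (dd x' y' z') →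
    (Finset.univ.filter fun a => (a ∈ AM ∧ dd x y z * a * (dd x y z)⁻¹ = a) ∧
      dd x' y' z' * a * (dd x' y' z')⁻¹ = a).card = 8 := by decide +kernel
  refine (card_of_filter _ _ fun g => ?_).trans (this s.x s.y s.z t.x t.y t.z h.rep)
  rw [mem_inf, mem_inf, mem_cen, mem_cen]
  constructor
  · rintro ⟨⟨h1, h2⟩, h3⟩
    exact ⟨⟨h1, (conj_rep s h1).symm.trans h2⟩, (conj_rep t h1).symm.trans h3⟩
  · rintro ⟨⟨h1, h2⟩, h3⟩
    exact ⟨⟨h1, (conj_rep s h1).trans h2⟩, (conj_rep t h1).trans h3⟩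

theorem f4' {s t : M} (h : Four s t) {a : M} (ha : a ∈ AM) :
    t * (s * a * s⁻¹ * a⁻¹) * t⁻¹ = s * a * s⁻¹ * a⁻¹ := by
  have : ∀ x y z x' y' z', Four (dd x y z) (dd x' y' z') → ∀ a ∈ AM,
    dd x' y' z' * (dd x y z * a * (dd x y z)⁻¹ * a⁻¹) * (dd x' y' z')⁻¹ = dd x y z * a * (dd x y z)⁻¹ * a⁻¹ := by
    decide +kernel
  rw [conj_rep t (mul_mem (Normal.conj_mem inferInstance a ha s) (inv_mem ha)), conj_rep s ha]
  exact this s.x s.y s.z t.x t.y t.z h.rep a ha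

theorem f5 {s t : M} (h : Four s t) : ∃ c ∈ AM, s * c * s⁻¹ = c ∧ 32 ≤ {a | a ∈ AM ∧
    (s * a * s⁻¹ * a⁻¹ = 1 ∨ s * a * s⁻¹ * a⁻¹ = t * c * t⁻¹ * c⁻¹) ∧
    (t * a * t⁻¹ * a⁻¹ = 1 ∨ t * a * t⁻¹ * a⁻¹ = t * c * t⁻¹ * c⁻¹)}.ncard := by
  have : ∀ x y z x' y' z', Four (dd x y z) (dd x' y' z') → ∀ e : M,
      e = (if y = 0 ∧ y' = 0 then ⟨0, 0, 0, 1, 0, 0, 0, 0, 0⟩ else ⟨0, 0, 1, 0, 0, 0, 0, 0, 0⟩) →
      (∃ c ∈ AM, dd x y z * c * (dd x y z)⁻¹ = c ∧ dd x' y' z' * c * (dd x' y' z')⁻¹ * c⁻¹ = e) ∧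
      32 ≤ (Finset.univ.filter fun a => a ∈ AM ∧
        (dd x y z * a * (dd x y z)⁻¹ * a⁻¹ = 1 ∨ dd x y z * a * (dd x y z)⁻¹ * a⁻¹ = e) ∧
        (dd x' y' z' * a * (dd x' y' z')⁻¹ * a⁻¹ = 1 ∨ dd x' y' z' * a * (dd x' y' z')⁻¹ * a⁻¹ = e)).card := by
    intro x y z x' y' z' h e he
    subst he
    revert x y z x' y' z'
    decide +kernel
  obtain ⟨⟨c, hc, h1, h2⟩, h3⟩ := this s.x s.y s.z t.x t.y t.z h.rep _ rfl
  refine ⟨c, hc, (conj_rep s hc).trans h1, h3.trans_eq ?_⟩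
  rw [← Set.ncard_coe_finset]
  congr 1
  ext a
  simp only [Finset.coe_filter, Finset.mem_univ, true_and, Set.mem_setOf_eq]
  refine and_congr_right fun ha => ?_
  rw [conj_rep s ha, conj_rep t ha, conj_rep t hc, ← h2]
  rfl

theorem f6 {s : M} (h : s ∉ AM) : ∃ g, g * s * g⁻¹ * s⁻¹ * dd 0 0 1 ∈ AM ∨ s * dd 0 0 1 ∈ AM := by
  have : ∀ x y z, dd x y z ∉ AM → ∃ x' y', dd x' y' 0 * dd x y z * (dd x' y' 0)⁻¹ * (dd x y z)⁻¹ * dd 0 0 1 ∈ AM ∨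
    dd x y z * dd 0 0 1 ∈ AM := by decide +kernel
  obtain ⟨x', y', h1⟩ := this s.x s.y s.z h
  refine ⟨dd x' y' 0, ?_⟩
  rw [← rep_mem, ← rep_mem (s := s * _)]
  simp only [map_mul, map_inv]
  exact h1

def s0 : M := dd 1 0 0
def t0 : M := dd 0 0 1

theorem g_a : ∀ f ∈ [s0, t0, s0 * t0], ∀ f' ∈ [s0, t0, s0 * t0], ∀ a ∈ AM,
    f' * (f * a * f⁻¹ * a⁻¹) * f'⁻¹ = f * a * f⁻¹ * a⁻¹ := by decide +kernel

theorem g_b : ∀ f ∈ [s0, t0, s0 * t0], ∀ f' ∈ [s0, t0], ∀ a ∈ AM, f * a * f⁻¹ = a →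
    ∃ b ∈ AM, f' * a * f'⁻¹ * a⁻¹ = f * b * f⁻¹ * b⁻¹ := by decide +kernel

theorem g_e : ∃ e ∈ AM, ∃ u ∈ AM, ∃ u' ∈ AM, e ≠ 1 ∧ (∃ a ∈ AM, s0 * a * s0⁻¹ * a⁻¹ = e) ∧
    (∃ a ∈ AM, t0 * a * t0⁻¹ * a⁻¹ = e) ∧
    (∀ a ∈ AM, s0 * a * s0⁻¹ * a⁻¹ ∈ [1, e, u, u * e]) ∧ (∀ a ∈ AM, t0 * a * t0⁻¹ * a⁻¹ ∈ [1, e, u', u' * e]) ∧
    (∀ a ∈ [u, u * e], a ∉ [1, e, u', u' * e]) ∧
    ∀ a ∈ AM, s0 * a * s0⁻¹ = a → t0 * a * t0⁻¹ = a →
      ∃ b ∈ AM, ∃ c ∈ AM, a = (s0 * b * s0⁻¹ * b⁻¹) * (t0 * c * t0⁻¹ * c⁻¹) :=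
  ⟨⟨0, 0, 0, 1, 0, 0, 0, 0, 0⟩, by decide, ⟨0, 1, 0, 0, 0, 0, 0, 0, 0⟩, by decide, ⟨0, 0, 1, 0, 0, 0, 0, 0, 0⟩, by decide,
    by decide, ⟨⟨0, 0, 0, 0, 1, 0, 0, 0, 0⟩, by decide, by decide⟩, ⟨⟨0, 0, 0, 0, 0, 1, 0, 0, 0⟩, by decide, by decide⟩,
    by decide +kernel, by decide +kernel, by decide +kernel, fun a ha h1 h2 => by
      refine ⟨⟨a.v2, 0, 0, 0, a.w1, 0, 0, 0, 0⟩, by simp [mem_AM], ⟨a.v3, 0, 0, 0, 0, 0, 0, 0, 0⟩, by simp [mem_AM], ?_⟩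
      revert a
      decide +kernel⟩

end Cfsg.Agent.H4U
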